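import Mathlib
import Cfsg.Prelude.Def_Characters
import Cfsg.Prelude.Def_Blocks
import Cfsg.Agent.H21.BRDefs
import Cfsg.Agent.H21.BRSplit
import Cfsg.Agent.H21.BRMDefs
import Cfsg.Agent.S4441
import Cfsg.Agent.S0910
import Cfsg.Agent.H78.DefectZero
import Cfsg.Agent.H21.E2Block
import Cfsg.Agent.H21.E2Wbo
import Cfsg.Agent.H21.SimpleTools
import Cfsg.Agent.H81.BlockDeg
import Cfsg.Agent.H81.Reg
import Cfsg.Agent.H4.IrrCount

/-!
# BRM-SETUP1 (helper65, for helper21's S0996 / S4700 master theorem): the principal `p`-block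
data `B0Data` when `t = 1`, i.e. `e = p - 1`.

For `t = 1` the principal block `B` (of `p` characters) is symmetric: every member has a sign
`δ'` with `deg ≡ δ'`, value `δ'` on `P \ 1`, and `∑_B δ' χ = 0` on `p`-regular elements.  So any
non-principal member `χ₁` can play the role of the exceptional character; we choose one with
`δ' χ₁ = 1` if possible.
-/

set_option autoImplicit false
set_option linter.style.haveILetI false

namespace Cfsg.Agent.H65.BRM

open Cfsg Cfsg.Agent.H21.BR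
open scoped ComplexConjugate

theorem b0_setup_one {G : Type*} [Group G] [Finite G] [IsSimpleGroup G] (hG : ¬ IsCyclic G)
    (p : ℕ) [Fact p.Prime] (hp2 : p ≠ 2) (P : Sylow p G) (hP : Nat.card (P : Subgroup G) = p)
    (hC : Subgroup.centralizer ((P : Subgroup G) : Set G) = (P : Subgroup G))
    (he : (Subgroup.centralizer ((P : Subgroup G) : Set G)).relIndex
      (Subgroup.normalizer ((P : Subgroup G) : Set G)) = p - 1) :
    ∃ (X Y : Finset (IrrCharacter G)) (δ : IrrCharacter G → ℤ) (ε : ℤ),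
      B0Data p (P : Subgroup G) (p - 1) X Y δ ε ∧
        (ε = -1 ∨ ∀ χ ∈ X, χ ≠ one G → δ χ = -1) := by
  classical
  have hp : p.Prime := Fact.out
  have hp3 : 3 ≤ p := by
    have := hp.two_le
    omega
  -- `G` is not abelian
  have hna : ∃ u v : G, u * v ≠ v * u := by
    by_contra h
    push Not at h
    apply hG
    letI : CommGroup G := { ‹Group G› with mul_comm := h }
    exact IsSimpleGroup.isCyclic
  let _ : Fintype G := Fintype.ofFinite G
  have := Cfsg.Agent.H4.finite_irr G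
  obtain ⟨M, hM⟩ := Cfsg.Agent.H78.exists_isPModular p hp
  obtain ⟨X₀, Y₀, hB, hdisj, hX, hY, εX, ε₀, hXp, hε, hYdeg, hYeq, hYsum⟩ :=
    Cfsg.Agent.S4441.result p M hM hp2 P hP (p - 1) he
  rw [Nat.card_coe_set_eq] at hX hY
  have hXfin : X₀.Finite := Set.toFinite _
  have hY1 : Y₀.ncard = 1 := by
    rw [hY]
    exact Nat.div_self (by omega)
  obtain ⟨θ₀, hθ₀⟩ := Set.ncard_eq_one.1 hY1
  have hθ₀Y : θ₀ ∈ Y₀ := by
    rw [hθ₀]
    exact Set.mem_singleton _
  have hθ₀X : θ₀ ∉ X₀ := fun h => Set.disjoint_left.1 hdisj h hθ₀Y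
  have hval1 : ∀ ζ : IrrCharacter G, (ζ : G → ℂ) 1 = (charDegree (ζ : G → ℂ) : ℂ) :=
    fun ζ => (Cfsg.Agent.H81.irr_charDegree ζ).1
  have hpos : ∀ ζ : IrrCharacter G, 0 < charDegree (ζ : G → ℂ) :=
    fun ζ => (Cfsg.Agent.H81.irr_charDegree ζ).2
  have h0B : one G ∈ principalBlock M G := Cfsg.Agent.H81.mem_blockOf_self hM (one G)
  have hdeg0 : charDegree ((one G : IrrCharacter G) : G → ℂ) = 1 := by
    have := hval1 (one G)
    rw [Cfsg.Agent.H21.E2Block.triv_apply] at this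
    exact_mod_cast this.symm
  have hreg1 : ¬ p ∣ orderOf (1 : G) := by
    rw [orderOf_one]
    exact hp.not_dvd_one
  -- nontrivial members of the principal block have degree at least 2
  have hge2 : ∀ χ ∈ principalBlock M G, χ ≠ one G → 2 ≤ charDegree (χ : G → ℂ) := by
    intro χ hχ hne
    have h1 : charDegree (χ : G → ℂ) ≠ 1 := by
      intro h1
      have hdeg : (χ : G → ℂ) 1 = ((p : ℕ) : ℂ) ^ 0 := by rw [hval1, h1]; simp
      have := Cfsg.Agent.S0910.result p M hM hna χ hχ 0 hdeg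
      exact hne (Subtype.ext this)
    have := hpos χ
    omega
  -- finset versions
  set Xf : Finset (IrrCharacter G) := hXfin.toFinset with hXf
  have hXfmem : ∀ χ, χ ∈ Xf ↔ χ ∈ X₀ := fun χ => Set.Finite.mem_toFinset hXfin
  have hθ₀Xf : θ₀ ∉ Xf := fun h => hθ₀X ((hXfmem _).1 h)
  have hXfcard : Xf.card = p - 1 := by
    rw [← Set.ncard_eq_toFinset_card _ hXfin, hX]
  set B : Finset (IrrCharacter G) := insert θ₀ Xf with hBdef
  have hBmem : ∀ χ, χ ∈ B ↔ χ ∈ principalBlock M G := by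
    intro χ
    rw [hBdef, Finset.mem_insert, hXfmem, hB, hθ₀, Set.mem_union, Set.mem_singleton_iff,
      or_comm]
  have hBcard : B.card = p := by
    rw [hBdef, Finset.card_insert_of_notMem hθ₀Xf, hXfcard]
    omega
  set δ : IrrCharacter G → ℤ := fun χ => if χ = θ₀ then -ε₀ else εX χ with hδ
  have hδθ : δ θ₀ = -ε₀ := by
    simp [hδ]
  have hδX : ∀ χ ∈ Xf, δ χ = εX χ := by
    intro χ hχ
    have : χ ≠ θ₀ := fun h => hθ₀Xf (h ▸ hχ)
    simp [hδ, this]
  -- signs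
  have hδpm : ∀ χ ∈ B, δ χ = 1 ∨ δ χ = -1 := by
    intro χ hχ
    rw [hBdef, Finset.mem_insert] at hχ
    rcases hχ with rfl | hχ
    · rw [hδθ]
      rcases hε with h | h <;> rw [h] <;> simp
    · rw [hδX χ hχ]
      exact (hXp χ ((hXfmem χ).1 hχ)).1
  -- degrees
  have hcastp : ((p - 1 : ℕ) : ℤ) = (p : ℤ) - 1 := by
    rw [Nat.cast_sub (by omega)]
    simp
  have hδdeg : ∀ χ ∈ B, (charDegree (χ : G → ℂ) : ℤ) ≡ δ χ [ZMOD p] := by
    intro χ hχ
    rw [hBdef, Finset.mem_insert] at hχ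
    rcases hχ with rfl | hχ
    · rw [hδθ]
      have h1 := hYdeg χ hθ₀Y
      rw [hcastp] at h1
      refine h1.trans ?_
      rw [Int.modEq_iff_dvd]
      exact ⟨-ε₀, by ring⟩
    · rw [hδX χ hχ]
      exact (hXp χ ((hXfmem χ).1 hχ)).2.1
  -- outside the block
  have hout_van : ∀ ψ : IrrCharacter G, ψ ∉ B → ∀ x ∈ (P : Subgroup G), x ≠ 1 →
      (ψ : G → ℂ) x = 0 := by
    intro ψ hψ x hx hx1
    exact Cfsg.Agent.H21.E2Block.outside_vanish p M hM P hP hC ψ
      (fun h => hψ ((hBmem ψ).2 h)) x hx hx1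
  have hout_dvd : ∀ ψ : IrrCharacter G, ψ ∉ B → p ∣ charDegree (ψ : G → ℂ) :=
    fun ψ hψ => Cfsg.Agent.H21.E2Block.outside_dvd p M hM P hP hC ψ
      (fun h => hψ ((hBmem ψ).2 h))
  -- values on `P \ 1`
  have hXval : ∀ χ ∈ Xf, ∀ x ∈ (P : Subgroup G), x ≠ 1 → (χ : G → ℂ) x = (εX χ : ℂ) := by
    intro χ hχ x hx hx1
    have := (hXp χ ((hXfmem χ).1 hχ)).2.2 x hx hx1 1 (Subgroup.one_mem _) hreg1
    rwa [mul_one] at this
  have hrelX : ∀ g : G, ¬ p ∣ orderOf g →
      (ε₀ : ℂ) * (θ₀ : G → ℂ) g = ∑ χ ∈ Xf, (εX χ : ℂ) * (χ : G → ℂ) g := by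
    intro g hg
    rw [hYsum θ₀ hθ₀Y g hg, finsum_mem_eq_finite_toFinset_sum _ hXfin]
  have hrel1 : (ε₀ : ℂ) * (charDegree (θ₀ : G → ℂ) : ℂ) =
      ∑ χ ∈ Xf, (εX χ : ℂ) * (charDegree (χ : G → ℂ) : ℂ) := by
    have h1 := hrelX 1 hreg1
    rw [hval1] at h1
    rw [h1]
    exact Finset.sum_congr rfl (fun χ _ => by rw [hval1])
  have hθval : ∀ x ∈ (P : Subgroup G), x ≠ 1 → (θ₀ : G → ℂ) x = -(ε₀ : ℂ) := by
    intro x hx hx1
    have hcol := Cfsg.Agent.H4.column_orthogonality x (1 : G)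
    have hempty : Nat.card {c : G // c * x * c⁻¹ = 1} = 0 := by
      rw [Nat.card_eq_zero]
      left
      constructor
      rintro ⟨c, hc⟩
      apply hx1
      have : x = c⁻¹ * 1 * c := by rw [← hc]; group
      rw [this]; group
    rw [hempty] at hcol
    have hsupp : (Function.support fun ψ : IrrCharacter G =>
        (ψ : G → ℂ) x * conj ((ψ : G → ℂ) 1)) ⊆ ↑B := by
      intro ψ hψ
      by_contra hn
      apply hψ
      have hn' : ψ ∉ B := by simpa using hn
      show (ψ : G → ℂ) x * conj ((ψ : G → ℂ) 1) = 0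
      rw [hout_van ψ hn' x hx hx1, zero_mul]
    rw [finsum_eq_sum_of_support_subset _ hsupp, hBdef, Finset.sum_insert hθ₀Xf] at hcol
    have hXs : ∑ χ ∈ Xf, (χ : G → ℂ) x * conj ((χ : G → ℂ) 1) =
        (ε₀ : ℂ) * (charDegree (θ₀ : G → ℂ) : ℂ) := by
      rw [hrel1]
      apply Finset.sum_congr rfl
      intro χ hχ
      rw [hXval χ hχ x hx hx1, hval1, Complex.conj_natCast]
    rw [hXs, hval1, Complex.conj_natCast] at hcol
    have hf0 : (charDegree (θ₀ : G → ℂ) : ℂ) ≠ 0 := by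
      exact_mod_cast (hpos θ₀).ne'
    have h3 : (charDegree (θ₀ : G → ℂ) : ℂ) * ((θ₀ : G → ℂ) x + (ε₀ : ℂ)) = 0 := by
      push_cast at hcol
      linear_combination hcol
    rcases mul_eq_zero.mp h3 with h4 | h4
    · exact absurd h4 hf0
    · linear_combination h4
  have hBval : ∀ χ ∈ B, ∀ x ∈ (P : Subgroup G), x ≠ 1 → (χ : G → ℂ) x = (δ χ : ℂ) := by
    intro χ hχ x hx hx1
    rw [hBdef, Finset.mem_insert] at hχ
    rcases hχ with rfl | hχ
    · rw [hδθ, hθval x hx hx1]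
      push_cast
      ring
    · rw [hδX χ hχ]
      exact hXval χ hχ x hx hx1
  -- the relation on `p`-regular elements
  have hBrel : ∀ g : G, ¬ p ∣ orderOf g → ∑ χ ∈ B, (δ χ : ℂ) * (χ : G → ℂ) g = 0 := by
    intro g hg
    rw [hBdef, Finset.sum_insert hθ₀Xf, hδθ]
    have h1 : ∑ χ ∈ Xf, (δ χ : ℂ) * (χ : G → ℂ) g = ∑ χ ∈ Xf, (εX χ : ℂ) * (χ : G → ℂ) g :=
      Finset.sum_congr rfl (fun χ hχ => by rw [hδX χ hχ])
    rw [h1, ← hrelX g hg]
    push_cast
    ring
  -- the trivial character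
  have h1B : one G ∈ B := (hBmem _).2 h0B
  have hδ1 : δ (one G) = 1 := by
    have h2 := hδdeg _ h1B
    rw [hdeg0] at h2
    have h3 := h2.dvd
    rcases hδpm _ h1B with h1 | h1
    · exact h1
    · exfalso
      rw [h1] at h3
      have h4 : (p : ℤ) ∣ 2 := by
        have : (-1 : ℤ) - ((1 : ℕ) : ℤ) = -2 := by norm_num
        rw [this] at h3
        exact (dvd_neg).1 h3
      have h5 : p ∣ 2 := by exact_mod_cast h4
      have := Nat.le_of_dvd (by norm_num) h5
      omega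
  have hBge2 : ∀ χ ∈ B, χ ≠ one G → 2 ≤ charDegree (χ : G → ℂ) :=
    fun χ hχ hne => hge2 χ ((hBmem χ).1 hχ) hne
  -- the choice of `χ₁`
  have hex : ∃ χ₁ ∈ B, χ₁ ≠ one G ∧
      (δ χ₁ = 1 ∨ ∀ χ ∈ B, χ ≠ one G → δ χ = -1) := by
    by_cases h : ∃ χ₁ ∈ B, χ₁ ≠ one G ∧ δ χ₁ = 1
    · obtain ⟨χ₁, h1, h2, h3⟩ := h
      exact ⟨χ₁, h1, h2, Or.inl h3⟩
    · push Not at h
      have hcard : 1 < B.card := by omega
      obtain ⟨χ₁, h1, h2⟩ := Finset.exists_mem_ne hcard (one G)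
      refine ⟨χ₁, h1, h2, Or.inr ?_⟩
      intro χ hχ hne
      rcases hδpm χ hχ with h3 | h3
      · exact absurd h3 (h χ hχ hne)
      · exact h3
  obtain ⟨χ₁, hχ₁B, hχ₁ne, hχ₁⟩ := hex
  refine ⟨B.erase χ₁, {χ₁}, δ, -δ χ₁, ?_, ?_⟩
  · constructor
    · -- disj
      rw [Finset.disjoint_singleton_right]
      exact Finset.notMem_erase χ₁ B
    · -- cardX
      rw [Finset.card_erase_of_mem hχ₁B, hBcard]
    · -- cardY
      rw [Finset.card_singleton, one_mul]
    · -- one_mem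
      exact Finset.mem_erase.2 ⟨fun h => hχ₁ne h.symm, h1B⟩
    · exact hδ1
    · -- δ_pm
      intro χ hχ
      exact hδpm χ (Finset.mem_of_mem_erase hχ)
    · -- ε_pm
      rcases hδpm χ₁ hχ₁B with h | h <;> rw [h] <;> simp
    · -- val_X
      intro χ hχ x hx hx1
      exact hBval χ (Finset.mem_of_mem_erase hχ) x hx hx1
    · -- agree_Y
      intro θ hθ θ' hθ' g _
      rw [Finset.mem_singleton] at hθ hθ'
      rw [hθ, hθ']
    · -- rel
      intro θ hθ g hg
      rw [Finset.mem_singleton] at hθ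
      subst hθ
      have h1 := hBrel g hg
      rw [← Finset.add_sum_erase B _ hχ₁B] at h1
      push_cast
      linear_combination (-1 : ℂ) * h1
    · -- out_dvd
      intro ψ h1 h2
      refine hout_dvd ψ ?_
      intro hψ
      rw [Finset.mem_singleton] at h2
      exact h1 (Finset.mem_erase.2 ⟨h2, hψ⟩)
    · -- out_van
      intro ψ h1 h2 x hx hx1
      refine hout_van ψ ?_ x hx hx1
      intro hψ
      rw [Finset.mem_singleton] at h2
      exact h1 (Finset.mem_erase.2 ⟨h2, hψ⟩)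
    · -- deg_X
      intro χ hχ
      exact hδdeg χ (Finset.mem_of_mem_erase hχ)
    · -- deg_Y
      intro θ hθ
      rw [Finset.mem_singleton] at hθ
      subst hθ
      refine (hδdeg θ hχ₁B).trans ?_
      rw [hcastp, Int.modEq_iff_dvd]
      exact ⟨-δ θ, by ring⟩
    · -- two_le_X
      intro χ hχ hne
      exact hBge2 χ (Finset.mem_of_mem_erase hχ) hne
    · -- two_le_Y
      intro θ hθ
      rw [Finset.mem_singleton] at hθ
      subst hθ
      exact hBge2 θ hχ₁B hχ₁ne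
  · rcases hχ₁ with h | h
    · left
      rw [h]
    · right
      intro χ hχ hne
      exact h χ (Finset.mem_of_mem_erase hχ) hne

example {G : Type*} [Group G] [Finite G] [IsSimpleGroup G] (hG : ¬ IsCyclic G)
    (p : ℕ) [Fact p.Prime] (hp2 : p ≠ 2) (P : Sylow p G) (hP : Nat.card (P : Subgroup G) = p)
    (hC : Subgroup.centralizer ((P : Subgroup G) : Set G) = (P : Subgroup G))
    (he : (Subgroup.centralizer ((P : Subgroup G) : Set G)).relIndex
      (Subgroup.normalizer ((P : Subgroup G) : Set G)) = p - 1) :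
    ∃ (X Y : Finset (IrrCharacter G)) (δ : IrrCharacter G → ℤ) (ε : ℤ),
      B0Data p (P : Subgroup G) (p - 1) X Y δ ε ∧
        (ε = -1 ∨ ∀ χ ∈ X, χ ≠ one G → δ χ = -1) := b0_setup_one hG p hp2 P hP hC he

end Cfsg.Agent.H65.BRM
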