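import Mathlib
import Cfsg.Agent.H65.QuatAct

/-!
# The group `SL(2, 3)` by finite computation (helper65)

Kernel-checked (`decide`) facts about the 24-element group `SL(2, ZMod 3)`: its quaternion
subgroup `Q` (the elements of order dividing `4`), centre, commutator subgroup, and normal subgroups.
-/

set_option autoImplicit false

namespace Cfsg.Agent.H65.SL23

open Matrix

/-- The group `SL(2, 3)`. -/
abbrev G3 : Type := Matrix.SpecialLinearGroup (Fin 2) (ZMod 3)

/-- An element of order `4`. -/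
def qi : G3 := ⟨!![0, -1; 1, 0], by decide⟩

/-- Another element of order `4`, anticommuting with `qi`. -/
def qj : G3 := ⟨!![1, 1; 1, -1], by decide⟩

/-- An element of order `3`. -/
def qt : G3 := ⟨!![1, 1; 0, 1], by decide⟩

set_option maxRecDepth 1000000 in
theorem card_G3 : Nat.card G3 = 24 := by
  rw [Nat.card_eq_fintype_card]
  decide

set_option maxRecDepth 1000000 in
theorem pow4_mul : ∀ g h : G3, g * g * (g * g) = 1 → h * h * (h * h) = 1 →
    (g * h) * (g * h) * ((g * h) * (g * h)) = 1 := by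
  decide

set_option maxRecDepth 1000000 in
theorem pow4_inv : ∀ g : G3, g * g * (g * g) = 1 → g⁻¹ * g⁻¹ * (g⁻¹ * g⁻¹) = 1 := by
  decide

set_option maxRecDepth 1000000 in
theorem pow4_conj : ∀ g h : G3, g * g * (g * g) = 1 →
    (h * g * h⁻¹) * (h * g * h⁻¹) * ((h * g * h⁻¹) * (h * g * h⁻¹)) = 1 := by
  decide

set_option maxRecDepth 1000000 in
theorem pow4_comm : ∀ g h : G3,
    (g * h * g⁻¹ * h⁻¹) * (g * h * g⁻¹ * h⁻¹) * ((g * h * g⁻¹ * h⁻¹) * (g * h * g⁻¹ * h⁻¹)) = 1 := by
  decide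

set_option maxRecDepth 1000000 in
theorem center_elems : ∀ g : G3, (∀ h : G3, h * g = g * h) → g = 1 ∨ g = -1 := by
  decide

set_option maxRecDepth 1000000 in
theorem sq_one : ∀ g : G3, g * g = 1 → g = 1 ∨ g = -1 := by
  decide

set_option maxRecDepth 1000000 in
theorem quat_words : ∀ g : G3, g * g * (g * g) = 1 → ∃ w : G3, (w = 1 ∨ w = -1) ∧
    (g = w ∨ g = w * qi⁻¹ ∨ g = w * qj⁻¹ ∨ g = w * qi⁻¹ * qj⁻¹) := by
  decide

set_option maxRecDepth 1000000 in
theorem gen_of_noncomm : ∀ c₁ c₂ g : G3, c₁ * c₁ = -1 → c₂ * c₂ = -1 → c₁ * c₂ ≠ c₂ * c₁ →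
    g * g * (g * g) = 1 →
    (g = 1 ∨ g = c₁ ∨ g = c₂ ∨ g = c₁ * c₂ ∨ g = c₁ * c₁ ∨ g = c₁ * c₁ * c₁ ∨ g = c₁ * c₁ * c₂ ∨
      g = c₁ * c₁ * (c₁ * c₂)) := by
  decide

set_option maxRecDepth 1000000 in
theorem outside_comms : ∀ g : G3, ¬ (g * g * (g * g) = 1) → ∃ h₁ h₂ : G3,
    (g⁻¹ * (h₁ * g * h₁⁻¹)) * (g⁻¹ * (h₁ * g * h₁⁻¹)) = -1 ∧
    (g⁻¹ * (h₂ * g * h₂⁻¹)) * (g⁻¹ * (h₂ * g * h₂⁻¹)) = -1 ∧
    (g⁻¹ * (h₁ * g * h₁⁻¹)) * (g⁻¹ * (h₂ * g * h₂⁻¹)) ≠
      (g⁻¹ * (h₂ * g * h₂⁻¹)) * (g⁻¹ * (h₁ * g * h₁⁻¹)) := by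
  decide

set_option maxRecDepth 1000000 in
theorem order4_conj : ∀ g : G3, g * g * (g * g) = 1 → g * g ≠ 1 → g * g = -1 ∧ ∃ h : G3,
    (h * g * h⁻¹) * (h * g * h⁻¹) = -1 ∧ g * (h * g * h⁻¹) ≠ (h * g * h⁻¹) * g := by
  decide

set_option maxRecDepth 1000000 in
theorem centralizer_Q_elems : ∀ g : G3, (∀ h : G3, h * h * (h * h) = 1 → h * g = g * h) →
    g * g * (g * g) = 1 := by
  decide

set_option maxRecDepth 1000000 in
theorem qi_comm : ∃ a b : G3, a * b * a⁻¹ * b⁻¹ = qi := by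
  decide

set_option maxRecDepth 1000000 in
theorem qj_comm : ∃ a b : G3, a * b * a⁻¹ * b⁻¹ = qj := by
  decide

set_option maxRecDepth 1000000 in
theorem basic_rel : (-1 : G3) ≠ 1 ∧ (-1 : G3) * (-1) = 1 ∧ qi * qi = -1 ∧ qj * qj = -1 ∧
    qi * qj = -1 * (qj * qi) ∧ qi * qi * (qi * qi) = 1 ∧ qj * qj * (qj * qj) = 1 ∧
    qt * qt * qt = 1 ∧ qt ≠ 1 ∧ ¬ (qt * qt * (qt * qt) = 1) := by
  decide

/-- The quaternion subgroup of `SL(2, 3)`: the elements of order dividing `4`. -/
def Q : Subgroup G3 where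
  carrier := {g | g * g * (g * g) = 1}
  mul_mem' := fun {g h} hg hh => pow4_mul g h hg hh
  one_mem' := by simp
  inv_mem' := fun {g} hg => pow4_inv g hg

theorem mem_Q {g : G3} : g ∈ Q ↔ g * g * (g * g) = 1 := Iff.rfl

instance Q_normal : Q.Normal := ⟨fun g hg h => pow4_conj g h hg⟩

theorem neg_one_central : ∀ g : G3, (-1 : G3) * g = g * (-1) := by
  intro g
  simp

theorem qi_mem_Q : qi ∈ Q := basic_rel.2.2.2.2.2.1

theorem qj_mem_Q : qj ∈ Q := basic_rel.2.2.2.2.2.2.1

theorem Q_struct : Finite Q ∧ Nat.card Q = 8 ∧ Nonempty (Q ≃* QuaternionGroup 2) :=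
  QuatAct.quat_iso (-1) qi qj Q basic_rel.1 basic_rel.2.1 neg_one_central qi_mem_Q qj_mem_Q
    basic_rel.2.2.1 basic_rel.2.2.2.1 basic_rel.2.2.2.2.1 (fun r hr => quat_words r hr)

theorem card_Q : Nat.card Q = 8 := Q_struct.2.1

theorem commutator_eq : commutator G3 = Q := by
  apply le_antisymm
  · rw [commutator_def, Subgroup.commutator_le]
    intro g _ h _
    exact pow4_comm g h
  · intro g hg
    obtain ⟨w, hw, hg'⟩ := quat_words g hg
    have hi : qi ∈ commutator G3 := by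
      obtain ⟨a, b, hab⟩ := qi_comm
      rw [← hab]
      exact Subgroup.commutator_mem_commutator (Subgroup.mem_top a) (Subgroup.mem_top b)
    have hj : qj ∈ commutator G3 := by
      obtain ⟨a, b, hab⟩ := qj_comm
      rw [← hab]
      exact Subgroup.commutator_mem_commutator (Subgroup.mem_top a) (Subgroup.mem_top b)
    have hm : (-1 : G3) ∈ commutator G3 := by
      rw [← basic_rel.2.2.1]
      exact mul_mem hi hi
    have hw' : w ∈ commutator G3 := by
      rcases hw with rfl | rfl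
      exacts [one_mem _, hm]
    rcases hg' with rfl | rfl | rfl | rfl
    · exact hw'
    · exact mul_mem hw' (inv_mem hi)
    · exact mul_mem hw' (inv_mem hj)
    · exact mul_mem (mul_mem hw' (inv_mem hi)) (inv_mem hj)

theorem mem_center_iff' {g : G3} : g ∈ Subgroup.center G3 ↔ g = 1 ∨ g = -1 := by
  rw [Subgroup.mem_center_iff]
  constructor
  · intro h
    exact center_elems g h
  · rintro (rfl | rfl) h
    · simp
    · simp

theorem card_center : Nat.card (Subgroup.center G3) = 2 := by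
  have h : (Subgroup.center G3 : Set G3) = {1, -1} := by
    ext g
    simp only [SetLike.mem_coe, mem_center_iff', Set.mem_insert_iff, Set.mem_singleton_iff]
  have h2 : Nat.card (Subgroup.center G3) = Nat.card ((Subgroup.center G3 : Set G3)) := rfl
  rw [h2, h, Nat.card_coe_set_eq, Set.ncard_pair]
  exact fun h => basic_rel.1 h.symm

/-- The normal subgroups of `SL(2, 3)`. -/
theorem normal_class (N : Subgroup G3) (hNn : N.Normal) :
    N = ⊥ ∨ N = ⊤ ∨ N = Subgroup.center G3 ∨ N = Q := by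
  by_cases hN : N ≤ Q
  · by_cases h2 : ∀ g ∈ N, g * g = 1
    · by_cases hm : (-1 : G3) ∈ N
      · right; right; left
        ext g
        rw [mem_center_iff']
        constructor
        · intro hg
          exact sq_one g (h2 g hg)
        · rintro (rfl | rfl)
          exacts [one_mem _, hm]
      · left
        rw [Subgroup.eq_bot_iff_forall]
        intro g hg
        rcases sq_one g (h2 g hg) with h | h
        · exact h
        · exact absurd (h ▸ hg) hm
    · push Not at h2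
      obtain ⟨g, hgN, hg2⟩ := h2
      right; right; right
      have hgQ := hN hgN
      obtain ⟨hgg, h, hh2, hnc⟩ := order4_conj g hgQ hg2
      have hcN : h * g * h⁻¹ ∈ N := hNn.conj_mem g hgN h
      apply le_antisymm hN
      intro q hq
      rcases gen_of_noncomm g (h * g * h⁻¹) q hgg hh2 hnc hq with
        rfl | rfl | rfl | rfl | rfl | rfl | rfl | rfl
      · exact one_mem _
      · exact hgN
      · exact hcN
      · exact mul_mem hgN hcN
      · exact mul_mem hgN hgN
      · exact mul_mem (mul_mem hgN hgN) hgN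
      · exact mul_mem (mul_mem hgN hgN) hcN
      · exact mul_mem (mul_mem hgN hgN) (mul_mem hgN hcN)
  · right; left
    obtain ⟨g, hgN, hgQ⟩ := SetLike.not_le_iff_exists.1 hN
    obtain ⟨h₁, h₂, hc1, hc2, hnc⟩ := outside_comms g hgQ
    have hc1N : g⁻¹ * (h₁ * g * h₁⁻¹) ∈ N := mul_mem (inv_mem hgN) (hNn.conj_mem g hgN h₁)
    have hc2N : g⁻¹ * (h₂ * g * h₂⁻¹) ∈ N := mul_mem (inv_mem hgN) (hNn.conj_mem g hgN h₂)
    have hQN : Q ≤ N := by
      intro q hq
      rcases gen_of_noncomm _ _ q hc1 hc2 hnc hq with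
        rfl | rfl | rfl | rfl | rfl | rfl | rfl | rfl
      · exact one_mem _
      · exact hc1N
      · exact hc2N
      · exact mul_mem hc1N hc2N
      · exact mul_mem hc1N hc1N
      · exact mul_mem (mul_mem hc1N hc1N) hc1N
      · exact mul_mem (mul_mem hc1N hc1N) hc2N
      · exact mul_mem (mul_mem hc1N hc1N) (mul_mem hc1N hc2N)
    have h8 : 8 ∣ Nat.card N := by
      rw [← card_Q]
      exact Subgroup.card_dvd_of_le hQN
    have h24 : Nat.card N ∣ 24 := by
      rw [← card_G3]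
      exact Subgroup.card_subgroup_dvd_card N
    have hne : Nat.card N ≠ 8 := by
      intro h
      have : Q = N := Subgroup.eq_of_le_of_card_ge hQN (by rw [h, card_Q])
      exact hgQ (this ▸ hgN)
    have hcard : Nat.card N = 24 := by
      obtain ⟨k, hk⟩ := h8
      rw [hk] at h24 hne ⊢
      have hk3 : k ≤ 3 := by
        have := Nat.le_of_dvd (by norm_num) h24
        omega
      interval_cases k
      · simp at h24
      · exact absurd rfl hne
      · norm_num at h24
      · rfl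
    exact N.eq_top_of_card_eq (hcard.trans card_G3.symm)

end Cfsg.Agent.H65.SL23
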