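import Cfsg.Agent.H45.S43Ree

/-!
# S2343 piece S43-HCONJ (helper65): conjugation of `R(0,u,v)` by the torus element `h(τ s, s)`
-/

set_option autoImplicit false
set_option linter.style.haveILetI false
set_option linter.unusedVariables false
set_option synthInstance.maxHeartbeats 400000
open Cfsg Cfsg.Lie

namespace Cfsg.Agent.H65.S43

open Cfsg.Agent.H45.S8 Cfsg.Agent.H22 Cfsg.Agent.H22.GEx Cfsg.Agent.H22.Ree Cfsg.Agent.H7.RT
  Cfsg.Agent.H45.S43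

universe u

theorem hconj {K : Type u} [Field K] [CharP K 3] {e : ℕ} (C : Ctx K e) [Fintype K] {m : ℕ}
    (hK : Fintype.card K = 3 ^ (2 * m + 1)) : StHConj C hK := by
  intro s
  have hs : (s : K) ≠ 0 := s.ne_zero
  have hτs : C.τ (s : K) ≠ 0 := (map_ne_zero C.τ).mpr hs
  obtain ⟨-, -, v8, v9, v10, v11⟩ := chi_vals (C.τ (s : K)) (s : K)
  have hκ0 : chi (C.τ (s : K)) (s : K) 10 ≠ 0 := by
    rw [v10]
    exact mul_ne_zero (zpow_ne_zero _ hτs) (zpow_ne_zero _ hs)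
  refine ⟨Units.mk0 _ hκ0, ?_⟩
  intro u v
  rw [Units.val_mk0]
  have hτ0 : C.τ 0 = 0 := map_zero _
  have hL : C.hh (C.τ (s : K)) (s : K) * C.SP.R C.τ 0 u v =
      C.SP.E (chi (C.τ (s : K)) (s : K) 6 * 0) (chi (C.τ (s : K)) (s : K) 7 * C.τ 0)
        (chi (C.τ (s : K)) (s : K) 8 * C.τ u) (chi (C.τ (s : K)) (s : K) 9 * C.τ v)
        (chi (C.τ (s : K)) (s : K) 10 * (u + C.τ 0 ^ 3 * 0))
        (chi (C.τ (s : K)) (s : K) 11 * (v + C.τ 0 ^ 3 * 0 ^ 2)) * C.hh (C.τ (s : K)) (s : K) := by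
    rw [USys.R_eq_E (signs_pos K C.θ), C.hh_mul_E _ _ hτs hs]
  have hR : C.SP.R C.τ 0 (chi (C.τ (s : K)) (s : K) 10 * u) ((s : K) * v) =
      C.SP.E (chi (C.τ (s : K)) (s : K) 6 * 0) (chi (C.τ (s : K)) (s : K) 7 * C.τ 0)
        (chi (C.τ (s : K)) (s : K) 8 * C.τ u) (chi (C.τ (s : K)) (s : K) 9 * C.τ v)
        (chi (C.τ (s : K)) (s : K) 10 * (u + C.τ 0 ^ 3 * 0))
        (chi (C.τ (s : K)) (s : K) 11 * (v + C.τ 0 ^ 3 * 0 ^ 2)) := by
    rw [USys.R_eq_E (signs_pos K C.θ)]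
    have e8 : C.τ (chi (C.τ (s : K)) (s : K) 10 * u) = chi (C.τ (s : K)) (s : K) 8 * C.τ u := by
      rw [map_mul, v10, v8, map_mul, map_zpow₀, map_zpow₀]
      have h3 : C.τ (C.τ (s : K)) ^ 3 = (s : K) := C.hτ _
      have h4 : C.τ (C.τ (s : K)) ^ (3 : ℤ) = (s : K) := by
        rw [zpow_ofNat]; exact h3
      rw [h4, zpow_one]; ring
    have e9 : C.τ ((s : K) * v) = chi (C.τ (s : K)) (s : K) 9 * C.τ v := by
      rw [map_mul, v9, zpow_one, zpow_zero, mul_one]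
    have e11 : (s : K) * v = chi (C.τ (s : K)) (s : K) 11 * (v + C.τ 0 ^ 3 * 0 ^ 2) := by
      rw [v11, zpow_zero, zpow_one, one_mul, hτ0]; ring
    have e10 : chi (C.τ (s : K)) (s : K) 10 * u + C.τ 0 ^ 3 * 0 =
        chi (C.τ (s : K)) (s : K) 10 * (u + C.τ 0 ^ 3 * 0) := by
      rw [hτ0]; ring
    have e11' : (s : K) * v + C.τ 0 ^ 3 * 0 ^ 2 =
        chi (C.τ (s : K)) (s : K) 11 * (v + C.τ 0 ^ 3 * 0 ^ 2) := by
      rw [← e11, hτ0]; ring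
    rw [e8, e9, e10, e11', hτ0]
    simp only [mul_zero]
  have h : C.hh (C.τ (s : K)) (s : K) * C.SP.R C.τ 0 u v =
      C.SP.R C.τ 0 (chi (C.τ (s : K)) (s : K) 10 * u) ((s : K) * v) *
        C.hh (C.τ (s : K)) (s : K) := by
    rw [hL, hR]
  apply Subtype.ext
  rw [Subgroup.coe_mul, Subgroup.coe_mul, hG_coe, rG_coe, rG_coe]
  exact congrArg (fun z : ↥(chevG2.group K) => (z : GL chevG2.Idx K)) h

example {K : Type u} [Field K] [CharP K 3] {e : ℕ} (C : Ctx K e) [Fintype K] {m : ℕ}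
    (hK : Fintype.card K = 3 ^ (2 * m + 1)) : Cfsg.Agent.H45.S43.StHConj C hK := hconj C hK

end Cfsg.Agent.H65.S43
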