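import Cfsg.Agent.H45.S43Ree

/-!
# S2343 piece S43-J (helper65): a four-group whose involutions are conjugate to `h(-1,-1)`
-/

set_option autoImplicit false
set_option linter.style.haveILetI false
set_option linter.unusedVariables false
open Cfsg Cfsg.Lie

namespace Cfsg.Agent.H65.S43

open Cfsg.Agent.H45.S8 Cfsg.Agent.H22 Cfsg.Agent.H22.GEx Cfsg.Agent.H22.Ree Cfsg.Agent.H7.RT
  Cfsg.Agent.H45.S43

universe u

theorem j {K : Type u} [Field K] [CharP K 3] {m : ℕ} (C : Ctx K (3 ^ m)) (R : ReeS8 C)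
    (hSyl : ∀ S : Sylow 2 ↥(twistedG2 K (3 ^ m)), Nat.card S = 8 ∧ ∀ x ∈ S, x * x = 1) :
    StJ C := by
  classical
  obtain ⟨S⟩ : Nonempty (Sylow 2 ↥(twistedG2 K (3 ^ m))) := Sylow.nonempty
  obtain ⟨hcard, hexp⟩ := hSyl S
  haveI : Finite S := Nat.finite_of_card_ne_zero (by rw [hcard]; norm_num)
  haveI : Fintype S := Fintype.ofFinite S
  have h3 : 2 < Fintype.card S := by
    rw [← Nat.card_eq_fintype_card, hcard]; norm_num
  obtain ⟨x0, x1, x2, h01, h02, h12⟩ := Fintype.two_lt_card_iff.mp h3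
  -- two distinct non-identity elements of `S`
  have key : ∀ x y : S, x ≠ 1 → y ≠ 1 → x ≠ y → StJ C := by
    intro x y hx1 hy1 hxy
    have hx1' : (x : ↥(twistedG2 K (3 ^ m))) ≠ 1 := fun h => hx1 (Subtype.ext h)
    have hy1' : (y : ↥(twistedG2 K (3 ^ m))) ≠ 1 := fun h => hy1 (Subtype.ext h)
    have hxx : (x : ↥(twistedG2 K (3 ^ m))) * x = 1 := hexp _ x.2
    have hyy : (y : ↥(twistedG2 K (3 ^ m))) * y = 1 := hexp _ y.2
    have hxyxy : ((x : ↥(twistedG2 K (3 ^ m))) * y) * (x * y) = 1 := hexp _ (mul_mem x.2 y.2)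
    have hcomm : (x : ↥(twistedG2 K (3 ^ m))) * y = y * x := by
      have e1 : (x : ↥(twistedG2 K (3 ^ m)))⁻¹ = x := inv_eq_of_mul_eq_one_right hxx
      have e2 : (y : ↥(twistedG2 K (3 ^ m)))⁻¹ = y := inv_eq_of_mul_eq_one_right hyy
      have e3 : ((x : ↥(twistedG2 K (3 ^ m))) * y)⁻¹ = x * y := inv_eq_of_mul_eq_one_right hxyxy
      rw [← e3, mul_inv_rev, e1, e2]
    have hxy1 : (x : ↥(twistedG2 K (3 ^ m))) * y ≠ 1 := by
      intro h
      apply hxy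
      apply Subtype.ext
      have e1 : (x : ↥(twistedG2 K (3 ^ m)))⁻¹ = x := inv_eq_of_mul_eq_one_right hxx
      rw [← e1]
      exact (eq_inv_of_mul_eq_one_left h).symm ▸ rfl
    exact ⟨x, y, hcomm, R.invConj _ _ R.a_ne R.a_sq hx1' hxx,
      R.invConj _ _ R.a_ne R.a_sq hy1' hyy, R.invConj _ _ R.a_ne R.a_sq hxy1 hxyxy⟩
  by_cases c0 : x0 = 1
  · have c1 : x1 ≠ 1 := fun h => h01 (c0.trans h.symm)
    have c2 : x2 ≠ 1 := fun h => h02 (c0.trans h.symm)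
    exact key x1 x2 c1 c2 h12
  · by_cases c1 : x1 = 1
    · have c2 : x2 ≠ 1 := fun h => h12 (c1.trans h.symm)
      exact key x0 x2 c0 c2 h02
    · exact key x0 x1 c0 c1 h01

example {K : Type u} [Field K] [CharP K 3] {m : ℕ} (C : Ctx K (3 ^ m)) (R : ReeS8 C)
    (hSyl : ∀ S : Sylow 2 ↥(twistedG2 K (3 ^ m)), Nat.card S = 8 ∧ ∀ x ∈ S, x * x = 1) :
    Cfsg.Agent.H45.S43.StJ C := j C R hSyl

end Cfsg.Agent.H65.S43
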