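import Mathlib
import Cfsg.Prelude.Def_Characters
import Cfsg.Prelude.Def_Blocks
import Cfsg.Agent.S4441
import Cfsg.Agent.S4729
import Cfsg.Agent.S0910
import Cfsg.Agent.H78.DefectZero
import Cfsg.Agent.H21.E2Block
import Cfsg.Agent.H21.SimpleTools
import Cfsg.Agent.H21.ResidueTrick
import Cfsg.Agent.H81.BlockDeg
import Cfsg.Agent.H81.Reg
import Cfsg.Agent.H4.IrrCount

/-!
# S0983-B0DATA (helper65, for helper21 / helper2): the principal `p`-block data of a
non-abelian simple group with a Sylow `p`-subgroup of order `p`, unpacked from `S4441`,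
`S0910`, `S4729`.
-/

set_option autoImplicit false

namespace Cfsg.Agent.H65.B0Data

open Cfsg Cfsg.Agent.H21 Cfsg.Agent.H21.E2Block

/-- Sum of squares of the degrees of distinct irreducible characters. -/
theorem sum_sq_le {G : Type*} [Group G] [Finite G] (S : Finset (IrrCharacter G)) :
    ∑ χ ∈ S, charDegree (χ : G → ℂ) ^ 2 ≤ Nat.card G := by
  classical
  let := Cfsg.Agent.H4.fintypeIrr G
  have hsq := Cfsg.Agent.H4.sum_irr_sq (G := G)
  rw [Cfsg.Agent.H4.finsum_irr_eq_sum] at hsq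
  have hsqN : ∑ χ : IrrCharacter G, charDegree (χ : G → ℂ) ^ 2 = Nat.card G := by
    have h1 : ∀ χ : IrrCharacter G, (χ : G → ℂ) 1 ^ 2 =
        ((charDegree (χ : G → ℂ) ^ 2 : ℕ) : ℂ) := by
      intro χ
      rw [(Cfsg.Agent.H81.irr_charDegree χ).1]
      push_cast
      ring
    rw [Finset.sum_congr rfl (fun χ _ => h1 χ)] at hsq
    exact_mod_cast hsq
  rw [← hsqN]
  exact Finset.sum_le_sum_of_subset (Finset.subset_univ _)

theorem b0_data {G : Type*} [Group G] [Finite G] [IsSimpleGroup G]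
    (hna : ∃ u v : G, u * v ≠ v * u) (p : ℕ) [Fact p.Prime] (hodd : p ≠ 2)
    (P : Sylow p G) (hP : Nat.card (P : Subgroup G) = p) (e : ℕ)
    (he : (Subgroup.centralizer ((P : Subgroup G) : Set G)).relIndex
      (Subgroup.normalizer ((P : Subgroup G) : Set G)) = e) :
    ∃ (T : Finset (IrrCharacter G)) (s : IrrCharacter G → ℤ) (y : ℕ) (ε : ℤ),
      T.card + 1 = e ∧
      (∀ χ ∈ T, (s χ = 1 ∨ s χ = -1) ∧ 2 ≤ charDegree (χ : G → ℂ) ∧
        charDegree (χ : G → ℂ) ∣ Nat.card G ∧
        ((charDegree (χ : G → ℂ) : ℤ) ≡ s χ [ZMOD p]) ∧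
        (Nat.card (Subgroup.centralizer ((P : Subgroup G) : Set G)) ≠ p →
          2 * p ≤ charDegree (χ : G → ℂ))) ∧
      (ε = 1 ∨ ε = -1) ∧ 2 ≤ y ∧ y ∣ Nat.card G ∧ ((y : ℤ) ≡ ε * (e : ℤ) [ZMOD p]) ∧
      (Nat.card (Subgroup.centralizer ((P : Subgroup G) : Set G)) ≠ p → 2 * p ≤ y) ∧
      ε * (y : ℤ) = 1 + ∑ χ ∈ T, s χ * (charDegree (χ : G → ℂ) : ℤ) ∧
      1 + ∑ χ ∈ T, charDegree (χ : G → ℂ) ^ 2 + (p - 1) / e * y ^ 2 ≤ Nat.card G := by
  classical
  have hp : p.Prime := Fact.out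
  have hp3 : 3 ≤ p := by
    have := hp.two_le
    omega
  have hG : ¬ IsMulCommutative G := by
    intro hc
    obtain ⟨u, v, huv⟩ := hna
    exact huv (hc.is_comm.comm u v)
  have hperf : commutator G = ⊤ := by
    rcases (inferInstance : (commutator G).Normal).eq_bot_or_eq_top with h0 | h0
    · exfalso
      obtain ⟨a, b, hab⟩ := hna
      rw [commutator_eq_bot_iff] at h0
      exact hab (h0.is_comm.comm a b)
    · exact h0
  obtain ⟨d, hd, hd1, hddvd, -⟩ := simple_sylow_prime_card_NC hG P hP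
  rw [he] at hd
  have he1 : e ≠ 1 := by rw [← hd]; exact hd1
  have hedvd : e ∣ p - 1 := by rw [← hd]; exact hddvd
  clear hd hd1 hddvd d
  have he0 : 0 < e := Nat.pos_of_dvd_of_pos hedvd (by omega)
  have hele : e ≤ p - 1 := Nat.le_of_dvd (by omega) hedvd
  have ht1 : 1 ≤ (p - 1) / e := Nat.div_pos hele he0
  let _ : Fintype G := Fintype.ofFinite G
  have := Cfsg.Agent.H4.finite_irr G
  obtain ⟨M, hM⟩ := Cfsg.Agent.H78.exists_isPModular p hp
  obtain ⟨X, Y, hB, hdisj, hX, hY, εX, ε, hXp, hε, hYdeg, hYeq, hYsum⟩ :=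
    Cfsg.Agent.S4441.result p M hM hodd P hP e he
  rw [Nat.card_coe_set_eq] at hX hY
  have hval1 : ∀ ζ : IrrCharacter G, (ζ : G → ℂ) 1 = (charDegree (ζ : G → ℂ) : ℂ) :=
    fun ζ => (Cfsg.Agent.H81.irr_charDegree ζ).1
  have hpos : ∀ ζ : IrrCharacter G, 0 < charDegree (ζ : G → ℂ) :=
    fun ζ => (Cfsg.Agent.H81.irr_charDegree ζ).2
  have hdvd : ∀ ζ : IrrCharacter G, charDegree (ζ : G → ℂ) ∣ Nat.card G :=
    fun ζ => Cfsg.Agent.H81.irr_charDegree_dvd ζ
  have h0B : triv G ∈ principalBlock M G := Cfsg.Agent.H81.mem_blockOf_self hM (triv G)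
  have hdeg0 : charDegree ((triv G : IrrCharacter G) : G → ℂ) = 1 := by
    have := hval1 (triv G)
    rw [triv_apply] at this
    exact_mod_cast this.symm
  have hXB : ∀ χ ∈ X, χ ∈ principalBlock M G := fun χ hχ => by rw [hB]; exact Or.inl hχ
  have hYB : ∀ χ ∈ Y, χ ∈ principalBlock M G := fun χ hχ => by rw [hB]; exact Or.inr hχ
  -- nontrivial members of the principal block have degree at least 2
  have hge2 : ∀ χ ∈ principalBlock M G, χ ≠ triv G → 2 ≤ charDegree (χ : G → ℂ) := by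
    intro χ hχ hne
    have h1 : charDegree (χ : G → ℂ) ≠ 1 := by
      intro h1
      have hdeg : (χ : G → ℂ) 1 = ((p : ℕ) : ℂ) ^ 0 := by rw [hval1, h1]; simp
      have := Cfsg.Agent.S0910.result p M hM hna χ hχ 0 hdeg
      exact hne (Subtype.ext this)
    have := hpos χ
    omega
  -- if `C(P)` is a `p`-group it is `P`
  have hCP : IsPGroup p ↥(Subgroup.centralizer ((P : Subgroup G) : Set G)) →
      Nat.card (Subgroup.centralizer ((P : Subgroup G) : Set G)) = p := by
    intro hpg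
    have hPle : (P : Subgroup G) ≤ Subgroup.centralizer ((P : Subgroup G) : Set G) := by
      have : IsCyclic (P : Subgroup G) := isCyclic_of_prime_card hP
      intro x hx
      rw [Subgroup.mem_centralizer_iff]
      intro y hy
      have := (IsCyclic.commGroup (α := (P : Subgroup G))).mul_comm ⟨y, hy⟩ ⟨x, hx⟩
      exact congrArg Subtype.val this
    have heq := P.3 hpg hPle
    rw [heq]; exact hP
  have h2p : ∀ χ ∈ principalBlock M G, χ ≠ triv G →
      Nat.card (Subgroup.centralizer ((P : Subgroup G) : Set G)) ≠ p →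
      2 * p ≤ charDegree (χ : G → ℂ) := by
    intro χ hχ hne hC
    by_contra hlt
    push Not at hlt
    apply hC
    apply hCP
    refine Cfsg.Agent.S4729.result p M hM hperf P χ hχ ?_ hlt
    intro g hg
    by_contra hg1
    refine Cfsg.Agent.H21.ResidueTrick.irr_apply_ne_degree χ ?_ g hg1 hg
    rw [hval1]
    have h2 := hge2 χ hχ hne
    intro h1
    have h3 : charDegree (χ : G → ℂ) = 1 := by exact_mod_cast h1
    omega
  have hreg1 : ¬ p ∣ orderOf (1 : G) := by
    rw [orderOf_one]; exact hp.not_dvd_one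
  have hfin : ∀ a : IrrCharacter G, (X \ {a}).Finite := fun a => Set.toFinite _
  have hYfin : Y.Finite := Set.toFinite _
  -- the degree equation, with a chosen member `a` of `X` split off
  have hkey : ∀ θ ∈ Y, ∀ a ∈ X, ε * (charDegree (θ : G → ℂ) : ℤ) =
      εX a * (charDegree (a : G → ℂ) : ℤ) +
        ∑ χ ∈ (hfin a).toFinset, εX χ * (charDegree (χ : G → ℂ) : ℤ) := by
    intro θ hθ a ha
    have h1 := hYsum θ hθ 1 hreg1
    have hXeq : X = insert a (X \ {a}) := by
      rw [Set.insert_sdiff_singleton, Set.insert_eq_of_mem ha]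
    rw [hXeq, finsum_mem_insert _ (by simp) (hfin a),
      finsum_mem_eq_finite_toFinset_sum _ (hfin a)] at h1
    have h2 : ∀ χ : IrrCharacter G, (εX χ : ℂ) * (χ : G → ℂ) 1 =
        ((εX χ * (charDegree (χ : G → ℂ) : ℤ) : ℤ) : ℂ) := by
      intro χ; rw [hval1]; push_cast; ring
    simp only [h2] at h1
    rw [hval1, ← Int.cast_sum] at h1
    exact_mod_cast h1
  have hcardT : ∀ a ∈ X, (hfin a).toFinset.card + 1 = e := by
    intro a ha
    rw [← Set.ncard_eq_toFinset_card _ (hfin a), Set.ncard_sdiff_singleton_of_mem ha, hX]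
    omega
  have hmemT : ∀ a χ, χ ∈ (hfin a).toFinset → χ ∈ X ∧ χ ≠ a := by
    intro a χ hχ
    rw [Set.Finite.mem_toFinset] at hχ
    exact ⟨hχ.1, fun h => hχ.2 (by rw [h]; rfl)⟩
  have hYne : Y.Nonempty := by
    rw [← Set.ncard_pos hYfin, hY]
    exact ht1
  by_cases h0X : triv G ∈ X
  · -- the trivial character lies in `X`
    obtain ⟨θ, hθ⟩ := hYne
    have hθne : θ ≠ triv G := by
      intro h
      exact Set.disjoint_left.1 hdisj h0X (h ▸ hθ)
    have hs0 : εX (triv G) = 1 := by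
      obtain ⟨h1, h2, -⟩ := hXp _ h0X
      rw [hdeg0] at h2
      have h3 := h2.dvd
      rcases h1 with h1 | h1
      · exact h1
      · exfalso
        rw [h1] at h3
        have h4 : (p : ℤ) ∣ 2 := by
          have : (-1 : ℤ) - ((1 : ℕ) : ℤ) = -2 := by norm_num
          rw [this] at h3
          exact (dvd_neg).1 h3
        have h5 : p ∣ 2 := by exact_mod_cast h4
        have := Nat.le_of_dvd (by norm_num) h5
        omega
    refine ⟨(hfin (triv G)).toFinset, εX, charDegree (θ : G → ℂ), ε, hcardT _ h0X, ?_, hε,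
      hge2 θ (hYB θ hθ) hθne, hdvd θ, hYdeg θ hθ, h2p θ (hYB θ hθ) hθne, ?_, ?_⟩
    · intro χ hχ
      obtain ⟨hχX, hχne⟩ := hmemT _ χ hχ
      obtain ⟨hsχ, hmodχ, -⟩ := hXp χ hχX
      exact ⟨hsχ, hge2 χ (hXB χ hχX) hχne, hdvd χ, hmodχ, h2p χ (hXB χ hχX) hχne⟩
    · have := hkey θ hθ (triv G) h0X
      rw [hs0, hdeg0] at this
      rw [this]
      norm_num
    · -- sum of squares
      have hYdegs : ∀ θ' ∈ hYfin.toFinset, charDegree (θ' : G → ℂ) ^ 2 =
          charDegree (θ : G → ℂ) ^ 2 := by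
        intro θ' hθ'
        rw [Set.Finite.mem_toFinset] at hθ'
        have h1 := hYeq θ' hθ' θ hθ 1 hreg1
        rw [hval1, hval1] at h1
        have h2 : charDegree (θ' : G → ℂ) = charDegree (θ : G → ℂ) := by exact_mod_cast h1
        rw [h2]
      have hnot : triv G ∉ (hfin (triv G)).toFinset := fun h => (hmemT _ _ h).2 rfl
      have hdisjS : Disjoint (insert (triv G) (hfin (triv G)).toFinset) hYfin.toFinset := by
        rw [Finset.disjoint_left]
        intro χ hχ hχY
        rw [Set.Finite.mem_toFinset] at hχY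
        rw [Finset.mem_insert] at hχ
        rcases hχ with rfl | hχ
        · exact Set.disjoint_left.1 hdisj h0X hχY
        · exact Set.disjoint_left.1 hdisj (hmemT _ _ hχ).1 hχY
      have h1 := sum_sq_le (insert (triv G) (hfin (triv G)).toFinset ∪ hYfin.toFinset)
      rw [Finset.sum_union hdisjS, Finset.sum_insert hnot, hdeg0,
        Finset.sum_const_nat hYdegs, ← Set.ncard_eq_toFinset_card _ hYfin, hY] at h1
      simpa using h1
  · -- the trivial character lies in `Y`
    have h0Y : triv G ∈ Y := by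
      rw [hB] at h0B
      rcases h0B with h | h
      · exact absurd h h0X
      · exact h
    have hYall : ∀ θ' ∈ Y, θ' = triv G := by
      intro θ' hθ'
      by_contra hne
      have h1 := hYeq θ' hθ' (triv G) h0Y 1 hreg1
      rw [hval1, hval1, hdeg0] at h1
      have h2 : charDegree (θ' : G → ℂ) = 1 := by exact_mod_cast h1
      have := hge2 θ' (hYB θ' hθ') hne
      omega
    have hYone : (p - 1) / e = 1 := by
      rw [← hY, Set.eq_singleton_iff_unique_mem.2 ⟨h0Y, hYall⟩, Set.ncard_singleton]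
    have hep : e = p - 1 := by
      have := Nat.div_mul_cancel hedvd
      rw [hYone, one_mul] at this
      exact this
    have hεm : ε = -1 := by
      rcases hε with h | h
      · exfalso
        have h1 := (hYdeg _ h0Y).dvd
        rw [hdeg0, h, hep] at h1
        have h4 : (p : ℤ) ∣ 2 := by
          have h5 : (1 : ℤ) * ((p - 1 : ℕ) : ℤ) - ((1 : ℕ) : ℤ) = (p : ℤ) - 2 := by
            push_cast [Nat.cast_sub hp.one_le]
            ring
          rw [h5] at h1
          have h6 := dvd_sub (dvd_refl (p : ℤ)) h1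
          have h7 : (p : ℤ) - ((p : ℤ) - 2) = 2 := by ring
          rwa [h7] at h6
        have h5 : p ∣ 2 := by exact_mod_cast h4
        have := Nat.le_of_dvd (by norm_num) h5
        omega
      · exact h
    have hXne : X.Nonempty := by
      rw [← Set.ncard_pos (Set.toFinite X), hX]
      exact he0
    obtain ⟨χ0, hχ0⟩ := hXne
    have hXtriv : ∀ χ ∈ X, χ ≠ triv G := fun χ hχ h => h0X (h ▸ hχ)
    obtain ⟨hs0, hmod0, -⟩ := hXp χ0 hχ0
    refine ⟨(hfin χ0).toFinset, εX, charDegree (χ0 : G → ℂ), -εX χ0, hcardT _ hχ0, ?_, ?_,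
      hge2 χ0 (hXB χ0 hχ0) (hXtriv χ0 hχ0), hdvd χ0, ?_,
      h2p χ0 (hXB χ0 hχ0) (hXtriv χ0 hχ0), ?_, ?_⟩
    · intro χ hχ
      obtain ⟨hχX, hχne⟩ := hmemT _ χ hχ
      obtain ⟨hsχ, hmodχ, -⟩ := hXp χ hχX
      exact ⟨hsχ, hge2 χ (hXB χ hχX) (hXtriv χ hχX), hdvd χ, hmodχ,
        h2p χ (hXB χ hχX) (hXtriv χ hχX)⟩
    · rcases hs0 with h | h
      · right; rw [h]
      · left; rw [h]; norm_num
    · refine hmod0.trans ?_
      rw [Int.modEq_iff_dvd]
      refine ⟨-εX χ0, ?_⟩
      rw [hep]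
      push_cast [Nat.cast_sub hp.one_le]
      ring
    · have := hkey (triv G) h0Y χ0 hχ0
      rw [hεm, hdeg0] at this
      push_cast at this
      linarith
    · have hnot0 : χ0 ∉ (hfin χ0).toFinset := fun h => (hmemT _ _ h).2 rfl
      have hnot : triv G ∉ insert χ0 (hfin χ0).toFinset := by
        intro h
        rw [Finset.mem_insert] at h
        rcases h with h | h
        · exact hXtriv χ0 hχ0 h.symm
        · exact hXtriv _ (hmemT _ _ h).1 rfl
      have h1 := sum_sq_le (insert (triv G) (insert χ0 (hfin χ0).toFinset))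
      rw [Finset.sum_insert hnot, Finset.sum_insert hnot0, hdeg0] at h1
      rw [hYone]
      have h2 : 1 + ∑ χ ∈ (hfin χ0).toFinset, charDegree (χ : G → ℂ) ^ 2 +
          1 * charDegree (χ0 : G → ℂ) ^ 2 =
          1 ^ 2 + (charDegree (χ0 : G → ℂ) ^ 2 +
            ∑ χ ∈ (hfin χ0).toFinset, charDegree (χ : G → ℂ) ^ 2) := by ring
      rw [h2]
      exact h1

end Cfsg.Agent.H65.B0Data
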