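import Cfsg.Agent.H21.BRDefs
import Cfsg.Agent.H21.BRSplit
import Cfsg.Agent.H21.BRMDefs
import Cfsg.Agent.H4.IrrCount
import Cfsg.Agent.H81.Reg
import Cfsg.Agent.H16.BRCol

/-!
# BRM-OUT (helper65, for helper21's S0996 / S4700 master theorem): in type B with parameter `w`,
the irreducible characters outside the principal block take the value `deg / p` at every
`p`-regular `s ≠ 1` satisfying the "Frobenius bound" `‖ψ s‖ ≤ (1/p) ∑_{x ∈ P} ψ x`.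
-/

set_option autoImplicit false
set_option linter.unusedVariables false
set_option linter.style.haveILetI false

namespace Cfsg.Agent.H65.BRM

open Cfsg Cfsg.Agent.H21.BR Cfsg.Agent.H16.BR
open scoped ComplexConjugate

theorem out_vals {G : Type*} [Group G] [Finite G] (p : ℕ) [Fact p.Prime] (hp2 : p ≠ 2)
    (P : Sylow p G) (hP : Nat.card (P : Subgroup G) = p)
    (e t w n : ℕ) (X Y : Finset (IrrCharacter G)) (δ : IrrCharacter G → ℤ) (ε : ℤ)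
    (h : B0Data p (P : Subgroup G) e X Y δ ε) (hB : TypeBw p e t w n X Y δ ε)
    (Z : Finset (IrrCharacter G)) (hZ : ∀ ψ, ψ ∈ Z ↔ ψ ∉ X ∧ ψ ∉ Y)
    (hsq : ∑ ψ ∈ Z, charDegree (ψ : G → ℂ) ^ 2 = p ^ 2 * n)
    (s : G) (hs1 : s ≠ 1) (hsp : ¬ p ∣ orderOf s)
    (hfb : ∀ ψ : G → ℂ, IsCharacter G ψ →
      ∃ w : ℕ, ∑ᶠ x : ↥(P : Subgroup G), ψ (x : G) = (p : ℂ) * (w : ℂ) ∧ ‖ψ s‖ ≤ (w : ℝ)) :
    ∀ ψ ∈ Z, (charDegree (ψ : G → ℂ) : ℂ) = (p : ℂ) * (ψ : G → ℂ) s := by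
  classical
  haveI : Fintype G := Fintype.ofFinite G
  have hp : p.Prime := Fact.out
  have hp0 : 0 < p := hp.pos
  have hpC : (p : ℂ) ≠ 0 := Nat.cast_ne_zero.mpr hp.ne_zero
  have het := hB.het
  have he2 := hB.he2
  have ht1 := hB.ht1
  have hw1 := hB.hw1
  have hn := hB.hn
  have hε := hB.hε
  have hep : e < p := by
    have h1 : e * 1 ≤ e * t := Nat.mul_le_mul_left e ht1
    omega
  have hewp : e ≤ w * p := by
    have h1 : 1 * p ≤ w * p := Nat.mul_le_mul_right p hw1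
    omega
  have hetC : (e : ℂ) * (t : ℂ) = (p : ℂ) - 1 := by
    have h1 := congrArg (Nat.cast : ℕ → ℂ) het
    rw [Nat.cast_mul, Nat.cast_sub hp.one_le, Nat.cast_one] at h1
    exact h1
  have hnC : (n : ℂ) + 1 = (t : ℂ) * (w : ℂ) := by exact_mod_cast hn
  choose u hu2 hu3 using fun ψ : IrrCharacter G =>
    hfb (ψ : G → ℂ) (Cfsg.Agent.H4.isCharacter_of_isIrrCharacter ψ.2)
  have hcardY : Y.card = t := card_Y h t het (by omega)
  have hYne : Y.Nonempty := by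
    rw [← Finset.card_pos, hcardY]
    omega
  obtain ⟨θ0, hθ0⟩ := hYne
  have hvalY : ∀ θ ∈ Y, (θ : G → ℂ) s = (θ0 : G → ℂ) s :=
    fun θ hθ => h.agree_Y θ hθ θ0 hθ0 s hsp
  have hminus : ∀ χ ∈ minusSet X δ, (χ : G → ℂ) s = 0 := by
    intro χ hχ
    have hχ' := mem_minusSet.mp hχ
    have h1 := psum_const (P : Subgroup G) p hp0 hP (χ : G → ℂ) (δ χ : ℂ)
      (fun x hx hx1 => h.val_X χ hχ'.1 x hx hx1)
    rw [hu2, irr_one_cast, hB.deg_minus χ hχ, hχ'.2] at h1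
    have h2 : (p : ℂ) * (u χ : ℂ) = 0 := by
      rw [h1, Nat.cast_sub hp.one_le]
      push_cast
      ring
    have h3 : (u χ : ℂ) = 0 := (mul_eq_zero.mp h2).resolve_left hpC
    have h4 : u χ = 0 := by exact_mod_cast h3
    have h5 := hu3 χ
    rw [h4] at h5
    have h6 : ‖(χ : G → ℂ) s‖ = 0 := le_antisymm (by exact_mod_cast h5) (norm_nonneg _)
    exact norm_eq_zero.mp h6
  have hone : ∀ g : G, ((one G : IrrCharacter G) : G → ℂ) g = 1 :=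
    fun g => Cfsg.Agent.H21.E2Block.triv_apply g
  have hsum_plus : ∑ χ ∈ plusSet X δ, (χ : G → ℂ) s = -1 - (θ0 : G → ℂ) s := by
    have h1 := h.rel θ0 hθ0 s hsp
    rw [sum_X_split h (fun χ => (δ χ : ℂ) * (χ : G → ℂ) s), h.δ_one, hε] at h1
    have h2 : ∑ χ ∈ plusSet X δ, (δ χ : ℂ) * (χ : G → ℂ) s =
        ∑ χ ∈ plusSet X δ, (χ : G → ℂ) s :=
      Finset.sum_congr rfl (fun χ hχ => by rw [(mem_plusSet.mp hχ).2.2]; simp)
    have h3 : ∑ χ ∈ minusSet X δ, (δ χ : ℂ) * (χ : G → ℂ) s = 0 :=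
      Finset.sum_eq_zero (fun χ hχ => by rw [hminus χ hχ, mul_zero])
    rw [h2, h3, hone] at h1
    push_cast at h1
    linear_combination -h1
  have hZdeg : ∀ ψ ∈ Z, (charDegree (ψ : G → ℂ) : ℂ) = (p : ℂ) * (u ψ : ℂ) := by
    intro ψ hψ
    have hψ' := (hZ ψ).mp hψ
    have h1 := psum_const (P : Subgroup G) p hp0 hP (ψ : G → ℂ) 0
      (fun x hx hx1 => h.out_van ψ hψ'.1 hψ'.2 x hx hx1)
    rw [hu2, irr_one_cast, mul_zero, add_zero] at h1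
    exact h1.symm
  have hZdegN : ∀ ψ ∈ Z, charDegree (ψ : G → ℂ) = p * u ψ := fun ψ hψ => by
    exact_mod_cast hZdeg ψ hψ
  have hsumu2 : ∑ ψ ∈ Z, (u ψ : ℝ) ^ 2 = (n : ℝ) := by
    have h1 : ∑ ψ ∈ Z, charDegree (ψ : G → ℂ) ^ 2 = p ^ 2 * ∑ ψ ∈ Z, u ψ ^ 2 := by
      rw [Finset.mul_sum]
      exact Finset.sum_congr rfl (fun ψ hψ => by rw [hZdegN ψ hψ, mul_pow])
    rw [hsq] at h1
    have h2 : n = ∑ ψ ∈ Z, u ψ ^ 2 := Nat.eq_of_mul_eq_mul_left (pow_pos hp0 2) h1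
    rw [h2]
    push_cast
    rfl
  have hsumsu : ∑ ψ ∈ Z, (ψ : G → ℂ) s * (u ψ : ℂ) = (n : ℂ) := by
    have hcol := Cfsg.Agent.H4.column_orthogonality s (1 : G)
    have hempty : Nat.card {c : G // c * s * c⁻¹ = 1} = 0 := by
      rw [Nat.card_eq_zero]
      left
      constructor
      rintro ⟨c, hc⟩
      apply hs1
      have : s = c⁻¹ * 1 * c := by rw [← hc]; group
      rw [this]
      group
    rw [hempty, sum_split h Z hZ] at hcol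
    have t1 : ((one G : IrrCharacter G) : G → ℂ) s *
        conj (((one G : IrrCharacter G) : G → ℂ) 1) = 1 := by
      rw [hone, hone]
      simp
    have t2 : ∑ χ ∈ plusSet X δ, (χ : G → ℂ) s * conj ((χ : G → ℂ) 1) =
        (1 + (n : ℂ) * (p : ℂ)) * (-1 - (θ0 : G → ℂ) s) := by
      rw [← hsum_plus, Finset.mul_sum]
      apply Finset.sum_congr rfl
      intro χ hχ
      rw [irr_one_cast, Complex.conj_natCast, hB.deg_plus χ hχ]
      push_cast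
      ring
    have t3 : ∑ χ ∈ minusSet X δ, (χ : G → ℂ) s * conj ((χ : G → ℂ) 1) = 0 :=
      Finset.sum_eq_zero (fun χ hχ => by rw [hminus χ hχ, zero_mul])
    have t4 : ∑ θ ∈ Y, (θ : G → ℂ) s * conj ((θ : G → ℂ) 1) =
        (t : ℂ) * ((θ0 : G → ℂ) s * ((w : ℂ) * (p : ℂ) - e)) := by
      rw [Finset.sum_congr rfl (fun θ hθ => by
        rw [hvalY θ hθ, irr_one_cast, Complex.conj_natCast, hB.deg_Y θ hθ,
          Nat.cast_sub hewp, Nat.cast_mul]), Finset.sum_const, hcardY, nsmul_eq_mul]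
    have t5 : ∑ ψ ∈ Z, (ψ : G → ℂ) s * conj ((ψ : G → ℂ) 1) =
        (p : ℂ) * ∑ ψ ∈ Z, (ψ : G → ℂ) s * (u ψ : ℂ) := by
      rw [Finset.mul_sum]
      apply Finset.sum_congr rfl
      intro ψ hψ
      rw [irr_one_cast, Complex.conj_natCast, hZdeg ψ hψ]
      ring
    rw [t1, t2, t3, t4, t5] at hcol
    have h5 : (p : ℂ) * ∑ ψ ∈ Z, (ψ : G → ℂ) s * (u ψ : ℂ) = (p : ℂ) * (n : ℂ) := by
      push_cast at hcol
      linear_combination hcol + (θ0 : G → ℂ) s * (p : ℂ) * hnC + (θ0 : G → ℂ) s * hetC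
    exact mul_left_cancel₀ hpC h5
  have hre : ∑ ψ ∈ Z, ((ψ : G → ℂ) s).re * (u ψ : ℝ) = (n : ℝ) := by
    have h1 := congrArg Complex.re hsumsu
    rw [Complex.re_sum] at h1
    simp only [Complex.mul_re, Complex.natCast_re, Complex.natCast_im, mul_zero, sub_zero] at h1
    exact h1
  have hle : ∀ ψ ∈ Z, ((ψ : G → ℂ) s).re * (u ψ : ℝ) ≤ (u ψ : ℝ) ^ 2 := by
    intro ψ hψ
    have h1 : ((ψ : G → ℂ) s).re ≤ (u ψ : ℝ) := (Complex.re_le_norm _).trans (hu3 ψ)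
    have h2 : (0 : ℝ) ≤ (u ψ : ℝ) := Nat.cast_nonneg _
    nlinarith
  have heq := (Finset.sum_eq_sum_iff_of_le hle).mp (hre.trans hsumu2.symm)
  intro ψ hψ
  have h1 := heq ψ hψ
  have hu0 : (u ψ : ℝ) ≠ 0 := by
    intro h0
    have h2 := hZdegN ψ hψ
    have h3 := irr_deg_pos ψ
    have h4 : u ψ = 0 := by exact_mod_cast h0
    rw [h4, mul_zero] at h2
    omega
  have h2 : ((ψ : G → ℂ) s).re = (u ψ : ℝ) := by
    have h3 : (u ψ : ℝ) * (((ψ : G → ℂ) s).re - u ψ) = 0 := by linear_combination h1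
    rcases mul_eq_zero.mp h3 with h4 | h4
    · exact absurd h4 hu0
    · linarith
  have h3 : ((ψ : G → ℂ) s).im = 0 := by
    have h4 := hu3 ψ
    have h5 : ‖(ψ : G → ℂ) s‖ ^ 2 = ((ψ : G → ℂ) s).re ^ 2 + ((ψ : G → ℂ) s).im ^ 2 := by
      rw [Complex.sq_norm, Complex.normSq_apply]
      ring
    have h6 : ‖(ψ : G → ℂ) s‖ ^ 2 ≤ (u ψ : ℝ) ^ 2 := pow_le_pow_left₀ (norm_nonneg _) h4 2
    rw [h5, h2] at h6
    have h7 : ((ψ : G → ℂ) s).im ^ 2 ≤ 0 := by linarith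
    exact pow_eq_zero_iff (two_ne_zero) |>.mp (le_antisymm h7 (sq_nonneg _))
  have h4 : (ψ : G → ℂ) s = (u ψ : ℂ) := by
    apply Complex.ext
    · rw [h2]
      simp
    · rw [h3]
      simp
  rw [hZdeg ψ hψ, h4]

example {G : Type*} [Group G] [Finite G] (p : ℕ) [Fact p.Prime] (hp2 : p ≠ 2)
    (P : Sylow p G) (hP : Nat.card (P : Subgroup G) = p)
    (e t w n : ℕ) (X Y : Finset (IrrCharacter G)) (δ : IrrCharacter G → ℤ) (ε : ℤ)
    (h : B0Data p (P : Subgroup G) e X Y δ ε) (hB : TypeBw p e t w n X Y δ ε)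
    (Z : Finset (IrrCharacter G)) (hZ : ∀ ψ, ψ ∈ Z ↔ ψ ∉ X ∧ ψ ∉ Y)
    (hsq : ∑ ψ ∈ Z, charDegree (ψ : G → ℂ) ^ 2 = p ^ 2 * n)
    (s : G) (hs1 : s ≠ 1) (hsp : ¬ p ∣ orderOf s)
    (hfb : ∀ ψ : G → ℂ, IsCharacter G ψ →
      ∃ w : ℕ, ∑ᶠ x : ↥(P : Subgroup G), ψ (x : G) = (p : ℂ) * (w : ℂ) ∧ ‖ψ s‖ ≤ (w : ℝ)) :
    ∀ ψ ∈ Z, (charDegree (ψ : G → ℂ) : ℂ) = (p : ℂ) * (ψ : G → ℂ) s :=
  out_vals p hp2 P hP e t w n X Y δ ε h hB Z hZ hsq s hs1 hsp hfb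

end Cfsg.Agent.H65.BRM
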