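import Mathlib
import Cfsg.Agent.H74.BTDefs
import Cfsg.Agent.H21.BRSplit
import Cfsg.Agent.H16.BRCol
import Cfsg.Agent.H40.BRTBG2
import Cfsg.Agent.H69.BrCCP

/-!
# S0997-B1ORD (piece for helper74): the order formula `p (p - 2) |C(τ₀)|² = |G| (p - 1)`
-/

set_option autoImplicit false
set_option linter.style.haveILetI false
set_option linter.unusedVariables false

namespace Cfsg.Agent.H65.BT

open Cfsg Cfsg.Agent.H21.BR Cfsg.Agent.H74.BT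
open scoped ComplexConjugate

universe u

theorem b1Ord : StB1Ord.{u} := by
  intro G _ _ p _ P hP hC X Y δ hb0 hdegY hsumY τ₀ hτ hinv hX0 hYτ
  classical
  have hp : p.Prime := Fact.out
  have hp3 : 3 ≤ p := by
    have h1 := hb0.cardY
    have h2 := hp.two_le
    omega
  have hp2 : p ≠ 2 := by omega
  have hone : ∀ g : G, ((one G : IrrCharacter G) : G → ℂ) g = 1 := fun g => rfl
  -- a nontrivial element of `P`
  obtain ⟨x, hxP, hx1⟩ : ∃ x ∈ (P : Subgroup G), x ≠ 1 := by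
    have h1 : 1 < Nat.card (P : Subgroup G) := by
      rw [hP]
      exact hp.one_lt
    haveI : Finite (P : Subgroup G) := Nat.finite_of_card_ne_zero (by omega)
    haveI : Nontrivial (P : Subgroup G) := Finite.one_lt_card_iff_nontrivial.mp h1
    obtain ⟨y, hy⟩ := exists_ne (1 : (P : Subgroup G))
    exact ⟨y.1, y.2, fun h => hy (Subtype.ext h)⟩
  have hτ2 : τ₀ ^ 2 = 1 := by
    rw [← hτ]
    exact pow_orderOf_eq_one τ₀
  have hτinv : τ₀⁻¹ = τ₀ := by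
    apply inv_eq_of_mul_eq_one_left
    rw [← pow_two]
    exact hτ2
  have hcount := Cfsg.Agent.H40.BRG2.card_pairs_eq p hp2 P hP hC τ₀ hτ hinv x hxP hx1
  have hccp := Cfsg.Agent.H69.Br.ccp τ₀ τ₀⁻¹ x
  rw [hcount] at hccp
  obtain ⟨Z, hZ⟩ := exists_out X Y
  rw [sum_split hb0 Z hZ] at hccp
  have hF1 : ((one G : IrrCharacter G) : G → ℂ) τ₀ * ((one G : IrrCharacter G) : G → ℂ) τ₀⁻¹ *
      conj (((one G : IrrCharacter G) : G → ℂ) x) / ((one G : IrrCharacter G) : G → ℂ) 1 = 1 := by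
    rw [hone, hone, hone, hone]
    simp
  have hFplus : ∑ χ ∈ plusSet X δ, (χ : G → ℂ) τ₀ * (χ : G → ℂ) τ₀⁻¹ * conj ((χ : G → ℂ) x) /
      (χ : G → ℂ) 1 = 0 := by
    apply Finset.sum_eq_zero
    intro χ hχ
    obtain ⟨hχX, hχ1, -⟩ := mem_plusSet.1 hχ
    rw [hX0 χ hχX hχ1]
    simp
  have hFminus : ∑ χ ∈ minusSet X δ, (χ : G → ℂ) τ₀ * (χ : G → ℂ) τ₀⁻¹ * conj ((χ : G → ℂ) x) /
      (χ : G → ℂ) 1 = 0 := by
    apply Finset.sum_eq_zero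
    intro χ hχ
    obtain ⟨hχX, hδ⟩ := mem_minusSet.1 hχ
    have hχ1 : χ ≠ one G := by
      intro h
      rw [h, hb0.δ_one] at hδ
      norm_num at hδ
    rw [hX0 χ hχX hχ1]
    simp
  have hpC : ((p - 2 : ℕ) : ℂ) = (p : ℂ) - 2 := by
    rw [Nat.cast_sub (by omega)]
    norm_num
  have hp2C : (p : ℂ) - 2 ≠ 0 := by
    rw [← hpC]
    exact_mod_cast (by omega : p - 2 ≠ 0)
  have hFY : ∑ θ ∈ Y, (θ : G → ℂ) τ₀ * (θ : G → ℂ) τ₀⁻¹ * conj ((θ : G → ℂ) x) / (θ : G → ℂ) 1 =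
      1 / ((p : ℂ) - 2) := by
    have h1 : ∀ θ ∈ Y, (θ : G → ℂ) τ₀ * (θ : G → ℂ) τ₀⁻¹ * conj ((θ : G → ℂ) x) / (θ : G → ℂ) 1 =
        conj ((θ : G → ℂ) x) / ((p : ℂ) - 2) := by
      intro θ hθ
      rw [hτinv, hYτ θ hθ, Cfsg.Agent.H16.BR.irr_one_cast, hdegY θ hθ, hpC]
      ring
    rw [Finset.sum_congr rfl h1, ← Finset.sum_div, ← map_sum, hsumY x hxP hx1, map_one]
  have hFZ : ∑ ψ ∈ Z, (ψ : G → ℂ) τ₀ * (ψ : G → ℂ) τ₀⁻¹ * conj ((ψ : G → ℂ) x) /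
      (ψ : G → ℂ) 1 = 0 := by
    apply Finset.sum_eq_zero
    intro ψ hψ
    obtain ⟨h1, h2⟩ := (hZ ψ).1 hψ
    rw [hb0.out_van ψ h1 h2 x hxP hx1]
    simp
  rw [hF1, hFplus, hFminus, hFY, hFZ] at hccp
  have hfin : ((p * (p - 2) * Nat.card (Subgroup.centralizer ({τ₀} : Set G)) ^ 2 : ℕ) : ℂ) =
      ((Nat.card G * (p - 1) : ℕ) : ℂ) := by
    have hp1C : ((p - 1 : ℕ) : ℂ) = (p : ℂ) - 1 := by
      rw [Nat.cast_sub (by omega)]
      norm_num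
    push_cast at hccp ⊢
    rw [hpC, hp1C]
    have h3 : (p : ℂ) * (Nat.card (Subgroup.centralizer ({τ₀} : Set G)) : ℂ) ^ 2 * ((p : ℂ) - 2) =
        (Nat.card G : ℂ) * ((p : ℂ) - 1) := by
      rw [hccp]
      field_simp
      ring
    linear_combination h3
  exact_mod_cast hfin

example : StB1Ord.{u} := b1Ord

end Cfsg.Agent.H65.BT
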