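import Mathlib
import Cfsg.Agent.H74.BTDefs
import Cfsg.Agent.H79.GaloisAct
import Cfsg.Agent.H79.CharBasic
import Cfsg.Agent.H81.Lambda

/-!
# S0997-B2INT (piece for helper74): the exceptional characters are integral on `p`-regular
elements
-/

set_option autoImplicit false
set_option linter.style.haveILetI false
set_option linter.unusedVariables false

namespace Cfsg.Agent.H65.BT

open Cfsg Cfsg.Agent.H21.BR Cfsg.Agent.H74.BT
open scoped ComplexConjugate

universe u

theorem b2Int : StB2Int.{u} := by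
  intro G _ _ p e _ P X Y δ θ₁ θ₂ hB g hg
  classical
  haveI : Fintype G := Fintype.ofFinite G
  have hp : p.Prime := Fact.out
  have hb0 := hB.b0
  have hθ₁Y : θ₁ ∈ Y := (hB.hY θ₁).2 (Or.inl rfl)
  have hpe : p = 2 * e + 1 := by
    have h1 := hB.he
    have h2 := hp.two_le
    omega
  have he1 : 1 ≤ e := by
    rcases Nat.eq_zero_or_pos e with h0 | h0
    · exfalso
      rw [h0] at hpe
      exact hp.one_lt.ne' hpe
    · exact h0
  have hn : 0 < Fintype.card G := Fintype.card_pos
  have hcard : Nat.card G = Fintype.card G := Nat.card_eq_fintype_card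
  -- a nontrivial element of `P`
  obtain ⟨x, hxP, hx1⟩ : ∃ x ∈ P, x ≠ 1 := by
    have h1 : 1 < Nat.card P := by
      rw [hB.cardP]
      exact hp.one_lt
    haveI : Finite P := Nat.finite_of_card_ne_zero (by omega)
    haveI : Nontrivial P := Finite.one_lt_card_iff_nontrivial.mp h1
    obtain ⟨y, hy⟩ := exists_ne (1 : P)
    exact ⟨y.1, y.2, fun h => hy (Subtype.ext h)⟩
  have hkey : ∀ k : ℕ, k.Coprime (Nat.card G) → (θ₁ : G → ℂ) (g ^ k) = (θ₁ : G → ℂ) g := by
    intro k hk
    obtain ⟨η, hη⟩ : ∃ η, η = Cfsg.Agent.H79.irrPow k hk θ₁ := ⟨_, rfl⟩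
    have hηdeg : charDegree (η : G → ℂ) = e + 1 := by
      rw [hη, Cfsg.Agent.H79.charDegree_irrPow, hB.deg₁]
    have hηY : η ∈ Y := by
      by_contra hηY
      by_cases hηX : η ∈ X
      · have hv := hb0.val_X η hηX x hxP hx1
        rw [hη, Cfsg.Agent.H79.irrPow_apply] at hv
        have hyP : x ^ k ∈ P := P.pow_mem hxP k
        have hy1 : x ^ k ≠ 1 := by
          intro hxk
          have h1 : orderOf x ∣ k := orderOf_dvd_of_pow_eq_one hxk
          have h2 : orderOf x ∣ Nat.card G := orderOf_dvd_natCard x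
          have h3 := Nat.dvd_gcd h1 h2
          rw [Nat.Coprime] at hk
          rw [hk] at h3
          exact hx1 (orderOf_eq_one_iff.1 (Nat.dvd_one.1 h3))
        have hs := hB.hsum (x ^ k) hyP hy1
        have hpr := hB.hprod (x ^ k) hyP hy1
        rw [← hη] at hv
        rcases hb0.δ_pm η hηX with hδ | hδ
        · rw [hδ] at hv
          push_cast at hv
          rw [hv] at hs hpr
          have h2 : (θ₂ : G → ℂ) (x ^ k) = 0 := by linear_combination hs
          rw [h2] at hpr
          have h3 : (e : ℂ) = 0 := by linear_combination hpr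
          have h4 : e = 0 := by exact_mod_cast h3
          omega
        · rw [hδ] at hv
          push_cast at hv
          rw [hv] at hs hpr
          have h2 : (θ₂ : G → ℂ) (x ^ k) = 2 := by linear_combination hs
          rw [h2] at hpr
          have h3 : (e : ℂ) = 4 := by linear_combination hpr
          have h4 : e = 4 := by exact_mod_cast h3
          rw [h4] at hpe
          rw [hpe] at hp
          norm_num at hp
      · have h1 := hb0.out_dvd η hηX hηY
        rw [hηdeg] at h1
        have h2 := Nat.le_of_dvd (by omega) h1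
        omega
    have h := hb0.agree_Y η hηY θ₁ hθ₁Y g hg
    rw [hη, Cfsg.Agent.H79.irrPow_apply] at h
    exact h
  obtain ⟨m, ρ, -, hχ⟩ := θ₁.2
  obtain ⟨f, -, -, hf⟩ := Cfsg.Agent.H79.exists_poly_char ρ g
  obtain ⟨ζ, hζdef⟩ : ∃ ζ : ℂ, ζ = Cfsg.Agent.H79.stdRoot (Fintype.card G) := ⟨_, rfl⟩
  have hζ : IsPrimitiveRoot ζ (Fintype.card G) := by
    rw [hζdef]
    exact Cfsg.Agent.H79.stdRoot_spec hn
  rw [← hζdef] at hf
  have hf' : ∀ k : ℕ, (θ₁ : G → ℂ) (g ^ k) = Polynomial.aeval (ζ ^ k) f := by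
    intro k
    rw [← hχ]
    exact hf k
  have hf1 : (θ₁ : G → ℂ) g = Polynomial.aeval ζ f := by
    have h1 := hf' 1
    rw [pow_one, pow_one] at h1
    exact h1
  have hinv : ∀ i : ℕ, i.Coprime (Fintype.card G) →
      Polynomial.aeval (ζ ^ i) f = Polynomial.aeval ζ f := by
    intro i hi
    rw [← hf' i, ← hf1]
    exact hkey i (by rw [hcard]; exact hi)
  obtain ⟨z, hz⟩ := Cfsg.Agent.H81.exists_int_of_aeval_pow_invariant hn hζ f hinv
  exact ⟨z, by rw [hf1, hz]⟩

example : StB2Int.{u} := b2Int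

end Cfsg.Agent.H65.BT
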