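import Mathlib
import Cfsg.Agent.H74.BTDefs
import Cfsg.Agent.H21.BRSplit
import Cfsg.Agent.H83.Basic

/-!
# S0997-B2MOMSUM (piece for helper74): the moments of `θ₁` over the `p`-regular elements
-/

set_option autoImplicit false
set_option linter.style.haveILetI false
set_option linter.unusedVariables false

namespace Cfsg.Agent.H65.BT

open Cfsg Cfsg.Agent.H21.BR Cfsg.Agent.H74.BT
open scoped ComplexConjugate

universe u

/-- Orthogonality of irreducible characters (conjugate form). -/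
theorem ortho {G : Type u} [Group G] [Fintype G] [DecidableEq (IrrCharacter G)]
    (a b : IrrCharacter G) :
    ∑ g : G, (a : G → ℂ) g * conj ((b : G → ℂ) g) = if a = b then (Nat.card G : ℂ) else 0 := by
  have h1 := Cfsg.Agent.H83.irr_orthogonality a.2 b.2
  have h2 : ∀ g : G, (a : G → ℂ) g * conj ((b : G → ℂ) g) = (a : G → ℂ) g * (b : G → ℂ) g⁻¹ := by
    intro g
    rw [Cfsg.Agent.H83.IsIrrCharacter.inv_eq_conj b.2 g]
  rw [Finset.sum_congr rfl (fun g _ => h2 g), h1]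
  by_cases hab : a = b
  · rw [if_pos hab, if_pos (congrArg Subtype.val hab)]
  · rw [if_neg hab, if_neg (fun h => hab (Subtype.ext h))]

/-- Splitting a sum over `G` into the `p`-singular and the `p`-regular part. -/
theorem split_sum {G : Type u} [Group G] [Fintype G] (p : ℕ) (F H : G → ℂ) (c k : ℂ)
    (hs : ∀ g, p ∣ orderOf g → F g = c) (hr : ∀ g, ¬ p ∣ orderOf g → F g = k * H g) :
    ∑ g : G, F g = c * (∑ g : G, if p ∣ orderOf g then (1 : ℂ) else 0) + k * regSum p H := by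
  unfold regSum
  rw [finsum_eq_sum_of_fintype, Finset.mul_sum, Finset.mul_sum, ← Finset.sum_add_distrib]
  apply Finset.sum_congr rfl
  intro g _
  by_cases hg : p ∣ orderOf g
  · rw [if_pos hg, if_pos hg, hs g hg]; ring
  · rw [if_neg hg, if_neg hg, hr g hg]; ring

theorem sum_A_inner {G : Type u} [Group G] [Fintype G] [DecidableEq (IrrCharacter G)]
    (A : Finset (IrrCharacter G)) (ψ : IrrCharacter G) :
    ∑ g : G, (∑ a ∈ A, (a : G → ℂ) g) * conj ((ψ : G → ℂ) g) =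
      if ψ ∈ A then (Nat.card G : ℂ) else 0 := by
  have h1 : ∀ g : G, (∑ a ∈ A, (a : G → ℂ) g) * conj ((ψ : G → ℂ) g) =
      ∑ a ∈ A, (a : G → ℂ) g * conj ((ψ : G → ℂ) g) := fun g => Finset.sum_mul _ _ _
  rw [Finset.sum_congr rfl (fun g _ => h1 g), Finset.sum_comm]
  rw [Finset.sum_congr rfl (fun a _ => ortho a ψ)]
  exact Finset.sum_ite_eq' A ψ (fun _ => (Nat.card G : ℂ))

theorem sum_A_norm {G : Type u} [Group G] [Fintype G] [DecidableEq (IrrCharacter G)]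
    (A : Finset (IrrCharacter G)) :
    ∑ g : G, (∑ a ∈ A, (a : G → ℂ) g) * conj (∑ b ∈ A, (b : G → ℂ) g) =
      (Nat.card G : ℂ) * (A.card : ℂ) := by
  have h1 : ∀ g : G, (∑ a ∈ A, (a : G → ℂ) g) * conj (∑ b ∈ A, (b : G → ℂ) g) =
      ∑ b ∈ A, (∑ a ∈ A, (a : G → ℂ) g) * conj ((b : G → ℂ) g) := by
    intro g
    rw [map_sum, Finset.mul_sum]
  rw [Finset.sum_congr rfl (fun g _ => h1 g), Finset.sum_comm]
  rw [Finset.sum_congr rfl (fun b hb => by rw [sum_A_inner A b, if_pos hb])]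
  rw [Finset.sum_const, nsmul_eq_mul, mul_comm]

theorem b2MomSum : StB2MomSum.{u} := by
  intro G _ _ p e _ P X Y δ θ₁ θ₂ St hB hS hr1 hr2 hrS hsing
  classical
  letI : Fintype G := Fintype.ofFinite G
  have hp : p.Prime := Fact.out
  have hb0 := hB.b0
  have hθ₁Y : θ₁ ∈ Y := (hB.hY θ₁).2 (Or.inl rfl)
  have hθ₂Y : θ₂ ∈ Y := (hB.hY θ₂).2 (Or.inr rfl)
  have hXY : ∀ a, a ∈ X → a ∈ Y → False := fun a ha hb => Finset.disjoint_left.1 hb0.disj ha hb
  have h1X := hb0.one_mem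
  have hplusX : ∀ χ ∈ plusSet X δ, χ ∈ X ∧ χ ≠ one G :=
    fun χ hχ => ⟨(mem_plusSet.1 hχ).1, (mem_plusSet.1 hχ).2.1⟩
  have hone : ∀ g : G, ((one G : IrrCharacter G) : G → ℂ) g = 1 := fun g => rfl
  obtain ⟨N, hN⟩ : ∃ N : ℂ, N = (Nat.card G : ℂ) := ⟨_, rfl⟩
  -- key facts for `θ ∈ Y`
  have key : ∀ θ ∈ Y, (∀ g, conj ((θ : G → ℂ) g) = (θ : G → ℂ) g) →
      (∀ g : G, (θ : G → ℂ) g * (θ : G → ℂ) g =
        1 + (θ : G → ℂ) g + (St : G → ℂ) g + ∑ χ ∈ plusSet X δ, (χ : G → ℂ) g) →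
      (∑ g : G, (θ : G → ℂ) g ^ 3 = N) ∧
      (∑ g : G, (θ : G → ℂ) g ^ 4 = N * (((plusSet X δ).card : ℂ) + 3)) ∧
      (∑ g : G, (St : G → ℂ) g * (θ : G → ℂ) g ^ 2 = N) := by
    intro θ hθY hreal hsq
    have hStθ : St ≠ θ := fun h => hS.notY (h ▸ hθY)
    have hSt1 : St ≠ one G := fun h => hS.notX (h ▸ h1X)
    have h1θ : one G ≠ θ := fun h => hXY _ h1X (h ▸ hθY)
    have hn1 : St ∉ plusSet X δ := fun h => hS.notX (hplusX _ h).1
    have hn2 : θ ∉ insert St (plusSet X δ) := by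
      rw [Finset.mem_insert]
      rintro (h | h)
      · exact hStθ h.symm
      · exact hXY _ (hplusX _ h).1 hθY
    have hn3 : one G ∉ insert θ (insert St (plusSet X δ)) := by
      rw [Finset.mem_insert, Finset.mem_insert]
      rintro (h | h | h)
      · exact h1θ h
      · exact hSt1 h.symm
      · exact (hplusX _ h).2 rfl
    obtain ⟨A, hA⟩ : ∃ A : Finset (IrrCharacter G),
        A = insert (one G) (insert θ (insert St (plusSet X δ))) := ⟨_, rfl⟩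
    have hAcard : (A.card : ℂ) = ((plusSet X δ).card : ℂ) + 3 := by
      rw [hA, Finset.card_insert_of_notMem hn3, Finset.card_insert_of_notMem hn2,
        Finset.card_insert_of_notMem hn1]
      push_cast
      ring
    have hAsum : ∀ g : G, (θ : G → ℂ) g * (θ : G → ℂ) g = ∑ a ∈ A, (a : G → ℂ) g := by
      intro g
      rw [hA, Finset.sum_insert hn3, Finset.sum_insert hn2, Finset.sum_insert hn1, hsq g, hone g]
      ring
    have hθA : θ ∈ A := by rw [hA]; simp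
    have hStA : St ∈ A := by rw [hA]; simp
    refine ⟨?_, ?_, ?_⟩
    · have h1 := sum_A_inner A θ
      rw [if_pos hθA] at h1
      rw [hN, ← h1]
      apply Finset.sum_congr rfl
      intro g _
      rw [← hAsum g, hreal g]
      ring
    · have h1 := sum_A_norm A
      rw [hAcard] at h1
      rw [hN, ← h1]
      apply Finset.sum_congr rfl
      intro g _
      rw [← hAsum g, map_mul, hreal g]
      ring
    · have h1 := sum_A_inner A St
      rw [if_pos hStA] at h1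
      rw [hN, ← h1]
      apply Finset.sum_congr rfl
      intro g _
      rw [← hAsum g, hrS g]
      ring
  obtain ⟨k13, k14, k1S⟩ := key θ₁ hθ₁Y hr1 hS.sq₁
  obtain ⟨k23, k24, -⟩ := key θ₂ hθ₂Y hr2 hS.sq₂
  -- simple orthogonality sums
  have s1 : ∀ θ ∈ Y, ∑ g : G, (θ : G → ℂ) g = 0 := by
    intro θ hθY
    have h1 := ortho θ (one G)
    rw [if_neg (fun h : θ = one G => hXY _ h1X (h ▸ hθY))] at h1
    rw [← h1]
    apply Finset.sum_congr rfl
    intro g _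
    rw [hone g, map_one, mul_one]
  have s2 : ∑ g : G, (θ₁ : G → ℂ) g * (θ₂ : G → ℂ) g = 0 := by
    have h1 := ortho θ₁ θ₂
    rw [if_neg hB.hne] at h1
    rw [← h1]
    apply Finset.sum_congr rfl
    intro g _
    rw [hr2 g]
  have s3 : ∀ θ : IrrCharacter G, (∀ g, conj ((θ : G → ℂ) g) = (θ : G → ℂ) g) →
      ∑ g : G, (θ : G → ℂ) g ^ 2 = N := by
    intro θ hreal
    have h1 := ortho θ θ
    rw [if_pos rfl] at h1
    rw [hN, ← h1]
    apply Finset.sum_congr rfl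
    intro g _
    rw [hreal g]
    ring
  have s6 : ∑ g : G, (St : G → ℂ) g * (θ₁ : G → ℂ) g = 0 := by
    have h1 := ortho St θ₁
    rw [if_neg (fun h : St = θ₁ => hS.notY (h ▸ hθ₁Y))] at h1
    rw [← h1]
    apply Finset.sum_congr rfl
    intro g _
    rw [hr1 g]
  -- the splittings
  obtain ⟨Ns, hNs⟩ : ∃ Ns : ℂ, Ns = ∑ g : G, if p ∣ orderOf g then (1 : ℂ) else 0 := ⟨_, rfl⟩
  have hagree : ∀ g : G, ¬ p ∣ orderOf g → (θ₂ : G → ℂ) g = (θ₁ : G → ℂ) g :=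
    fun g hg => hb0.agree_Y θ₂ hθ₂Y θ₁ hθ₁Y g hg
  have E1 := split_sum p (fun g => (θ₁ : G → ℂ) g + (θ₂ : G → ℂ) g) (fun g => (θ₁ : G → ℂ) g)
    1 2 (fun g hg => (hsing g hg).2.1) (fun g hg => by rw [hagree g hg]; ring)
  rw [Finset.sum_add_distrib, s1 θ₁ hθ₁Y, s1 θ₂ hθ₂Y, ← hNs] at E1
  have E2 := split_sum p (fun g => (θ₁ : G → ℂ) g * (θ₂ : G → ℂ) g)
    (fun g => (θ₁ : G → ℂ) g ^ 2) (-(e : ℂ) / 2) 1
    (fun g hg => by
      have h := (hsing g hg).2.2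
      linear_combination (1 / 2 : ℂ) * h)
    (fun g hg => by rw [hagree g hg]; ring)
  rw [s2, ← hNs] at E2
  have E3 := split_sum p (fun g => (θ₁ : G → ℂ) g ^ 2 + (θ₂ : G → ℂ) g ^ 2)
    (fun g => (θ₁ : G → ℂ) g ^ 2) (1 + (e : ℂ)) 2
    (fun g hg => by
      obtain ⟨-, h1, h2⟩ := hsing g hg
      linear_combination ((θ₁ : G → ℂ) g + (θ₂ : G → ℂ) g + 1) * h1 - h2)
    (fun g hg => by rw [hagree g hg]; ring)
  rw [Finset.sum_add_distrib, s3 θ₁ hr1, s3 θ₂ hr2, ← hNs] at E3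
  have E4 := split_sum p (fun g => (θ₁ : G → ℂ) g ^ 3 + (θ₂ : G → ℂ) g ^ 3)
    (fun g => (θ₁ : G → ℂ) g ^ 3) (1 + 3 * (e : ℂ) / 2) 2
    (fun g hg => by
      obtain ⟨-, h1, h2⟩ := hsing g hg
      linear_combination (((θ₁ : G → ℂ) g + (θ₂ : G → ℂ) g) ^ 2 +
        ((θ₁ : G → ℂ) g + (θ₂ : G → ℂ) g) + 1 - 3 * ((θ₁ : G → ℂ) g * (θ₂ : G → ℂ) g)) * h1
        - (3 / 2 : ℂ) * h2)
    (fun g hg => by rw [hagree g hg]; ring)
  rw [Finset.sum_add_distrib, k13, k23, ← hNs] at E4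
  have E5 := split_sum p (fun g => (θ₁ : G → ℂ) g ^ 4 + (θ₂ : G → ℂ) g ^ 4)
    (fun g => (θ₁ : G → ℂ) g ^ 4) (1 + 2 * (e : ℂ) + (e : ℂ) ^ 2 / 2) 2
    (fun g hg => by
      obtain ⟨-, h1, h2⟩ := hsing g hg
      linear_combination (((θ₁ : G → ℂ) g + (θ₂ : G → ℂ) g) ^ 3 +
        ((θ₁ : G → ℂ) g + (θ₂ : G → ℂ) g) ^ 2 + ((θ₁ : G → ℂ) g + (θ₂ : G → ℂ) g) + 1
        - 4 * ((θ₁ : G → ℂ) g * (θ₂ : G → ℂ) g) *
          ((θ₁ : G → ℂ) g + (θ₂ : G → ℂ) g + 1)) * h1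
        - (2 + ((e : ℂ) - 2 * ((θ₁ : G → ℂ) g * (θ₂ : G → ℂ) g)) / 2) * h2)
    (fun g hg => by rw [hagree g hg]; ring)
  rw [Finset.sum_add_distrib, k14, k24, ← hNs] at E5
  have E6 := split_sum p (fun g => (St : G → ℂ) g * (θ₁ : G → ℂ) g)
    (fun g => (St : G → ℂ) g * (θ₁ : G → ℂ) g) 0 1
    (fun g hg => by rw [(hsing g hg).1, zero_mul]) (fun g hg => by ring)
  rw [s6, ← hNs] at E6
  have E7 := split_sum p (fun g => (St : G → ℂ) g * (θ₁ : G → ℂ) g ^ 2)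
    (fun g => (St : G → ℂ) g * (θ₁ : G → ℂ) g ^ 2) 0 1
    (fun g hg => by rw [(hsing g hg).1, zero_mul]) (fun g hg => by ring)
  rw [k1S, ← hNs] at E7
  -- arithmetic
  have hpC : (p : ℂ) = 2 * (e : ℂ) + 1 := by
    have h1 := hB.he
    have h2 := hp.two_le
    have h3 : p = 2 * e + 1 := by omega
    rw [h3]
    push_cast
    ring
  have hcC : 2 * (((plusSet X δ).card : ℂ) + 1) = (e : ℂ) := by
    have h1 := hS.cardPlus
    exact_mod_cast h1
  have hNsN : (2 * (e : ℂ) + 1) * Ns = 2 * N := by linear_combination -E3 + 2 * E2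
  rw [← hN]
  refine ⟨?_, ?_, ?_, ?_, ?_, ?_⟩
  · linear_combination (regSum p fun g => (θ₁ : G → ℂ) g) * hpC - (2 * (e : ℂ) + 1) / 2 * E1
      - (1 / 2 : ℂ) * hNsN
  · linear_combination (regSum p fun g => (θ₁ : G → ℂ) g ^ 2) * hpC - (2 * (e : ℂ) + 1) * E2
      + ((e : ℂ) / 2) * hNsN
  · linear_combination 2 * (regSum p fun g => (θ₁ : G → ℂ) g ^ 3) * hpC
      - (2 * (e : ℂ) + 1) * E4 - ((3 * (e : ℂ) + 2) / 2) * hNsN
  · linear_combination 2 * (regSum p fun g => (θ₁ : G → ℂ) g ^ 4) * hpC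
      - (2 * (e : ℂ) + 1) * E5 - (((e : ℂ) ^ 2 + 4 * (e : ℂ) + 2) / 2) * hNsN
      + (2 * (e : ℂ) + 1) * N * hcC
  · linear_combination -E6
  · linear_combination -E7

example : StB2MomSum.{u} := b2MomSum

end Cfsg.Agent.H65.BT
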