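import Mathlib
import Cfsg.Agent.H74.BTDefs
import Cfsg.Agent.H21.BRSplit
import Cfsg.Agent.H16.BRCol
import Cfsg.Agent.H83.Basic
import Cfsg.Agent.H69.BrCCP

/-!
# S0997-B2POS (piece for helper74): positivity of two class multiplication constants
-/

set_option autoImplicit false
set_option linter.style.haveILetI false
set_option linter.unusedVariables false

namespace Cfsg.Agent.H65.BT

open Cfsg Cfsg.Agent.H21.BR Cfsg.Agent.H74.BT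
open scoped ComplexConjugate

universe u

/-- The class multiplication constant of `z, w ∈ P ∖ 1` at a `p`-regular element `g`. -/
theorem pos_key {G : Type u} [Group G] [Finite G] (p e : ℕ) [Fact p.Prime] (P : Subgroup G)
    (X Y : Finset (IrrCharacter G)) (δ : IrrCharacter G → ℤ) (θ₁ θ₂ St : IrrCharacter G)
    (hB : B2Base p e P X Y δ θ₁ θ₂) (hS : B2Str p e X Y δ θ₁ θ₂ St)
    (z w : G) (hz : z ∈ P) (hz1 : z ≠ 1) (hw : w ∈ P) (hw1 : w ≠ 1) (c : ℂ)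
    (hc : (θ₁ : G → ℂ) z * (θ₁ : G → ℂ) w + (θ₂ : G → ℂ) z * (θ₂ : G → ℂ) w = c)
    (g : G) (hg : ¬ p ∣ orderOf g) (t : ℤ) (ht : (θ₁ : G → ℂ) g = (t : ℂ)) :
    ∃ K : ℝ, 0 ≤ K ∧ (2 * (e : ℂ) + 1) * conj ((St : G → ℂ) g) =
      (2 * (e : ℂ) + 1) * (t : ℂ) ^ 2 + (e : ℂ) * (2 * (e : ℂ) + 1) +
        (2 * (e : ℂ) * c - (e : ℂ)) * (t : ℂ) - 2 * (e : ℂ) * ((e : ℂ) + 1) * (K : ℂ) := by
  classical
  have hp : p.Prime := Fact.out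
  have hb0 := hB.b0
  have hθ₁Y : θ₁ ∈ Y := (hB.hY θ₁).2 (Or.inl rfl)
  have hθ₂Y : θ₂ ∈ Y := (hB.hY θ₂).2 (Or.inr rfl)
  have ht2 : (θ₂ : G → ℂ) g = (t : ℂ) := by
    rw [← ht]
    exact hb0.agree_Y θ₂ hθ₂Y θ₁ hθ₁Y g hg
  have hpe : p = 2 * e + 1 := by
    have h1 := hB.he
    have h2 := hp.two_le
    omega
  have he1 : 1 ≤ e := by
    rcases Nat.eq_zero_or_pos e with h0 | h0
    · exfalso
      rw [h0] at hpe
      exact hp.one_lt.ne' hpe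
    · exact h0
  have hec : (e : ℂ) ≠ 0 := by exact_mod_cast (by omega : e ≠ 0)
  have he1c : (e : ℂ) + 1 ≠ 0 := by exact_mod_cast (by omega : e + 1 ≠ 0)
  have hone : ∀ g : G, ((one G : IrrCharacter G) : G → ℂ) g = 1 := fun g => rfl
  obtain ⟨Z, hZ⟩ := exists_out X Y
  have hccp := Cfsg.Agent.H69.Br.ccp z w g
  rw [sum_split hb0 Z hZ] at hccp
  -- the five parts
  have hF1 : ((one G : IrrCharacter G) : G → ℂ) z * ((one G : IrrCharacter G) : G → ℂ) w *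
      conj (((one G : IrrCharacter G) : G → ℂ) g) / ((one G : IrrCharacter G) : G → ℂ) 1 = 1 := by
    rw [hone, hone, hone, hone]
    simp
  have hFplus : ∑ χ ∈ plusSet X δ, (χ : G → ℂ) z * (χ : G → ℂ) w * conj ((χ : G → ℂ) g) /
      (χ : G → ℂ) 1 = conj (∑ χ ∈ plusSet X δ, (χ : G → ℂ) g) / (2 * ((e : ℂ) + 1)) := by
    rw [map_sum, Finset.sum_div]
    apply Finset.sum_congr rfl
    intro χ hχ
    obtain ⟨hχX, hχ1, hδ⟩ := mem_plusSet.1 hχ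
    rw [hb0.val_X χ hχX z hz hz1, hb0.val_X χ hχX w hw hw1, hδ, Cfsg.Agent.H16.BR.irr_one_cast,
      hS.degPlus χ hχ, hpe]
    push_cast
    ring
  have hFminus : ∑ χ ∈ minusSet X δ, (χ : G → ℂ) z * (χ : G → ℂ) w * conj ((χ : G → ℂ) g) /
      (χ : G → ℂ) 1 = conj (∑ χ ∈ minusSet X δ, (χ : G → ℂ) g) / (2 * (e : ℂ)) := by
    rw [map_sum, Finset.sum_div]
    apply Finset.sum_congr rfl
    intro χ hχ
    obtain ⟨hχX, hδ⟩ := mem_minusSet.1 hχ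
    rw [hb0.val_X χ hχX z hz hz1, hb0.val_X χ hχX w hw hw1, hδ, Cfsg.Agent.H16.BR.irr_one_cast,
      hS.degMinus χ hχ, ← hB.he]
    push_cast
    ring
  have hYeq : Y = {θ₁, θ₂} := by
    ext θ
    rw [hB.hY θ, Finset.mem_insert, Finset.mem_singleton]
  have hFY : ∑ θ ∈ Y, (θ : G → ℂ) z * (θ : G → ℂ) w * conj ((θ : G → ℂ) g) / (θ : G → ℂ) 1 =
      c * (t : ℂ) / ((e : ℂ) + 1) := by
    rw [hYeq, Finset.sum_pair hB.hne, ht, ht2, Cfsg.Agent.H16.BR.irr_one_cast,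
      Cfsg.Agent.H16.BR.irr_one_cast, hB.deg₁, hB.deg₂, map_intCast, ← hc]
    push_cast
    ring
  have hFZ : ∑ ψ ∈ Z, (ψ : G → ℂ) z * (ψ : G → ℂ) w * conj ((ψ : G → ℂ) g) / (ψ : G → ℂ) 1 = 0 := by
    apply Finset.sum_eq_zero
    intro ψ hψ
    obtain ⟨h1, h2⟩ := (hZ ψ).1 hψ
    rw [hb0.out_van ψ h1 h2 z hz hz1]
    simp
  rw [hF1, hFplus, hFminus, hFY, hFZ, add_zero] at hccp
  -- the values of `Ψ` and `Φ` at `g`
  have hΨ : conj (∑ χ ∈ plusSet X δ, (χ : G → ℂ) g) =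
      (t : ℂ) ^ 2 - 1 - (t : ℂ) - conj ((St : G → ℂ) g) := by
    have h1 := hS.sq₁ g
    rw [ht] at h1
    have h2 : ∑ χ ∈ plusSet X δ, (χ : G → ℂ) g = (t : ℂ) ^ 2 - 1 - (t : ℂ) - (St : G → ℂ) g := by
      linear_combination -h1
    rw [h2]
    simp only [map_sub, map_pow, map_one, map_intCast]
  have hΦ : conj (∑ χ ∈ minusSet X δ, (χ : G → ℂ) g) = (t : ℂ) ^ 2 - conj ((St : G → ℂ) g) := by
    have h1 := hS.prod12 g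
    rw [ht, ht2] at h1
    have h2 : ∑ χ ∈ minusSet X δ, (χ : G → ℂ) g = (t : ℂ) ^ 2 - (St : G → ℂ) g := by
      linear_combination -h1
    rw [h2]
    simp only [map_sub, map_pow, map_intCast]
  -- the constant
  have hGpos : 0 < Nat.card G := Nat.card_pos
  have hGC : (Nat.card G : ℂ) ≠ 0 := by exact_mod_cast hGpos.ne'
  obtain ⟨cnt, hcnt⟩ : ∃ cnt : ℕ, cnt =
      Nat.card {ab : G × G // ab.1 * z * ab.1⁻¹ * (ab.2 * w * ab.2⁻¹) = g} := ⟨_, rfl⟩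
  rw [← hcnt] at hccp
  refine ⟨(cnt : ℝ) / (Nat.card G : ℝ), by positivity, ?_⟩
  have hK : (((cnt : ℝ) / (Nat.card G : ℝ) : ℝ) : ℂ) =
      1 + conj (∑ χ ∈ plusSet X δ, (χ : G → ℂ) g) / (2 * ((e : ℂ) + 1)) +
        conj (∑ χ ∈ minusSet X δ, (χ : G → ℂ) g) / (2 * (e : ℂ)) +
        c * (t : ℂ) / ((e : ℂ) + 1) := by
    push_cast
    rw [hccp]
    field_simp
  have hK2 : 2 * (e : ℂ) * ((e : ℂ) + 1) * (((cnt : ℝ) / (Nat.card G : ℝ) : ℝ) : ℂ) =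
      2 * (e : ℂ) * ((e : ℂ) + 1) + (e : ℂ) * conj (∑ χ ∈ plusSet X δ, (χ : G → ℂ) g) +
        ((e : ℂ) + 1) * conj (∑ χ ∈ minusSet X δ, (χ : G → ℂ) g) + 2 * (e : ℂ) * c * (t : ℂ) := by
    rw [hK]
    field_simp
  linear_combination hK2 + (e : ℂ) * hΨ + ((e : ℂ) + 1) * hΦ

theorem b2Pos : StB2Pos.{u} := by
  intro G _ _ p e _ P X Y δ θ₁ θ₂ St hB hS hx g hg t ht
  obtain ⟨x₁, hx₁P, x₂, hx₂P, hx₁1, hx₂1, hsw1, hsw2⟩ := hx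
  have hp : p.Prime := Fact.out
  have hsum := hB.hsum x₁ hx₁P hx₁1
  have hprod := hB.hprod x₁ hx₁P hx₁1
  have hinv1 : (θ₁ : G → ℂ) x₁⁻¹ = (θ₁ : G → ℂ) x₁ := by
    rw [Cfsg.Agent.H83.IsIrrCharacter.inv_eq_conj θ₁.2 x₁, hB.real₁ x₁ hx₁P]
  have hinv2 : (θ₂ : G → ℂ) x₁⁻¹ = (θ₂ : G → ℂ) x₁ := by
    rw [Cfsg.Agent.H83.IsIrrCharacter.inv_eq_conj θ₂.2 x₁, hB.real₂ x₁ hx₁P]
  have hc1 : (θ₁ : G → ℂ) x₁ * (θ₁ : G → ℂ) x₁⁻¹ + (θ₂ : G → ℂ) x₁ * (θ₂ : G → ℂ) x₁⁻¹ =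
      (e : ℂ) + 1 := by
    rw [hinv1, hinv2]
    linear_combination ((θ₁ : G → ℂ) x₁ + (θ₂ : G → ℂ) x₁ + 1) * hsum - hprod
  have hc2 : (θ₁ : G → ℂ) x₁ * (θ₁ : G → ℂ) x₂ + (θ₂ : G → ℂ) x₁ * (θ₂ : G → ℂ) x₂ =
      -(e : ℂ) := by
    rw [hsw1, hsw2]
    linear_combination hprod
  obtain ⟨K₁, hK₁, h1⟩ := pos_key p e P X Y δ θ₁ θ₂ St hB hS x₁ x₁⁻¹ hx₁P hx₁1 (P.inv_mem hx₁P)
    (by simpa using hx₁1) _ hc1 g hg t ht
  obtain ⟨K₂, hK₂, h2⟩ := pos_key p e P X Y δ θ₁ θ₂ St hB hS x₁ x₂ hx₁P hx₁1 hx₂P hx₂1 _ hc2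
    g hg t ht
  have he0 : (0 : ℝ) ≤ (e : ℝ) := Nat.cast_nonneg e
  have h2e1 : (0 : ℝ) < 2 * (e : ℝ) + 1 := by linarith
  have h2e1C : (2 * (e : ℂ) + 1) ≠ 0 := by exact_mod_cast h2e1.ne'
  obtain ⟨s, hs⟩ : ∃ s : ℝ, s = (t : ℝ) ^ 2 + (e : ℝ) * (t : ℝ) + (e : ℝ) -
      2 * (e : ℝ) * ((e : ℝ) + 1) * K₁ / (2 * (e : ℝ) + 1) := ⟨_, rfl⟩
  have hcs : conj ((St : G → ℂ) g) = (s : ℂ) := by
    apply mul_left_cancel₀ h2e1C
    rw [h1, hs]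
    push_cast
    field_simp
    ring
  have hSt : (St : G → ℂ) g = (s : ℂ) := by
    have h3 := congrArg conj hcs
    rw [Complex.conj_conj, Complex.conj_ofReal] at h3
    exact h3
  refine ⟨s, hSt, ?_, ?_⟩
  · rw [hs]
    have h3 : 0 ≤ 2 * (e : ℝ) * ((e : ℝ) + 1) * K₁ / (2 * (e : ℝ) + 1) := by positivity
    linarith
  · rw [hcs] at h2
    have h4 : (2 * (e : ℝ) + 1) * s = (2 * (e : ℝ) + 1) * (t : ℝ) ^ 2 +
        (e : ℝ) * (2 * (e : ℝ) + 1) + (2 * (e : ℝ) * (-(e : ℝ)) - (e : ℝ)) * (t : ℝ) -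
        2 * (e : ℝ) * ((e : ℝ) + 1) * K₂ := by
      exact_mod_cast h2
    have h5 : (2 * (e : ℝ) + 1) * ((t : ℝ) ^ 2 - (e : ℝ) * (t : ℝ) + (e : ℝ) - s) =
        2 * (e : ℝ) * ((e : ℝ) + 1) * K₂ := by
      linear_combination -h4
    have h6 : 0 ≤ (2 * (e : ℝ) + 1) * ((t : ℝ) ^ 2 - (e : ℝ) * (t : ℝ) + (e : ℝ) - s) := by
      rw [h5]
      positivity
    have h7 := (mul_nonneg_iff_of_pos_left h2e1).1 h6
    linarith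

example : StB2Pos.{u} := b2Pos

end Cfsg.Agent.H65.BT
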