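import Mathlib
import Cfsg.Agent.H74.BTDefs
import Cfsg.Agent.H21.BRSplit
import Cfsg.Agent.H16.BRCol
import Cfsg.Agent.H4.Chars
import Cfsg.Agent.H4.Irr
import Cfsg.Agent.H65.BTB2MomSum

/-!
# S0997-B2STRUCT (piece for helper74): the degrees and the products in case B2
-/

set_option autoImplicit false
set_option linter.style.haveILetI false
set_option linter.unusedVariables false

namespace Cfsg.Agent.H65.BT

open Cfsg Cfsg.Agent.H21.BR Cfsg.Agent.H74.BT
open scoped ComplexConjugate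

universe u

theorem b2Struct : StB2Struct.{u} := by
  intro G _ _ p e _ P X Y δ θ₁ θ₂ hB hid St hStX hStY hStdeg m hprodm hmdeg hmsum
  classical
  letI : Fintype G := Fintype.ofFinite G
  have hp : p.Prime := Fact.out
  have hb0 := hB.b0
  have hθ₁Y : θ₁ ∈ Y := (hB.hY θ₁).2 (Or.inl rfl)
  have hθ₂Y : θ₂ ∈ Y := (hB.hY θ₂).2 (Or.inr rfl)
  have hXY : ∀ a, a ∈ X → a ∈ Y → False := fun a ha hb => Finset.disjoint_left.1 hb0.disj ha hb
  have h1X := hb0.one_mem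
  have hplusX : ∀ χ ∈ plusSet X δ, χ ∈ X ∧ χ ≠ one G :=
    fun χ hχ => ⟨(mem_plusSet.1 hχ).1, (mem_plusSet.1 hχ).2.1⟩
  have hone : ∀ g : G, ((one G : IrrCharacter G) : G → ℂ) g = 1 := fun g => rfl
  have hpe : p = 2 * e + 1 := by
    have h1 := hB.he
    have h2 := hp.two_le
    omega
  have hGpos : 0 < Nat.card G := Nat.card_pos
  have hGC : (Nat.card G : ℂ) ≠ 0 := by exact_mod_cast hGpos.ne'
  -- the set `A = {1, θ₁, St} ∪ plus`
  have hStθ : St ≠ θ₁ := fun h => hStY (h ▸ hθ₁Y)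
  have hSt1 : St ≠ one G := fun h => hStX (h ▸ h1X)
  have h1θ : one G ≠ θ₁ := fun h => hXY _ h1X (h ▸ hθ₁Y)
  have hn1 : St ∉ plusSet X δ := fun h => hStX (hplusX _ h).1
  have hn2 : θ₁ ∉ insert St (plusSet X δ) := by
    rw [Finset.mem_insert]
    rintro (h | h)
    · exact hStθ h.symm
    · exact hXY _ (hplusX _ h).1 hθ₁Y
  have hn3 : one G ∉ insert θ₁ (insert St (plusSet X δ)) := by
    rw [Finset.mem_insert, Finset.mem_insert]
    rintro (h | h | h)
    · exact h1θ h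
    · exact hSt1 h.symm
    · exact (hplusX _ h).2 rfl
  obtain ⟨A, hA⟩ : ∃ A : Finset (IrrCharacter G),
      A = insert (one G) (insert θ₁ (insert St (plusSet X δ))) := ⟨_, rfl⟩
  have hAsum : ∀ g : G, ∑ a ∈ A, (a : G → ℂ) g =
      1 + (θ₁ : G → ℂ) g + (St : G → ℂ) g + ∑ χ ∈ plusSet X δ, (χ : G → ℂ) g := by
    intro g
    rw [hA, Finset.sum_insert hn3, Finset.sum_insert hn2, Finset.sum_insert hn1, hone g]
    ring
  have hminusA : ∀ ψ ∈ minusSet X δ, ψ ∉ A := by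
    intro ψ hψ hψA
    obtain ⟨hψX, hδψ⟩ := mem_minusSet.1 hψ
    rw [hA, Finset.mem_insert, Finset.mem_insert, Finset.mem_insert] at hψA
    rcases hψA with h | h | h | h
    · rw [h, hb0.δ_one] at hδψ
      norm_num at hδψ
    · exact hXY _ hψX (h ▸ hθ₁Y)
    · exact hStX (h ▸ hψX)
    · rw [(mem_plusSet.1 h).2.2] at hδψ
      norm_num at hδψ
  -- Step 1: all multiplicities are at least one
  have hm1 : ∀ ψ ∈ minusSet X δ, 1 ≤ m ψ := by
    intro ψ hψ
    have hθc := Cfsg.Agent.H4.isCharacter_of_isIrrCharacter θ₁.2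
    have hchar : IsCharacter G ((θ₁ : G → ℂ) * (θ₁ : G → ℂ)) :=
      Cfsg.Agent.H4.isCharacter_mul hθc hθc
    obtain ⟨n, hn⟩ := Cfsg.Agent.H4.classInner_isCharacter_nat hchar
      (Cfsg.Agent.H4.isCharacter_of_isIrrCharacter ψ.2)
    have hF : ∀ g : G, ((θ₁ : G → ℂ) * (θ₁ : G → ℂ)) g * conj ((ψ : G → ℂ) g) =
        (∑ a ∈ A, (a : G → ℂ) g) * conj ((ψ : G → ℂ) g) +
          ∑ ψ' ∈ minusSet X δ,
            ((m ψ' : ℂ) - 1) * ((ψ' : G → ℂ) g * conj ((ψ : G → ℂ) g)) := by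
      intro g
      rw [Pi.mul_apply, hAsum g]
      have h1 := hid θ₁ hθ₁Y g
      have h2 := hprodm g
      have h3 : ∑ ψ' ∈ minusSet X δ,
          ((m ψ' : ℂ) - 1) * ((ψ' : G → ℂ) g * conj ((ψ : G → ℂ) g)) =
          (∑ ψ' ∈ minusSet X δ, (m ψ' : ℂ) * (ψ' : G → ℂ) g -
            ∑ ψ' ∈ minusSet X δ, (ψ' : G → ℂ) g) * conj ((ψ : G → ℂ) g) := by
        rw [← Finset.sum_sub_distrib, Finset.sum_mul]
        apply Finset.sum_congr rfl
        intro ψ' _
        ring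
      rw [h3]
      linear_combination (conj ((ψ : G → ℂ) g)) * h1 + (conj ((ψ : G → ℂ) g)) * h2
    have hcomp : ∑ g : G, ((θ₁ : G → ℂ) * (θ₁ : G → ℂ)) g * conj ((ψ : G → ℂ) g) =
        (Nat.card G : ℂ) * ((m ψ : ℂ) - 1) := by
      rw [Finset.sum_congr rfl (fun g _ => hF g), Finset.sum_add_distrib, sum_A_inner A ψ,
        if_neg (hminusA ψ hψ), zero_add, Finset.sum_comm]
      rw [Finset.sum_congr rfl (fun ψ' _ => by rw [← Finset.mul_sum, ortho ψ' ψ])]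
      rw [Finset.sum_eq_single_of_mem ψ hψ (fun b _ hb => by rw [if_neg hb, mul_zero]),
        if_pos rfl]
      ring
    unfold classInner at hn
    rw [hcomp, ← mul_assoc, inv_mul_cancel₀ hGC, one_mul] at hn
    have h4 : (m ψ : ℂ) = ((n + 1 : ℕ) : ℂ) := by
      push_cast
      linear_combination hn
    have h5 : m ψ = n + 1 := by exact_mod_cast h4
    omega
  -- degrees
  have hdeg1 : charDegree ((one G : IrrCharacter G) : G → ℂ) = 1 := by
    have h1 := Cfsg.Agent.H16.BR.irr_one_cast (one G)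
    rw [hone] at h1
    exact_mod_cast h1.symm
  have hdegMinus : ∀ ψ ∈ minusSet X δ, charDegree (ψ : G → ℂ) = p - 1 :=
    fun ψ hψ => hmdeg ψ hψ (by have := hm1 ψ hψ; omega)
  have hdegPlusGe : ∀ χ ∈ plusSet X δ, p + 1 ≤ charDegree (χ : G → ℂ) := by
    intro χ hχ
    obtain ⟨hχX, hχ1, hδ⟩ := mem_plusSet.1 hχ
    have h1 := (hb0.deg_X χ hχX).symm.dvd
    rw [hδ] at h1
    have h2 := hb0.two_le_X χ hχX hχ1
    have h3 : (p : ℤ) ≤ (charDegree (χ : G → ℂ) : ℤ) - 1 := Int.le_of_dvd (by omega) h1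
    omega
  -- cardinalities
  obtain ⟨a, ha⟩ : ∃ a : ℕ, a = (minusSet X δ).card := ⟨_, rfl⟩
  obtain ⟨b, hb⟩ : ∃ b : ℕ, b = (plusSet X δ).card := ⟨_, rfl⟩
  have hcard : 1 + b + a = e := by
    rw [ha, hb]
    exact card_X_split hb0
  have ha_le : a ≤ ∑ ψ ∈ minusSet X δ, m ψ := by
    have h1 := Finset.card_nsmul_le_sum (minusSet X δ) m 1 hm1
    rw [smul_eq_mul, mul_one] at h1
    rw [ha]
    exact h1
  obtain ⟨Sp, hSp⟩ : ∃ Sp : ℕ, Sp = ∑ χ ∈ plusSet X δ, charDegree (χ : G → ℂ) := ⟨_, rfl⟩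
  have hSp_ge : b * (p + 1) ≤ Sp := by
    have h1 := Finset.card_nsmul_le_sum (plusSet X δ) (fun χ => charDegree (χ : G → ℂ)) (p + 1)
      hdegPlusGe
    rw [smul_eq_mul] at h1
    rw [hb, hSp]
    exact h1
  have hrel : -((e : ℤ) + 1) = 1 + (Sp : ℤ) - (a : ℤ) * (2 * (e : ℤ)) := by
    have h1 := hB.rel1
    rw [sum_X_split hb0 (fun χ => δ χ * (charDegree (χ : G → ℂ) : ℤ))] at h1
    have h2 : ∑ χ ∈ plusSet X δ, δ χ * (charDegree (χ : G → ℂ) : ℤ) = (Sp : ℤ) := by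
      rw [hSp, Nat.cast_sum]
      apply Finset.sum_congr rfl
      intro χ hχ
      rw [(mem_plusSet.1 hχ).2.2, one_mul]
    have h3 : ∑ χ ∈ minusSet X δ, δ χ * (charDegree (χ : G → ℂ) : ℤ) =
        -((a : ℤ) * (2 * (e : ℤ))) := by
      have h4 : ∀ χ ∈ minusSet X δ, δ χ * (charDegree (χ : G → ℂ) : ℤ) = -(2 * (e : ℤ)) := by
        intro χ hχ
        rw [(mem_minusSet.1 hχ).2, hdegMinus χ hχ, ← hB.he]
        push_cast
        ring
      rw [Finset.sum_congr rfl h4, Finset.sum_const, ← ha, nsmul_eq_mul]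
      ring
    rw [h2, h3, hb0.δ_one, hdeg1] at h1
    push_cast at h1
    linarith
  have hcardZ : (1 : ℤ) + (b : ℤ) + (a : ℤ) = (e : ℤ) := by exact_mod_cast hcard
  have hkey : 2 * (a : ℤ) * (2 * (e : ℤ) + 1) - (e : ℤ) * (2 * (e : ℤ) + 1) =
      (Sp : ℤ) - (b : ℤ) * (2 * (e : ℤ) + 2) := by
    linear_combination hrel + (2 * (e : ℤ) + 2) * hcardZ
  have hSp_geZ : (b : ℤ) * (2 * (e : ℤ) + 2) ≤ (Sp : ℤ) := by
    have h1 : ((b * (p + 1) : ℕ) : ℤ) ≤ (Sp : ℤ) := by exact_mod_cast hSp_ge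
    rw [hpe] at h1
    push_cast at h1
    linarith
  have he_le : e ≤ 2 * a := by
    have h1 : (e : ℤ) * (2 * (e : ℤ) + 1) ≤ 2 * (a : ℤ) * (2 * (e : ℤ) + 1) := by linarith
    have h2 : (0 : ℤ) < 2 * (e : ℤ) + 1 := by positivity
    have h3 := le_of_mul_le_mul_right h1 h2
    exact_mod_cast h3
  have h2a : 2 * a = e := by omega
  have hsum_m : ∑ ψ ∈ minusSet X δ, m ψ = a := by omega
  have hm_eq : ∀ ψ ∈ minusSet X δ, m ψ = 1 := by
    intro ψ hψ
    by_contra hne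
    have h1 : 1 < m ψ := by
      have := hm1 ψ hψ
      omega
    have h2 : ∑ ψ ∈ minusSet X δ, 1 < ∑ ψ ∈ minusSet X δ, m ψ :=
      Finset.sum_lt_sum hm1 ⟨ψ, hψ, h1⟩
    rw [Finset.sum_const, smul_eq_mul, mul_one, ← ha, hsum_m] at h2
    exact lt_irrefl _ h2
  have hSp_eq : Sp = b * (p + 1) := by
    have h1 : (Sp : ℤ) = (b : ℤ) * (2 * (e : ℤ) + 2) := by
      have h2 : (2 : ℤ) * (a : ℤ) = (e : ℤ) := by exact_mod_cast h2a
      linear_combination -hkey + (2 * (e : ℤ) + 1) * h2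
    have h3 : (Sp : ℤ) = ((b * (p + 1) : ℕ) : ℤ) := by
      rw [hpe]
      push_cast
      linear_combination h1
    exact_mod_cast h3
  have hdegPlus : ∀ χ ∈ plusSet X δ, charDegree (χ : G → ℂ) = p + 1 := by
    intro χ hχ
    by_contra hne
    have h1 : p + 1 < charDegree (χ : G → ℂ) := by
      have := hdegPlusGe χ hχ
      omega
    have h2 : ∑ χ ∈ plusSet X δ, (p + 1) < ∑ χ ∈ plusSet X δ, charDegree (χ : G → ℂ) :=
      Finset.sum_lt_sum hdegPlusGe ⟨χ, hχ, h1⟩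
    rw [Finset.sum_const, smul_eq_mul, ← hb, ← hSp, hSp_eq] at h2
    exact lt_irrefl _ h2
  have hprod12 : ∀ g : G, (θ₁ : G → ℂ) g * (θ₂ : G → ℂ) g =
      (St : G → ℂ) g + ∑ ψ ∈ minusSet X δ, (ψ : G → ℂ) g := by
    intro g
    rw [hprodm g]
    congr 1
    apply Finset.sum_congr rfl
    intro ψ hψ
    rw [hm_eq ψ hψ, Nat.cast_one, one_mul]
  exact
    { notX := hStX
      notY := hStY
      degSt := hStdeg
      degPlus := hdegPlus
      degMinus := hdegMinus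
      cardMinus := by rw [← ha]; exact h2a
      cardPlus := by rw [← hb]; omega
      prod12 := hprod12
      sq₁ := by
        intro g
        have h1 := hid θ₁ hθ₁Y g
        have h2 := hprod12 g
        linear_combination h1 + h2
      sq₂ := by
        intro g
        have h1 := hid θ₂ hθ₂Y g
        have h2 := hprod12 g
        linear_combination h1 + h2 }

example : StB2Struct.{u} := b2Struct

end Cfsg.Agent.H65.BT
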