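import Mathlib
import Cfsg.Agent.H65.SL2Gen

/-!
# `SL₂(F)` in characteristic two (helper65)

Total versions `wz b`, `tz a` of the monomial and diagonal matrices and the relations between
`uu`, `ll`, `wz`, `tz` valid when `2 = 0`.
-/

set_option autoImplicit false

namespace Cfsg.Agent.H65.SL2Two

open Matrix Cfsg.Agent.H65.SL2Gen

variable {F : Type*} [Field F]

/-- Monomial matrix `!![0, b; b⁻¹, 0]` (char 2), total in `b`. -/
noncomputable def wz (b : F) : Matrix.SpecialLinearGroup (Fin 2) F := by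
  classical exact if h : b = 0 then 1 else wc b h

/-- Diagonal matrix `!![a, 0; 0, a⁻¹]`, total in `a`. -/
noncomputable def tz (a : F) : Matrix.SpecialLinearGroup (Fin 2) F := by
  classical exact if h : a = 0 then 1 else kk a⁻¹ (inv_ne_zero h)

theorem wz_of_ne {b : F} (hb : b ≠ 0) : wz b = wc b hb := by
  unfold wz; rw [dif_neg hb]

theorem tz_of_ne {a : F} (ha : a ≠ 0) : tz a = kk a⁻¹ (inv_ne_zero ha) := by
  unfold tz; rw [dif_neg ha]

theorem wz_00 {b : F} (hb : b ≠ 0) : (wz b).1 0 0 = 0 := by rw [wz_of_ne hb]; rfl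
theorem wz_01 {b : F} (hb : b ≠ 0) : (wz b).1 0 1 = b := by rw [wz_of_ne hb]; rfl
theorem wz_10 {b : F} (hb : b ≠ 0) : (wz b).1 1 0 = -b⁻¹ := by rw [wz_of_ne hb]; rfl
theorem wz_11 {b : F} (hb : b ≠ 0) : (wz b).1 1 1 = 0 := by rw [wz_of_ne hb]; rfl
theorem tz_00 {a : F} (ha : a ≠ 0) : (tz a).1 0 0 = a := by
  rw [tz_of_ne ha]; show (a⁻¹)⁻¹ = a; rw [inv_inv]
theorem tz_01 {a : F} (ha : a ≠ 0) : (tz a).1 0 1 = 0 := by rw [tz_of_ne ha]; rfl
theorem tz_10 {a : F} (ha : a ≠ 0) : (tz a).1 1 0 = 0 := by rw [tz_of_ne ha]; rfl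
theorem tz_11 {a : F} (ha : a ≠ 0) : (tz a).1 1 1 = a⁻¹ := by rw [tz_of_ne ha]; rfl

theorem ll_mul (a b : F) : ll a * ll b = ll (a + b) := by
  apply SL2.ext4 <;> simp [SL2.mul00, SL2.mul01, SL2.mul10, SL2.mul11]

theorem ll_zero : ll (0 : F) = 1 := by
  apply SL2.ext4 <;> simp

theorem tz_one : tz (1 : F) = 1 := by
  apply SL2.ext4 <;> simp [tz_00, tz_01, tz_10, tz_11]

theorem tz_mul {a b : F} (ha : a ≠ 0) (hb : b ≠ 0) : tz a * tz b = tz (a * b) := by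
  have hab : a * b ≠ 0 := mul_ne_zero ha hb
  apply SL2.ext4 <;>
    simp [SL2.mul00, SL2.mul01, SL2.mul10, SL2.mul11, tz_00, tz_01, tz_10, tz_11, ha, hb, hab]
  rw [mul_comm]

theorem tz_uu {a : F} (ha : a ≠ 0) (b : F) : tz a * uu b = uu (a ^ 2 * b) * tz a := by
  apply SL2.ext4 <;>
    simp [SL2.mul00, SL2.mul01, SL2.mul10, SL2.mul11, tz_00, tz_01, tz_10, tz_11, ha]
  field_simp

theorem ll_tz {a : F} (ha : a ≠ 0) (c : F) : ll c * tz a = tz a * ll (c * a ^ 2) := by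
  apply SL2.ext4 <;>
    simp [SL2.mul00, SL2.mul01, SL2.mul10, SL2.mul11, tz_00, tz_01, tz_10, tz_11, ha]
  field_simp

section char2

variable [CharP F 2]

theorem uu_sq (b : F) : uu b * uu b = 1 := by
  rw [uu_mul, CharTwo.add_self_eq_zero, uu_zero]

theorem ll_sq (b : F) : ll b * ll b = 1 := by
  rw [ll_mul, CharTwo.add_self_eq_zero, ll_zero]

theorem wz_sq (b : F) : wz b * wz b = 1 := by
  by_cases hb : b = 0
  · unfold wz; rw [dif_pos hb, mul_one]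
  · apply SL2.ext4 <;>
      simp [SL2.mul00, SL2.mul01, SL2.mul10, SL2.mul11, wz_00, wz_01, wz_10, wz_11, hb,
        CharTwo.neg_eq]

theorem wz_eq {b : F} (hb : b ≠ 0) : wz b = uu b * ll b⁻¹ * uu b := by
  apply SL2.ext4 <;>
    simp [SL2.mul00, SL2.mul01, SL2.mul10, SL2.mul11, wz_00, wz_01, wz_10, wz_11, hb,
      CharTwo.neg_eq, CharTwo.add_self_eq_zero]

theorem wz_uu_wz {b : F} (hb : b ≠ 0) (c : F) : wz b * uu c * wz b = ll (c / b ^ 2) := by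
  apply SL2.ext4 <;>
    simp [SL2.mul00, SL2.mul01, SL2.mul10, SL2.mul11, wz_00, wz_01, wz_10, wz_11, hb,
      CharTwo.neg_eq]
  field_simp

theorem wz_ll_wz {b : F} (hb : b ≠ 0) (c : F) : wz b * ll c * wz b = uu (c * b ^ 2) := by
  apply SL2.ext4 <;>
    simp [SL2.mul00, SL2.mul01, SL2.mul10, SL2.mul11, wz_00, wz_01, wz_10, wz_11, hb,
      CharTwo.neg_eq]
  ring

theorem wz_mul_wz_one {a : F} (ha : a ≠ 0) : wz a * wz 1 = tz a := by
  apply SL2.ext4 <;>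
    simp [SL2.mul00, SL2.mul01, SL2.mul10, SL2.mul11, wz_00, wz_01, wz_10, wz_11, ha,
      tz_00, tz_01, tz_10, tz_11, CharTwo.neg_eq]

theorem wz_one_mul_wz {a : F} (ha : a ≠ 0) : wz 1 * wz a = tz a⁻¹ := by
  apply SL2.ext4 <;>
    simp [SL2.mul00, SL2.mul01, SL2.mul10, SL2.mul11, wz_00, wz_01, wz_10, wz_11, ha,
      tz_00, tz_01, tz_10, tz_11, CharTwo.neg_eq]

theorem wz_eq_tz_mul {a : F} (ha : a ≠ 0) : wz a = tz a * wz 1 := by
  rw [← wz_mul_wz_one ha, mul_assoc, wz_sq, mul_one]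

theorem ll_eq_wz (c : F) : ll c = wz 1 * uu c * wz 1 := by
  rw [wz_uu_wz one_ne_zero]; simp

theorem uu_eq_wz (c : F) : uu c = wz 1 * ll c * wz 1 := by
  rw [wz_ll_wz one_ne_zero]; simp

theorem ll_mul_wz {b : F} (hb : b ≠ 0) (c : F) : ll c * wz b = wz b * uu (c * b ^ 2) := by
  rw [← wz_ll_wz hb c, ← mul_assoc, ← mul_assoc, wz_sq, one_mul]

theorem uu_mul_wz {b : F} (hb : b ≠ 0) (c : F) : uu c * wz b = wz b * ll (c / b ^ 2) := by
  rw [← wz_uu_wz hb c, ← mul_assoc, ← mul_assoc, wz_sq, one_mul]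

omit [CharP F 2] in
theorem uu_mul_tz {a : F} (ha : a ≠ 0) (c : F) : uu c * tz a = tz a * uu (c / a ^ 2) := by
  rw [tz_uu ha]
  congr 2
  field_simp

theorem wz_tz_wz {a : F} (ha : a ≠ 0) : wz 1 * tz a * wz 1 = tz a⁻¹ := by
  rw [← wz_mul_wz_one ha, ← wz_one_mul_wz ha, mul_assoc, mul_assoc, wz_sq, mul_one]

/-- `uu b * ll b⁻¹` has order dividing three. -/
theorem y_cube {b : F} (hb : b ≠ 0) : (uu b * ll b⁻¹) * (uu b * ll b⁻¹) * (uu b * ll b⁻¹) = 1 := by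
  have h1 : uu b * ll b⁻¹ * uu b = wz b := (wz_eq hb).symm
  have h2 : ll b⁻¹ * uu b * ll b⁻¹ = wz b := by
    apply SL2.ext4 <;>
      simp [SL2.mul00, SL2.mul01, SL2.mul10, SL2.mul11, wz_00, wz_01, wz_10, wz_11, hb,
        CharTwo.neg_eq, CharTwo.add_self_eq_zero]
  calc (uu b * ll b⁻¹) * (uu b * ll b⁻¹) * (uu b * ll b⁻¹)
      = (uu b * ll b⁻¹ * uu b) * (ll b⁻¹ * uu b * ll b⁻¹) := by group
    _ = 1 := by rw [h1, h2, wz_sq]

/-- the matrix `[[0,1],[1,1]]` as `uu 1 * ll 1` -/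
theorem y_entries : (uu (1 : F) * ll 1).1 0 0 = 0 ∧ (uu (1 : F) * ll 1).1 0 1 = 1 ∧
    (uu (1 : F) * ll 1).1 1 0 = 1 ∧ (uu (1 : F) * ll 1).1 1 1 = 1 := by
  refine ⟨?_, ?_, ?_, ?_⟩ <;>
    simp [SL2.mul00, SL2.mul01, SL2.mul10, SL2.mul11, CharTwo.add_self_eq_zero]

end char2

end Cfsg.Agent.H65.SL2Two
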