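import Mathlib
import Cfsg.Agent.H65.SL2Two
import Cfsg.Agent.H65.NatRec

/-!
# Modules for `SL₂(2ⁿ)` on which the elements of order three act fixed-point-freely (helper65)

`Fpf F M`: an action of `SL₂(F)` (`char F = 2`, `|F| ≥ 4`) on a finite abelian `2`-group `M`
such that the three involutions `uu b`, `ll b⁻¹`, `wz b` of each standard `S₃` sum to zero
(equivalently: the elements of order three have no nonzero fixed points).
Main results: `M = C_M(U) ⊕ C_M(L)`, `2M = 0`, `C_M(U)` is an `F`-vector space through the torus.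
-/

set_option autoImplicit false
set_option linter.unusedSectionVars false

namespace Cfsg.Agent.H65.FpfMod

open Matrix Cfsg.Agent.H65.SL2Gen Cfsg.Agent.H65.SL2Two

/-- A `p`-group acting on a finite abelian `p`-group `M` with a proper invariant subgroup `M₀`:
some vector outside `M₀` is fixed modulo `M₀`. -/
theorem exists_fixed_mod_inv {A : Type*} [Group A] {M : Type*} [AddCommGroup M] [Finite M] (p : ℕ)
    [Fact p.Prime] (hA : IsPGroup p A) (act : A → M →+ M) (act_one : ∀ m, act 1 m = m)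
    (act_mul : ∀ a b m, act (a * b) m = act a (act b m)) (hM : ∃ k, Nat.card M = p ^ k)
    (M₀ : AddSubgroup M) (hM₀ : ∀ m, m ∈ M₀ → ∀ a, act a m ∈ M₀) (hne : M₀ ≠ ⊤) :
    ∃ v, v ∉ M₀ ∧ ∀ a, act a v - v ∈ M₀ := by
  classical
  have hp : p.Prime := Fact.out
  have hcomap : ∀ a : A, M₀ ≤ M₀.comap (act a) := by
    intro a m hm
    rw [AddSubgroup.mem_comap]
    exact hM₀ m hm a
  let inst : MulAction A (M ⧸ M₀) :=
    { smul := fun a => QuotientAddGroup.map M₀ M₀ (act a) (hcomap a)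
      one_smul := by
        intro q
        obtain ⟨m, rfl⟩ := QuotientAddGroup.mk_surjective q
        show QuotientAddGroup.map M₀ M₀ (act 1) (hcomap 1) (m : M ⧸ M₀) = _
        rw [QuotientAddGroup.map_mk, act_one]
      mul_smul := by
        intro a b q
        obtain ⟨m, rfl⟩ := QuotientAddGroup.mk_surjective q
        show QuotientAddGroup.map M₀ M₀ (act (a * b)) (hcomap _) (m : M ⧸ M₀) =
          QuotientAddGroup.map M₀ M₀ (act a) (hcomap _)
            (QuotientAddGroup.map M₀ M₀ (act b) (hcomap _) (m : M ⧸ M₀))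
        rw [QuotientAddGroup.map_mk, QuotientAddGroup.map_mk, QuotientAddGroup.map_mk, act_mul] }
  have hsm : ∀ (a : A) (m : M), a • (m : M ⧸ M₀) = ((act a m : M) : M ⧸ M₀) := fun a m => rfl
  obtain ⟨k, hk'⟩ := hM
  have hdvd0 : Nat.card (M ⧸ M₀) ∣ p ^ k := by
    rw [← hk']; exact AddSubgroup.card_quotient_dvd_card M₀
  obtain ⟨j, hj, hcj⟩ := (Nat.dvd_prime_pow hp).mp hdvd0
  have hnontriv : Nontrivial (M ⧸ M₀) := by
    obtain ⟨m, hm⟩ : ∃ m, m ∉ M₀ := by
      by_contra hcon
      push Not at hcon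
      exact hne (eq_top_iff.mpr fun m _ => hcon m)
    refine ⟨⟨(m : M ⧸ M₀), 0, ?_⟩⟩
    intro h
    exact hm ((QuotientAddGroup.eq_zero_iff m).mp h)
  have hj0 : j ≠ 0 := by
    rintro rfl
    rw [pow_zero] at hcj
    have := Finite.one_lt_card_iff_nontrivial.mpr hnontriv
    omega
  have hdvd : p ∣ Nat.card (M ⧸ M₀) := by
    rw [hcj]; exact dvd_pow_self p hj0
  have h0 : (0 : M ⧸ M₀) ∈ MulAction.fixedPoints A (M ⧸ M₀) := by
    intro a
    have := hsm a 0
    rw [map_zero] at this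
    exact this
  obtain ⟨b, hb, hb0⟩ := hA.exists_fixed_point_of_prime_dvd_card_of_fixed_point (M ⧸ M₀) hdvd h0
  obtain ⟨v, rfl⟩ := QuotientAddGroup.mk_surjective b
  refine ⟨v, ?_, ?_⟩
  · intro hv
    exact hb0 ((QuotientAddGroup.eq_zero_iff v).mpr hv).symm
  · intro a
    have h1 := hb a
    rw [hsm] at h1
    have h2 := QuotientAddGroup.eq.mp h1
    have h3 : act a v - v = -(-(act a v) + v) := by abel
    rw [h3]
    exact M₀.neg_mem h2

/-- Solving the functional equation for the second layer. -/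
theorem fe_solve {F : Type*} [Field F] [CharP F 2] {V : Type*} [AddCommGroup V] [Module F V]
    (hf4 : ∃ r : F, r ≠ 0 ∧ r ≠ 1) (e : F → V) (he : ∀ s s', e (s + s') = e s + e s') (d : V)
    (hFE : ∀ c c' s : F, c ≠ 0 → c' ≠ 0 → c + c' ≠ 0 → s ≠ 0 →
      c • e (s / c ^ 2) + c' • e (s / c' ^ 2) + (c + c') • e (s / (c + c') ^ 2) =
        s • (e (c⁻¹ + c'⁻¹ + (c + c')⁻¹) + d)) :
    d = 0 ∧ ∃ x, ∀ s, e s = s • x := by
  have h2F : (2 : F) = 0 := CharTwo.two_eq_zero
  have h2 : ∀ v : V, v + v = 0 := fun v => by rw [← two_smul F v, h2F, zero_smul]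
  have hneg : ∀ v : V, -v = v := fun v => by
    have := h2 v
    exact neg_eq_of_add_eq_zero_left this
  have e0 : e 0 = 0 := by
    have := he 0 0
    rw [add_zero] at this
    have h' : e 0 + e 0 = e 0 + 0 := by rw [add_zero]; exact this.symm
    exact add_left_cancel h'
  have one_add_ne : ∀ r : F, r ≠ 1 → 1 + r ≠ 0 := by
    intro r hr h
    apply hr
    have : r = -1 := by linear_combination h
    rw [this, CharTwo.neg_eq]
  have key : ∀ r : F, r ≠ 0 → r ≠ 1 → ∀ c s : F, c ≠ 0 → s ≠ 0 →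
      e s + r • e (s / r ^ 2) + (1 + r) • e (s / (1 + r) ^ 2) =
        (s * c) • (e ((1 + r⁻¹ + (1 + r)⁻¹) / c) + d) := by
    intro r hr hr1 c s hc hs
    have h1r := one_add_ne r hr1
    have hcr : c + r * c = (1 + r) * c := by ring
    have := hFE c (r * c) (s * c ^ 2) hc (mul_ne_zero hr hc)
      (by rw [hcr]; exact mul_ne_zero h1r hc) (mul_ne_zero hs (pow_ne_zero 2 hc))
    rw [hcr] at this
    have e1 : s * c ^ 2 / c ^ 2 = s := by field_simp
    have e2 : s * c ^ 2 / (r * c) ^ 2 = s / r ^ 2 := by field_simp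
    have e3 : s * c ^ 2 / ((1 + r) * c) ^ 2 = s / (1 + r) ^ 2 := by field_simp
    have e4 : c⁻¹ + (r * c)⁻¹ + ((1 + r) * c)⁻¹ = (1 + r⁻¹ + (1 + r)⁻¹) / c := by
      field_simp
    rw [e1, e2, e3, e4] at this
    apply smul_right_injective V hc
    show c • (e s + r • e (s / r ^ 2) + (1 + r) • e (s / (1 + r) ^ 2)) =
      c • ((s * c) • (e ((1 + r⁻¹ + (1 + r)⁻¹) / c) + d))
    rw [smul_add, smul_add, smul_smul, smul_smul, smul_smul]
    have e5 : c * r = r * c := mul_comm _ _
    have e6 : c * (1 + r) = (1 + r) * c := mul_comm _ _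
    have e7 : c * (s * c) = s * c ^ 2 := by ring
    rw [e5, e6, e7]
    exact this
  have kap : ∀ r : F, r ≠ 0 → r ≠ 1 →
      (1 + r⁻¹ + (1 + r)⁻¹) * (r * (1 + r)) = r ^ 2 + r + 1 := by
    intro r hr hr1
    have h1r := one_add_ne r hr1
    field_simp
    linear_combination (r) * h2F
  by_cases hA : ∃ r : F, r ≠ 0 ∧ r ≠ 1 ∧ r ^ 2 + r + 1 ≠ 0
  · obtain ⟨r, hr, hr1, hr3⟩ := hA
    have h1r := one_add_ne r hr1
    set κ : F := 1 + r⁻¹ + (1 + r)⁻¹ with hκdef
    have hκ : κ ≠ 0 := by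
      intro h
      apply hr3
      rw [← kap r hr hr1, ← hκdef, h, zero_mul]
    set lam : V := e 1 + r • e (1 / r ^ 2) + (1 + r) • e (1 / (1 + r) ^ 2) with hlam
    have hl : ∀ c : F, c ≠ 0 → lam = c • (e (κ / c) + d) := by
      intro c hc
      have := key r hr hr1 c 1 hc one_ne_zero
      rw [one_mul] at this
      exact this
    have hes : ∀ s : F, s ≠ 0 → e s + d = s • (κ⁻¹ • lam) := by
      intro s hs
      have hc : κ / s ≠ 0 := div_ne_zero hκ hs
      have h1 := hl (κ / s) hc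
      have h3 : κ / (κ / s) = s := by field_simp
      rw [h3] at h1
      rw [h1, smul_smul, smul_smul]
      have h4 : s * κ⁻¹ * (κ / s) = 1 := by field_simp
      rw [h4, one_smul]
    have hd : d = 0 := by
      have ha := hes 1 one_ne_zero
      have hb := hes r hr
      have hc := hes (1 + r) h1r
      rw [he, add_smul] at hc
      rw [← ha, ← hb] at hc
      have h5 : e 1 + e r + d = e 1 + d + (e r + d) - d := by abel
      rw [h5] at hc
      have h6 : d = 0 := by
        have : e 1 + d + (e r + d) - d - (e 1 + d + (e r + d)) = 0 := by rw [hc, sub_self]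
        have h7 : e 1 + d + (e r + d) - d - (e 1 + d + (e r + d)) = -d := by abel
        rw [h7] at this
        exact neg_eq_zero.mp this
      exact h6
    refine ⟨hd, κ⁻¹ • lam, ?_⟩
    intro s
    by_cases hs : s = 0
    · rw [hs, e0, zero_smul]
    · have := hes s hs
      rw [hd, add_zero] at this
      exact this
  · push Not at hA
    obtain ⟨r, hr, hr1⟩ := hf4
    have h1r := one_add_ne r hr1
    have hr3 := hA r hr hr1
    have hκ : (1 + r⁻¹ + (1 + r)⁻¹ : F) = 0 := by
      have := kap r hr hr1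
      rw [hr3] at this
      rcases mul_eq_zero.mp this with h | h
      · exact h
      · exact absurd h (mul_ne_zero hr h1r)
    have hl : ∀ c s : F, c ≠ 0 → s ≠ 0 →
        e s + r • e (s / r ^ 2) + (1 + r) • e (s / (1 + r) ^ 2) = (s * c) • d := by
      intro c s hc hs
      have := key r hr hr1 c s hc hs
      rw [hκ, zero_div, e0, zero_add] at this
      exact this
    have hd : d = 0 := by
      have ha := hl 1 1 one_ne_zero one_ne_zero
      have hb := hl r 1 hr one_ne_zero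
      rw [ha] at hb
      rw [one_mul, one_smul, one_mul] at hb
      have : (1 + r) • d = 0 := by
        rw [add_smul, one_smul, ← hb, h2]
      rcases smul_eq_zero.mp this with h | h
      · exact absurd h h1r
      · exact h
    have hrsq : r ^ 2 = r + 1 := by
      have : r ^ 2 = -(r + 1) := by linear_combination hr3
      rw [this, CharTwo.neg_eq]
    have hmul : ∀ s : F, s ≠ 0 → e (s * r) = r • e s := by
      intro s hs
      have := hl 1 s one_ne_zero hs
      rw [hd, smul_zero] at this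
      have hrcube : r * r ^ 2 = 1 := by
        linear_combination (r + 1) * hrsq + r * h2F
      have e1 : s / r ^ 2 = s * r := by
        rw [div_eq_iff (pow_ne_zero 2 hr)]
        linear_combination (-s) * hrcube
      have e2 : s / (1 + r) ^ 2 = s + s * r := by
        have h8 : (1 + r) ^ 2 = r := by
          linear_combination hrsq + (r + 1) * h2F
        rw [h8, div_eq_iff hr]
        linear_combination (-s) * hrsq - (s * r) * h2F
      rw [e1, e2, he, add_smul, one_smul, smul_add] at this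
      have h10 : e s + r • e (s * r) + (e s + e (s * r) + (r • e s + r • e (s * r))) =
          (e s + e s) + (r • e (s * r) + r • e (s * r)) + (e (s * r) + r • e s) := by abel
      rw [h10, h2, h2, zero_add, zero_add] at this
      have h11 : e (s * r) = -(r • e s) := eq_neg_of_add_eq_zero_left this
      rw [h11, hneg]
    refine ⟨hd, e 1, ?_⟩
    intro s
    by_cases hs : s = 0
    · rw [hs, e0, zero_smul]
    by_cases hs1 : s = 1
    · rw [hs1, one_smul]
    have hs3 := hA s hs hs1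
    have hprod : (s + r) * (s + r + 1) = 0 := by
      linear_combination hs3 + hr3 + (s * r - 1) * h2F
    rcases mul_eq_zero.mp hprod with h | h
    · have hsr : s = r := by
        have : s = -r := by linear_combination h
        rw [this, CharTwo.neg_eq]
      rw [hsr]
      have := hmul 1 one_ne_zero
      rw [one_mul] at this
      exact this
    · have hsr : s = 1 + r := by
        have : s = -(1 + r) := by linear_combination h
        rw [this, CharTwo.neg_eq]
      rw [hsr, he, add_smul, one_smul]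
      have := hmul 1 one_ne_zero
      rw [one_mul] at this
      rw [this]

/-- An `SL₂(F)`-module on which the three involutions of every standard `S₃` sum to zero. -/
structure Fpf (F : Type*) [Field F] (M : Type*) [AddCommGroup M] where
  act : Matrix.SpecialLinearGroup (Fin 2) F → M →+ M
  act_one : ∀ m, act 1 m = m
  act_mul : ∀ a b m, act (a * b) m = act a (act b m)
  rel : ∀ b : F, b ≠ 0 → ∀ m, act (wz b) m + act (uu b) m + act (ll b⁻¹) m = 0
  card : ∃ k, Nat.card M = 2 ^ k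
  f4 : ∃ r : F, r ≠ 0 ∧ r ≠ 1

namespace Fpf

variable {F : Type*} [Field F] [CharP F 2] {M : Type*} [AddCommGroup M] (D : Fpf F M)

theorem act_inj (g : Matrix.SpecialLinearGroup (Fin 2) F) : Function.Injective (D.act g) := by
  intro x y hxy
  have := congrArg (D.act g⁻¹) hxy
  rwa [← D.act_mul, ← D.act_mul, inv_mul_cancel, D.act_one, D.act_one] at this

theorem act_eq_zero {g : Matrix.SpecialLinearGroup (Fin 2) F} {m : M} (h : D.act g m = 0) :
    m = 0 := by
  apply D.act_inj g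
  rw [h, map_zero]

theorem wz_wz (b : F) (m : M) : D.act (wz b) (D.act (wz b) m) = m := by
  rw [← D.act_mul, wz_sq, D.act_one]

theorem uu_uu (b : F) (m : M) : D.act (uu b) (D.act (uu b) m) = m := by
  rw [← D.act_mul, uu_sq, D.act_one]

theorem no3 [Finite M] (hcard : ∃ k, Nat.card M = 2 ^ k) {m : M} (h : m + m + m = 0) :
    m = 0 := by
  obtain ⟨k, hk⟩ := hcard
  have h3 : 3 • m = 0 := by
    rw [show (3 : ℕ) = 2 + 1 from rfl, add_smul, two_smul, one_smul]; exact h
  have hk2 : (2 ^ k) • m = 0 := by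
    rw [← hk]; exact card_nsmul_eq_zero'
  have d1 : addOrderOf m ∣ 3 := addOrderOf_dvd_of_nsmul_eq_zero h3
  have d2 : addOrderOf m ∣ 2 ^ k := addOrderOf_dvd_of_nsmul_eq_zero hk2
  have hcop : Nat.Coprime 3 (2 ^ k) := Nat.Coprime.pow_right k (by decide)
  have : addOrderOf m = 1 := Nat.eq_one_of_dvd_coprimes hcop d1 d2
  exact AddMonoid.addOrderOf_eq_one_iff.mp this

/-- Fixed points of the upper unitriangular group. -/
def W1 : AddSubgroup M where
  carrier := {m | ∀ c : F, D.act (uu c) m = m}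
  add_mem' := fun {x y} hx hy c => by rw [map_add, hx c, hy c]
  zero_mem' := fun c => map_zero _
  neg_mem' := fun {x} hx c => by rw [map_neg, hx c]

/-- Fixed points of the lower unitriangular group. -/
def W2 : AddSubgroup M where
  carrier := {m | ∀ c : F, D.act (ll c) m = m}
  add_mem' := fun {x y} hx hy c => by rw [map_add, hx c, hy c]
  zero_mem' := fun c => map_zero _
  neg_mem' := fun {x} hx c => by rw [map_neg, hx c]

theorem mem_W1 {m : M} : m ∈ D.W1 ↔ ∀ c : F, D.act (uu c) m = m := Iff.rfl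
theorem mem_W2 {m : M} : m ∈ D.W2 ↔ ∀ c : F, D.act (ll c) m = m := Iff.rfl

theorem wz_mem_W2 {b : F} (hb : b ≠ 0) {m : M} (hm : m ∈ D.W1) : D.act (wz b) m ∈ D.W2 := by
  intro c
  rw [← D.act_mul, ll_mul_wz hb, D.act_mul, hm]

theorem wz_mem_W1 {b : F} (hb : b ≠ 0) {m : M} (hm : m ∈ D.W2) : D.act (wz b) m ∈ D.W1 := by
  intro c
  rw [← D.act_mul, uu_mul_wz hb, D.act_mul, hm]

theorem tz_mem_W1 {a : F} (ha : a ≠ 0) {m : M} (hm : m ∈ D.W1) : D.act (tz a) m ∈ D.W1 := by
  intro c
  rw [← D.act_mul, uu_mul_tz ha, D.act_mul, hm]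

theorem tz_mem_W2 {a : F} (ha : a ≠ 0) {m : M} (hm : m ∈ D.W2) : D.act (tz a) m ∈ D.W2 := by
  intro c
  rw [← D.act_mul, ll_tz ha, D.act_mul, hm]

theorem inf_eq_zero [Finite M] {m : M} (h1 : m ∈ D.W1) (h2 : m ∈ D.W2) : m = 0 := by
  have hr := D.rel 1 one_ne_zero m
  rw [wz_eq (one_ne_zero : (1 : F) ≠ 0), D.act_mul, D.act_mul, h1, h2, h1] at hr
  exact no3 D.card hr

theorem uu_W2_raw {b : F} (hb : b ≠ 0) {m : M} (hm : m ∈ D.W2) :
    D.act (uu b) m = -m - D.act (wz b) m := by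
  have hr := D.rel b hb m
  rw [hm] at hr
  have : D.act (uu b) m - (-m - D.act (wz b) m) =
      D.act (wz b) m + D.act (uu b) m + m := by abel
  rw [hr] at this
  exact sub_eq_zero.mp this

theorem two_W2 [Finite M] {m : M} (hm : m ∈ D.W2) : m + m = 0 := by
  obtain ⟨r, hr, hr1⟩ := D.f4
  have h1r : (1 : F) + r ≠ 0 := by
    intro h
    apply hr1
    have : r = -1 := by linear_combination h
    rw [this, CharTwo.neg_eq]
  have e1 : D.act (uu 1) (D.act (uu r) m) = D.act (uu (1 + r)) m := by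
    rw [← D.act_mul, uu_mul]
  rw [D.uu_W2_raw hr hm, D.uu_W2_raw h1r hm, map_sub, map_neg,
    D.uu_W2_raw one_ne_zero hm, D.wz_mem_W1 hr hm 1] at e1
  have hmem : m + m ∈ D.W1 := by
    have : m + m = -(D.act (wz (1 + r)) m) - D.act (wz 1) m + D.act (wz r) m := by
      have h := e1
      have h' : m + m - (-(D.act (wz (1 + r)) m) - D.act (wz 1) m + D.act (wz r) m) =
          -(-m - D.act (wz 1) m) - D.act (wz r) m - (-m - D.act (wz (1 + r)) m) := by abel
      rw [h, sub_self] at h'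
      exact sub_eq_zero.mp h'
    rw [this]
    exact D.W1.add_mem (D.W1.sub_mem (D.W1.neg_mem (D.wz_mem_W1 h1r hm))
      (D.wz_mem_W1 one_ne_zero hm)) (D.wz_mem_W1 hr hm)
  exact D.inf_eq_zero hmem (D.W2.add_mem hm hm)

theorem two_W1 [Finite M] {m : M} (hm : m ∈ D.W1) : m + m = 0 := by
  have := D.two_W2 (D.wz_mem_W2 one_ne_zero hm)
  rw [← map_add] at this
  exact D.act_eq_zero this

theorem neg_W1 [Finite M] {m : M} (hm : m ∈ D.W1) : -m = m :=
  neg_eq_of_add_eq_zero_left (D.two_W1 hm)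

theorem neg_W2 [Finite M] {m : M} (hm : m ∈ D.W2) : -m = m :=
  neg_eq_of_add_eq_zero_left (D.two_W2 hm)

theorem uu_W2 [Finite M] {b : F} (hb : b ≠ 0) {m : M} (hm : m ∈ D.W2) :
    D.act (uu b) m = m + D.act (wz b) m := by
  rw [D.uu_W2_raw hb hm, sub_eq_add_neg, D.neg_W2 hm, D.neg_W1 (D.wz_mem_W1 hb hm)]

theorem ll_W1 [Finite M] {c : F} (hc : c ≠ 0) {m : M} (hm : m ∈ D.W1) :
    D.act (ll c) m = m + D.act (wz c⁻¹) m := by
  have hr := D.rel c⁻¹ (inv_ne_zero hc) m
  rw [hm, inv_inv] at hr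
  have : D.act (ll c) m - (-m - D.act (wz c⁻¹) m) =
      D.act (wz c⁻¹) m + m + D.act (ll c) m := by abel
  rw [hr] at this
  rw [sub_eq_zero.mp this, sub_eq_add_neg, D.neg_W1 hm,
    D.neg_W2 (D.wz_mem_W2 (inv_ne_zero hc) hm)]

theorem tz_add [Finite M] {a a' : F} (ha : a ≠ 0) (ha' : a' ≠ 0) (haa : a + a' ≠ 0) {m : M}
    (hm : m ∈ D.W1) : D.act (tz (a + a')) m = D.act (tz a) m + D.act (tz a') m := by
  have hx := D.wz_mem_W2 (one_ne_zero : (1 : F) ≠ 0) hm
  have e1 : D.act (uu a) (D.act (uu a') (D.act (wz 1) m)) = D.act (uu (a + a')) (D.act (wz 1) m) := by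
    rw [← D.act_mul, uu_mul]
  rw [D.uu_W2 ha' hx, D.uu_W2 haa hx, map_add, D.uu_W2 ha hx, D.wz_mem_W1 ha' hx a,
    ← D.act_mul, ← D.act_mul, ← D.act_mul, wz_mul_wz_one ha, wz_mul_wz_one ha',
    wz_mul_wz_one haa] at e1
  have : D.act (tz (a + a')) m - (D.act (tz a) m + D.act (tz a') m) =
      D.act (wz 1) m + D.act (tz (a + a')) m -
        (D.act (wz 1) m + D.act (tz a) m + D.act (tz a') m) := by abel
  rw [← e1, sub_self] at this
  exact sub_eq_zero.mp this

/-- Scalar multiplication of `F` on `C_M(U)` through the torus. -/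
noncomputable def sm (a : F) (x : D.W1) : D.W1 := by
  classical exact if h : a = 0 then 0 else ⟨D.act (tz a) x.1, D.tz_mem_W1 h x.2⟩

noncomputable instance instSMulW1 : SMul F D.W1 := ⟨D.sm⟩

theorem coe_smul {a : F} (ha : a ≠ 0) (x : D.W1) : ((a • x : D.W1) : M) = D.act (tz a) x.1 := by
  show ((D.sm a x : D.W1) : M) = _
  unfold sm
  rw [dif_neg ha]

theorem zero_smul' (x : D.W1) : ((0 : F) • x : D.W1) = 0 := by
  show D.sm 0 x = 0
  unfold sm
  rw [dif_pos rfl]

noncomputable instance instModuleW1 [Finite M] : Module F D.W1 :=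
  Module.ofMinimalAxioms
    (by
      intro r x y
      by_cases hr : r = 0
      · subst hr
        rw [D.zero_smul', D.zero_smul', D.zero_smul', add_zero]
      · apply Subtype.ext
        rw [AddSubgroup.coe_add, D.coe_smul hr, D.coe_smul hr, D.coe_smul hr, AddSubgroup.coe_add,
          map_add])
    (by
      intro r s x
      by_cases hr : r = 0
      · subst hr
        rw [zero_add, D.zero_smul', zero_add]
      by_cases hs : s = 0
      · subst hs
        rw [add_zero, D.zero_smul', add_zero]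
      by_cases hrs : r + s = 0
      · have hsr : s = r := by
          have : s = -r := by linear_combination hrs
          rw [this, CharTwo.neg_eq]
        subst hsr
        rw [hrs, D.zero_smul']
        apply Subtype.ext
        rw [AddSubgroup.coe_add, D.coe_smul hs]
        exact (D.two_W1 (D.tz_mem_W1 hs x.2)).symm
      · apply Subtype.ext
        rw [AddSubgroup.coe_add, D.coe_smul hr, D.coe_smul hs, D.coe_smul hrs]
        exact D.tz_add hr hs hrs x.2)
    (by
      intro r s x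
      by_cases hr : r = 0
      · subst hr
        rw [zero_mul, D.zero_smul', D.zero_smul']
      by_cases hs : s = 0
      · subst hs
        rw [mul_zero, D.zero_smul']
        apply Subtype.ext
        rw [D.coe_smul hr]
        simp
      · apply Subtype.ext
        rw [D.coe_smul (mul_ne_zero hr hs), D.coe_smul hr, D.coe_smul hs, ← D.act_mul,
          tz_mul hr hs])
    (by
      intro x
      apply Subtype.ext
      rw [D.coe_smul one_ne_zero, tz_one, D.act_one])

/-- The second layer: if `[m, U] ⊆ C_M(U) + C_M(L)` then `m ∈ C_M(U) + C_M(L)`. -/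
theorem claimP [Finite M] (m : M) (hm : ∀ b : F, D.act (uu b) m - m ∈ D.W1 ⊔ D.W2) :
    m ∈ D.W1 ⊔ D.W2 := by
  have he1' : ∀ b : F, D.act (uu b) m - m ∈ D.W1 := by
    intro b
    by_cases hb : b = 0
    · subst hb; rw [uu_zero, D.act_one, sub_self]; exact D.W1.zero_mem
    obtain ⟨α, hα, β, hβ, hαβ⟩ := AddSubgroup.mem_sup.mp (hm b)
    have h1 : D.act (uu b) (D.act (uu b) m - m) = -(D.act (uu b) m - m) := by
      rw [map_sub, D.uu_uu]; abel
    rw [← hαβ, map_add, hα b, D.uu_W2 hb hβ, neg_add, D.neg_W1 hα, D.neg_W2 hβ] at h1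
    have h2 : D.act (wz b) β = 0 := by
      have : D.act (wz b) β = α + (β + D.act (wz b) β) - (α + β) := by abel
      rw [this, h1, sub_self]
    have h3 : β = 0 := D.act_eq_zero h2
    rw [h3, add_zero] at hαβ
    rw [← hαβ]; exact hα
  obtain ⟨e, hedef⟩ : ∃ e : F → M, ∀ b, e b = D.act (uu b) m - m := ⟨_, fun _ => rfl⟩
  have he1 : ∀ b, e b ∈ D.W1 := fun b => by rw [hedef]; exact he1' b
  have hU : ∀ b, D.act (uu b) m = m + e b := by intro b; rw [hedef]; abel
  have hadd : ∀ b b', e (b + b') = e b + e b' := by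
    intro b b'
    have h1 : D.act (uu (b + b')) m = D.act (uu b) (D.act (uu b') m) := by
      rw [← D.act_mul, uu_mul]
    rw [hedef (b + b'), h1, hU b', map_add, he1 b' b, hU b]; abel
  have hd : m + m ∈ D.W1 := by
    intro c
    rw [map_add, hU c]
    have h1 := D.two_W1 (he1 c)
    have h2 : m + e c + (m + e c) = m + m + (e c + e c) := by abel
    rw [h2, h1, add_zero]
  obtain ⟨m', hm'def⟩ : ∃ m' : M, m' = D.act (wz 1) m := ⟨_, rfl⟩
  have hL' : ∀ c, D.act (ll c) m' = m' + D.act (wz 1) (e c) := by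
    intro c
    rw [hm'def, ← D.act_mul, ll_mul_wz one_ne_zero, D.act_mul]
    simp only [one_pow, mul_one]
    rw [hU c, map_add]
  have hLm : ∀ c : F, c ≠ 0 → D.act (ll c) m = -(D.act (tz c⁻¹) m') - m - e c⁻¹ := by
    intro c hc
    have hr := D.rel c⁻¹ (inv_ne_zero hc) m
    rw [inv_inv, hU c⁻¹] at hr
    have hw : D.act (wz c⁻¹) m = D.act (tz c⁻¹) m' := by
      rw [hm'def, ← D.act_mul, ← wz_mul_wz_one (inv_ne_zero hc), mul_assoc, wz_sq, mul_one]
    rw [hw] at hr
    have : D.act (ll c) m - (-(D.act (tz c⁻¹) m') - m - e c⁻¹) =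
        D.act (tz c⁻¹) m' + (m + e c⁻¹) + D.act (ll c) m := by abel
    rw [hr] at this
    exact sub_eq_zero.mp this
  have hLT : ∀ a : F, a ≠ 0 → ∀ c, D.act (ll c) (D.act (tz a) m') =
      D.act (tz a) m' + D.act (tz a) (D.act (wz 1) (e (c * a ^ 2))) := by
    intro a ha c
    rw [← D.act_mul, ll_tz ha, D.act_mul, hL', map_add]
  have hWTW : ∀ a : F, a ≠ 0 → ∀ y, D.act (wz 1) (D.act (tz a) (D.act (wz 1) y)) =
      D.act (tz a⁻¹) y := by
    intro a ha y
    rw [← D.act_mul, ← D.act_mul, wz_tz_wz ha]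
  -- the functional equation
  have hFE : ∀ c c' s : F, c ≠ 0 → c' ≠ 0 → c + c' ≠ 0 → s ≠ 0 →
      D.act (tz c) (e (s / c ^ 2)) + D.act (tz c') (e (s / c' ^ 2)) +
        D.act (tz (c + c')) (e (s / (c + c') ^ 2)) =
      D.act (tz s) (e (c⁻¹ + c'⁻¹ + (c + c')⁻¹) + (m + m)) := by
    intro c c' s hc hc' hcc hs
    have ha := inv_ne_zero hc
    have ha' := inv_ne_zero hc'
    have ha'' := inv_ne_zero hcc
    have E1 : D.act (ll c') (D.act (ll c) m) = D.act (ll (c + c')) m := by
      rw [← D.act_mul, ll_mul, add_comm]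
    rw [hLm c hc, map_sub, map_sub, map_neg, hLT c⁻¹ ha c', hLm c' hc',
      D.ll_W1 hc' (he1 c⁻¹), hLm (c + c') hcc] at E1
    obtain ⟨A, hAdef⟩ : ∃ A : M, A = -(D.act (tz c⁻¹) m') + D.act (tz c'⁻¹) m' +
        D.act (tz (c + c')⁻¹) m' := ⟨_, rfl⟩
    obtain ⟨X₂, hX₂def⟩ : ∃ X₂ : M, X₂ = D.act (tz c⁻¹) (D.act (wz 1) (e (c' * c⁻¹ ^ 2))) +
        D.act (wz c'⁻¹) (e c⁻¹) := ⟨_, rfl⟩
    obtain ⟨X₁, hX₁def⟩ : ∃ X₁ : M, X₁ = -(e c'⁻¹) + e c⁻¹ - e (c + c')⁻¹ - (m + m) := ⟨_, rfl⟩
    have hA : A = X₂ + X₁ := by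
      have h : A - (X₂ + X₁) =
          (-(D.act (tz c⁻¹) m' + D.act (tz c⁻¹) (D.act (wz 1) (e (c' * c⁻¹ ^ 2)))) -
            (-(D.act (tz c'⁻¹) m') - m - e c'⁻¹) - (e c⁻¹ + D.act (wz c'⁻¹) (e c⁻¹))) -
          (-(D.act (tz (c + c')⁻¹) m') - m - e (c + c')⁻¹) := by
        rw [hAdef, hX₂def, hX₁def]; abel
      rw [E1, sub_self] at h
      exact sub_eq_zero.mp h
    have hX₂ : X₂ ∈ D.W2 := by
      rw [hX₂def]
      exact D.W2.add_mem (D.tz_mem_W2 ha (D.wz_mem_W2 one_ne_zero (he1 _)))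
        (D.wz_mem_W2 ha' (he1 _))
    have hX₁ : X₁ ∈ D.W1 := by
      rw [hX₁def]
      exact D.W1.sub_mem (D.W1.sub_mem (D.W1.add_mem (D.W1.neg_mem (he1 _)) (he1 _)) (he1 _)) hd
    have E2 : D.act (ll s) A - A = D.act (wz s⁻¹) X₁ := by
      rw [hA, map_add, hX₂ s, D.ll_W1 hs hX₁]; abel
    have E3 : -(D.act (tz c⁻¹) (D.act (wz 1) (e (s * c⁻¹ ^ 2)))) +
        D.act (tz c'⁻¹) (D.act (wz 1) (e (s * c'⁻¹ ^ 2))) +
        D.act (tz (c + c')⁻¹) (D.act (wz 1) (e (s * (c + c')⁻¹ ^ 2))) = D.act (wz s⁻¹) X₁ := by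
      rw [← E2, hAdef, map_add, map_add, map_neg, hLT _ ha, hLT _ ha', hLT _ ha'']; abel
    have E4 := congrArg (D.act (wz 1)) E3
    rw [map_add, map_add, map_neg, hWTW _ ha, hWTW _ ha', hWTW _ ha'', inv_inv, inv_inv, inv_inv,
      ← D.act_mul, wz_one_mul_wz (inv_ne_zero hs), inv_inv] at E4
    have a1 : s * c⁻¹ ^ 2 = s / c ^ 2 := by rw [inv_pow, div_eq_mul_inv]
    have a2 : s * c'⁻¹ ^ 2 = s / c' ^ 2 := by rw [inv_pow, div_eq_mul_inv]
    have a3 : s * (c + c')⁻¹ ^ 2 = s / (c + c') ^ 2 := by rw [inv_pow, div_eq_mul_inv]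
    rw [a1, a2, a3, D.neg_W1 (D.tz_mem_W1 hc (he1 _))] at E4
    rw [E4]
    congr 1
    rw [hX₁def, hadd, hadd, sub_eq_add_neg, sub_eq_add_neg, D.neg_W1 (he1 _), D.neg_W1 (he1 _),
      D.neg_W1 hd]
    abel
  -- solve
  have hsolve := fe_solve (V := D.W1) D.f4 (fun s => (⟨e s, he1 s⟩ : D.W1))
    (by intro s s'; apply Subtype.ext; rw [AddSubgroup.coe_add]; exact hadd s s')
    (⟨m + m, hd⟩ : D.W1)
    (by
      intro c c' s hc hc' hcc hs
      apply Subtype.ext
      rw [AddSubgroup.coe_add, AddSubgroup.coe_add, D.coe_smul hc, D.coe_smul hc',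
        D.coe_smul hcc, D.coe_smul hs, AddSubgroup.coe_add]
      exact hFE c c' s hc hc' hcc hs)
  obtain ⟨-, x, hx⟩ := hsolve
  have hes : ∀ s : F, s ≠ 0 → e s = D.act (tz s) x.1 := by
    intro s hs
    have := congrArg Subtype.val (hx s)
    rw [D.coe_smul hs] at this
    exact this
  have hm2 : D.act (wz 1) x.1 ∈ D.W2 := D.wz_mem_W2 one_ne_zero x.2
  have hdiff : m - D.act (wz 1) x.1 ∈ D.W1 := by
    intro s
    by_cases hs : s = 0
    · subst hs; rw [uu_zero, D.act_one]
    · rw [map_sub, hU s, D.uu_W2 hs hm2, ← D.act_mul, wz_mul_wz_one hs, hes s hs]; abel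
  exact AddSubgroup.mem_sup.mpr ⟨_, hdiff, _, hm2, by abel⟩

/-- `M = C_M(U) + C_M(L)`. -/
theorem top_eq [Finite M] : D.W1 ⊔ D.W2 = ⊤ := by
  by_contra hne
  have hP : IsPGroup 2 (Multiplicative F) := by
    intro g
    refine ⟨1, ?_⟩
    rw [pow_one]
    show Multiplicative.ofAdd (2 • Multiplicative.toAdd g) = 1
    rw [two_smul, CharTwo.add_self_eq_zero]; rfl
  have : Fact (Nat.Prime 2) := ⟨Nat.prime_two⟩
  obtain ⟨v, hv, hv'⟩ := exists_fixed_mod_inv 2 hP
    (fun a : Multiplicative F => D.act (uu (Multiplicative.toAdd a)))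
    (by intro m; show D.act (uu 0) m = m; rw [uu_zero, D.act_one])
    (by
      intro a b m
      show D.act (uu (Multiplicative.toAdd a + Multiplicative.toAdd b)) m = _
      rw [← uu_mul, D.act_mul])
    D.card (D.W1 ⊔ D.W2)
    (by
      intro m hm a
      obtain ⟨α, hα, β, hβ, hαβ⟩ := AddSubgroup.mem_sup.mp hm
      show D.act (uu (Multiplicative.toAdd a)) m ∈ _
      by_cases ha : Multiplicative.toAdd a = 0
      · rw [ha, uu_zero, D.act_one]; exact hm
      · rw [← hαβ, map_add, hα, D.uu_W2 ha hβ]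
        refine AddSubgroup.mem_sup.mpr ⟨α + D.act (wz (Multiplicative.toAdd a)) β,
          D.W1.add_mem hα (D.wz_mem_W1 ha hβ), β, hβ, by abel⟩)
    hne
  exact hv (D.claimP v (fun b => hv' (Multiplicative.ofAdd b)))

include D in
theorem two_torsion [Finite M] (m : M) : m + m = 0 := by
  have hm : m ∈ D.W1 ⊔ D.W2 := by rw [D.top_eq]; exact AddSubgroup.mem_top m
  obtain ⟨α, hα, β, hβ, hαβ⟩ := AddSubgroup.mem_sup.mp hm
  rw [← hαβ]
  have h1 := D.two_W1 hα
  have h2 := D.two_W2 hβ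
  have : α + β + (α + β) = (α + α) + (β + β) := by abel
  rw [this, h1, h2, add_zero]

theorem exists_decomp [Finite M] (m : M) : ∃ α ∈ D.W1, ∃ β ∈ D.W1, m = α + D.act (wz 1) β := by
  have hm : m ∈ D.W1 ⊔ D.W2 := by rw [D.top_eq]; exact AddSubgroup.mem_top m
  obtain ⟨α, hα, β, hβ, hαβ⟩ := AddSubgroup.mem_sup.mp hm
  refine ⟨α, hα, D.act (wz 1) β, D.wz_mem_W1 one_ne_zero hβ, ?_⟩
  rw [D.wz_wz, hαβ]

end Fpf

end Cfsg.Agent.H65.FpfMod
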