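import Mathlib
import Cfsg.Agent.H65.FpfMod

/-!
# Fixed-point-free `SL₂(2ⁿ)`-modules: natural summands and pairings (helper65)

* `Fpf.phi x` : the equivariant embedding `F² → M` attached to `x ∈ C_M(U)`;
* `Fpf.exists_family` : `M` is the independent sum of the images of `phi (x i)`;
* `Fpf.pairing_zero` : no nonzero equivariant biadditive map `M × M' → Z`.
-/

set_option autoImplicit false
set_option linter.unusedSectionVars false

namespace Cfsg.Agent.H65.FpfMod

open Matrix Cfsg.Agent.H65.SL2Gen Cfsg.Agent.H65.SL2Two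

namespace Fpf

variable {F : Type*} [Field F] [CharP F 2] {M : Type*} [AddCommGroup M] [Finite M] (D : Fpf F M)

theorem decomp_unique {α β α' β' : M} (hα : α ∈ D.W1) (hβ : β ∈ D.W2) (hα' : α' ∈ D.W1)
    (hβ' : β' ∈ D.W2) (h : α + β = α' + β') : α = α' ∧ β = β' := by
  have h1 : α - α' = β' - β := by
    have : α - α' - (β' - β) = α + β - (α' + β') := by abel
    rw [h, sub_self] at this
    exact sub_eq_zero.mp this
  have h2 : α - α' = 0 := D.inf_eq_zero (D.W1.sub_mem hα hα') (by rw [h1]; exact D.W2.sub_mem hβ' hβ)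
  have h3 : β' - β = 0 := by rw [← h1]; exact h2
  exact ⟨sub_eq_zero.mp h2, (sub_eq_zero.mp h3).symm⟩

/-- The equivariant map `F² → M` attached to `x ∈ C_M(U)`. -/
noncomputable def phi (x : D.W1) : (Fin 2 → F) →+ M where
  toFun v := ((v 0 • x : D.W1) : M) + D.act (wz 1) ((v 1 • x : D.W1) : M)
  map_zero' := by
    simp
  map_add' := by
    intro v w
    simp only [Pi.add_apply, add_smul, AddSubgroup.coe_add, map_add]
    abel

theorem phi_apply (x : D.W1) (v : Fin 2 → F) :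
    D.phi x v = ((v 0 • x : D.W1) : M) + D.act (wz 1) ((v 1 • x : D.W1) : M) := rfl

theorem phi_uu (x : D.W1) (b : F) (v : Fin 2 → F) :
    D.phi x ((uu b).1.mulVec v) = D.act (uu b) (D.phi x v) := by
  rw [phi_apply, phi_apply, NatRec.mulVec0, NatRec.mulVec1]
  simp only [uu_00, uu_01, uu_10, uu_11, one_mul, zero_mul, zero_add]
  rw [map_add, (v 0 • x).2 b]
  by_cases hb : b = 0
  · subst hb
    rw [zero_mul, add_zero, uu_zero, D.act_one]
  · rw [D.uu_W2 hb (D.wz_mem_W2 one_ne_zero (v 1 • x).2), ← D.act_mul, wz_mul_wz_one hb,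
      add_smul, mul_smul, AddSubgroup.coe_add, D.coe_smul hb]
    abel

theorem wz_one_mulVec (v : Fin 2 → F) : (wz (1 : F)).1.mulVec v = ![v 1, v 0] := by
  funext i
  fin_cases i
  · show ((wz (1 : F)).1.mulVec v) 0 = v 1
    rw [NatRec.mulVec0, wz_00 one_ne_zero, wz_01 one_ne_zero]; simp
  · show ((wz (1 : F)).1.mulVec v) 1 = v 0
    rw [NatRec.mulVec1, wz_10 one_ne_zero, wz_11 one_ne_zero]; simp [CharTwo.neg_eq]

theorem phi_wz (x : D.W1) (v : Fin 2 → F) :
    D.phi x ((wz 1).1.mulVec v) = D.act (wz 1) (D.phi x v) := by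
  rw [wz_one_mulVec, phi_apply, phi_apply, map_add, D.wz_wz]
  simp only [Matrix.cons_val_zero, Matrix.cons_val_one]
  abel

theorem phi_equiv (x : D.W1) (g : Matrix.SpecialLinearGroup (Fin 2) F) (v : Fin 2 → F) :
    D.phi x (g.1.mulVec v) = D.act g (D.phi x v) := by
  let S : Subgroup (Matrix.SpecialLinearGroup (Fin 2) F) :=
    { carrier := {g | ∀ v, D.phi x (g.1.mulVec v) = D.act g (D.phi x v)}
      mul_mem' := by
        intro g h hg hh v
        show D.phi x ((g * h).1.mulVec v) = _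
        rw [Matrix.SpecialLinearGroup.coe_mul, ← Matrix.mulVec_mulVec]
        have h1 := hg (h.1.mulVec v)
        have h2 := hh v
        rw [D.act_mul, ← h2]
        exact h1
      one_mem' := by
        intro v
        show D.phi x ((1 : Matrix.SpecialLinearGroup (Fin 2) F).1.mulVec v) = _
        rw [Matrix.SpecialLinearGroup.coe_one, Matrix.one_mulVec, D.act_one]
      inv_mem' := by
        intro g hg v
        have h1 := hg ((g⁻¹).1.mulVec v)
        rw [Matrix.mulVec_mulVec, ← Matrix.SpecialLinearGroup.coe_mul, mul_inv_cancel,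
          Matrix.SpecialLinearGroup.coe_one, Matrix.one_mulVec] at h1
        rw [h1, ← D.act_mul, inv_mul_cancel, D.act_one] }
  have hu : ∀ c : F, uu c ∈ S := fun c v => D.phi_uu x c v
  have hw : wz (1 : F) ∈ S := fun v => D.phi_wz x v
  have hl : ∀ c : F, ll c ∈ S := by
    intro c
    rw [ll_eq_wz]
    exact S.mul_mem (S.mul_mem hw (hu c)) hw
  exact mem_of_uu_ll S hu hl g v

theorem phi_inj (x : D.W1) (hx : x ≠ 0) : Function.Injective (D.phi x) := by
  rw [injective_iff_map_eq_zero]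
  intro v hv
  rw [phi_apply] at hv
  have h0 : ((v 0 • x : D.W1) : M) + D.act (wz 1) ((v 1 • x : D.W1) : M) = 0 + 0 := by
    rw [hv, add_zero]
  obtain ⟨h1, h2⟩ := D.decomp_unique (v 0 • x).2 (D.wz_mem_W2 one_ne_zero (v 1 • x).2)
    D.W1.zero_mem D.W2.zero_mem h0
  have h1' : v 0 • x = 0 := Subtype.ext h1
  have h2' : v 1 • x = 0 := Subtype.ext (D.act_eq_zero h2)
  have e0 : v 0 = 0 := by
    rcases smul_eq_zero.mp h1' with h | h
    · exact h
    · exact absurd h hx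
  have e1 : v 1 = 0 := by
    rcases smul_eq_zero.mp h2' with h | h
    · exact h
    · exact absurd h hx
  funext i
  fin_cases i
  · exact e0
  · exact e1

/-- `M` is the independent sum of natural modules. -/
theorem exists_family : ∃ (k : ℕ) (x : Fin k → D.W1), (∀ i, x i ≠ 0) ∧
    iSupIndep (fun i => (D.phi (x i)).range) ∧ ⨆ i, (D.phi (x i)).range = ⊤ := by
  classical
  let b := Module.finBasis F D.W1
  refine ⟨_, b, fun i => b.ne_zero i, ?_, ?_⟩
  · rw [iSupIndep_def]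
    intro i
    let S : Submodule F D.W1 := Submodule.span F (b '' {j | j ≠ i})
    let N : AddSubgroup M :=
      { carrier := {m | ∃ y y' : D.W1, y ∈ S ∧ y' ∈ S ∧ m = (y : M) + D.act (wz 1) (y' : M)}
        add_mem' := by
          rintro _ _ ⟨y₁, y₁', h1, h1', rfl⟩ ⟨y₂, y₂', h2, h2', rfl⟩
          refine ⟨y₁ + y₂, y₁' + y₂', S.add_mem h1 h2, S.add_mem h1' h2', ?_⟩
          rw [AddSubgroup.coe_add, AddSubgroup.coe_add, map_add]; abel
        zero_mem' := ⟨0, 0, S.zero_mem, S.zero_mem, by simp⟩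
        neg_mem' := by
          rintro _ ⟨y, y', h, h', rfl⟩
          refine ⟨-y, -y', S.neg_mem h, S.neg_mem h', ?_⟩
          rw [AddSubgroup.coe_neg, AddSubgroup.coe_neg, map_neg]; abel }
    have hle : (⨆ (j) (_ : j ≠ i), (D.phi (b j)).range) ≤ N := by
      refine iSup_le fun j => iSup_le fun hj => ?_
      rintro _ ⟨v, rfl⟩
      have hbj : b j ∈ S := Submodule.subset_span ⟨j, hj, rfl⟩
      exact ⟨v 0 • b j, v 1 • b j, S.smul_mem _ hbj, S.smul_mem _ hbj, rfl⟩
    rw [AddSubgroup.disjoint_def]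
    intro m hm1 hm2
    obtain ⟨v, rfl⟩ := hm1
    obtain ⟨y, y', hy, hy', hyy⟩ := hle hm2
    rw [phi_apply] at hyy
    obtain ⟨h1, h2⟩ := D.decomp_unique (v 0 • b i).2 (D.wz_mem_W2 one_ne_zero (v 1 • b i).2)
      y.2 (D.wz_mem_W2 one_ne_zero y'.2) hyy
    have h1' : v 0 • b i = y := Subtype.ext h1
    have h2' : v 1 • b i = y' := Subtype.ext (D.act_inj _ h2)
    have hnot : b i ∉ S :=
      b.linearIndependent.notMem_span_image (s := {j | j ≠ i}) (fun h => h rfl)
    have key : ∀ c : F, c • b i ∈ S → c = 0 := by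
      intro c hc
      by_contra hc0
      apply hnot
      have := S.smul_mem c⁻¹ hc
      rwa [smul_smul, inv_mul_cancel₀ hc0, one_smul] at this
    have e0 : v 0 = 0 := key _ (by rw [h1']; exact hy)
    have e1 : v 1 = 0 := key _ (by rw [h2']; exact hy')
    have hv : v = 0 := by
      funext j
      fin_cases j
      · exact e0
      · exact e1
    rw [hv, map_zero]
  · rw [eq_top_iff]
    intro m _
    obtain ⟨α, hα, β, hβ, rfl⟩ := D.exists_decomp m
    have hsum : (α : M) + D.act (wz 1) β =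
        ∑ j, D.phi (b j) ![b.repr ⟨α, hα⟩ j, b.repr ⟨β, hβ⟩ j] := by
      have h1 : (⟨α, hα⟩ : D.W1) = ∑ j, b.repr ⟨α, hα⟩ j • b j := (b.sum_repr _).symm
      have h2 : (⟨β, hβ⟩ : D.W1) = ∑ j, b.repr ⟨β, hβ⟩ j • b j := (b.sum_repr _).symm
      have h1' := congrArg (Subtype.val) h1
      have h2' := congrArg (Subtype.val) h2
      rw [AddSubgroup.val_finsetSum] at h1' h2'
      simp only at h1' h2'
      simp only [phi_apply, Matrix.cons_val_zero, Matrix.cons_val_one]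
      rw [Finset.sum_add_distrib, ← map_sum, ← h1', ← h2']
    rw [hsum]
    exact AddSubgroup.sum_mem _ fun j _ => AddSubgroup.mem_iSup_of_mem j ⟨_, rfl⟩

theorem zero_of_wz_fixed {ζ : M} (h : ∀ b : F, b ≠ 0 → D.act (wz b) ζ = ζ) : ζ = 0 := by
  obtain ⟨α, hα, β, hβ, rfl⟩ := D.exists_decomp ζ
  obtain ⟨r, hr, hr1⟩ := D.f4
  have key : ∀ b : F, b ≠ 0 → D.act (tz b) β = α := by
    intro b hb
    have h1 := h b hb
    rw [map_add, ← D.act_mul, wz_mul_wz_one hb] at h1
    have h2 : D.act (tz b) β + D.act (wz b) α = α + D.act (wz 1) β := by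
      rw [← h1]; abel
    exact (D.decomp_unique (D.tz_mem_W1 hb hβ) (D.wz_mem_W2 hb hα) hα
      (D.wz_mem_W2 one_ne_zero hβ) h2).1
  have e1 := key 1 one_ne_zero
  rw [tz_one, D.act_one] at e1
  have e2 := key r hr
  rw [← e1] at e2
  have e3 : (r • (⟨β, hβ⟩ : D.W1) : D.W1) = ⟨β, hβ⟩ := by
    apply Subtype.ext
    rw [D.coe_smul hr]
    exact e2
  have e4 : (r - 1) • (⟨β, hβ⟩ : D.W1) = 0 := by
    rw [sub_smul, one_smul, e3, sub_self]
  have e5 : (⟨β, hβ⟩ : D.W1) = 0 := by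
    rcases smul_eq_zero.mp e4 with h | h
    · exact absurd (sub_eq_zero.mp h) hr1
    · exact h
  have e6 : β = 0 := congrArg Subtype.val e5
  rw [← e1, e6, map_zero, add_zero]

/-- There is no nonzero equivariant biadditive map between fixed-point-free modules. -/
theorem pairing_zero {M' Z : Type*} [AddCommGroup M'] [Finite M'] [AddCommGroup Z] [Finite Z]
    (D' : Fpf F M') (DZ : Fpf F Z) (γ : M → M' → Z)
    (h1 : ∀ a b c, γ (a + b) c = γ a c + γ b c) (h2 : ∀ a b c, γ a (b + c) = γ a b + γ a c)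
    (heq : ∀ g a b, γ (D.act g a) (D'.act g b) = DZ.act g (γ a b)) : ∀ a b, γ a b = 0 := by
  have hsame : ∀ z₁ z₂ : Z, z₁ + z₂ = 0 → z₁ = z₂ := by
    intro z₁ z₂ h
    have h3 : z₁ = -z₂ := eq_neg_of_add_eq_zero_left h
    rw [h3]
    exact neg_eq_of_add_eq_zero_left (DZ.two_torsion z₂)
  have hZ2 : ∀ a ∈ D.W2, ∀ b ∈ D'.W2, γ a b ∈ DZ.W2 := by
    intro a ha b hb c
    rw [← heq, ha c, hb c]
  have hB : ∀ bb : F, bb ≠ 0 → ∀ a ∈ D.W2, ∀ b ∈ D'.W2,
      γ (D.act (wz bb) a) b = γ a (D'.act (wz bb) b) := by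
    intro bb hbb a ha b hb
    have e := heq (uu bb) a b
    rw [D.uu_W2 hbb ha, D'.uu_W2 hbb hb, DZ.uu_W2 hbb (hZ2 a ha b hb), ← heq (wz bb) a b,
      h1, h2, h2] at e
    have h3 : γ (D.act (wz bb) a) b + γ a (D'.act (wz bb) b) = 0 := by
      have h4 : γ (D.act (wz bb) a) b + γ a (D'.act (wz bb) b) =
          γ a b + γ a (D'.act (wz bb) b) + (γ (D.act (wz bb) a) b +
            γ (D.act (wz bb) a) (D'.act (wz bb) b)) -
          (γ a b + γ (D.act (wz bb) a) (D'.act (wz bb) b)) := by abel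
      rw [h4, e, sub_self]
    exact hsame _ _ h3
  have hC : ∀ a ∈ D.W1, ∀ b ∈ D'.W2, γ a b = 0 := by
    intro a ha b hb
    apply DZ.zero_of_wz_fixed
    intro bb hbb
    have := hB bb hbb (D.act (wz bb) a) (D.wz_mem_W2 hbb ha) b hb
    rw [D.wz_wz] at this
    rw [← heq]
    exact this.symm
  have hC' : ∀ a ∈ D.W2, ∀ b ∈ D'.W1, γ a b = 0 := by
    intro a ha b hb
    apply DZ.zero_of_wz_fixed
    intro bb hbb
    have := hB bb hbb a ha (D'.act (wz bb) b) (D'.wz_mem_W2 hbb hb)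
    rw [D'.wz_wz] at this
    rw [← heq]
    exact this
  have hD : ∀ a ∈ D.W1, ∀ b ∈ D'.W1, γ a b = 0 := by
    intro a ha b hb
    have hb₂ := D'.wz_mem_W2 (one_ne_zero : (1 : F) ≠ 0) hb
    have e := heq (uu 1) a (D'.act (wz 1) b)
    rw [ha 1, D'.uu_W2 one_ne_zero hb₂, D'.wz_wz, h2, hC a ha _ hb₂, map_zero, zero_add] at e
    exact e
  have hE : ∀ a ∈ D.W2, ∀ b ∈ D'.W2, γ a b = 0 := by
    intro a ha b hb
    have e := heq (wz 1) (D.act (wz 1) a) (D'.act (wz 1) b)
    rw [D.wz_wz, D'.wz_wz, hD _ (D.wz_mem_W1 one_ne_zero ha) _ (D'.wz_mem_W1 one_ne_zero hb),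
      map_zero] at e
    exact e
  intro a b
  have ha : a ∈ D.W1 ⊔ D.W2 := by rw [D.top_eq]; exact AddSubgroup.mem_top a
  have hb : b ∈ D'.W1 ⊔ D'.W2 := by rw [D'.top_eq]; exact AddSubgroup.mem_top b
  obtain ⟨α, hα, β, hβ, rfl⟩ := AddSubgroup.mem_sup.mp ha
  obtain ⟨α', hα', β', hβ', rfl⟩ := AddSubgroup.mem_sup.mp hb
  rw [h1, h2, h2, hD α hα α' hα', hC α hα β' hβ', hC' β hβ α' hα', hE β hβ β' hβ']
  simp

end Fpf

section order3

variable {F : Type*} [Field F] [CharP F 2]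

theorem trace_of_order3 (s : Matrix.SpecialLinearGroup (Fin 2) F) (hs3 : s * s * s = 1)
    (hs1 : s ≠ 1) : s.1 0 0 + s.1 1 1 = 1 := by
  have h2F : (2 : F) = 0 := CharTwo.two_eq_zero
  have hdet := SL2.det_eq s
  have h00 := congrArg (fun g : Matrix.SpecialLinearGroup (Fin 2) F => g.1 0 0) hs3
  have h01 := congrArg (fun g : Matrix.SpecialLinearGroup (Fin 2) F => g.1 0 1) hs3
  have h10 := congrArg (fun g : Matrix.SpecialLinearGroup (Fin 2) F => g.1 1 0) hs3
  have h11 := congrArg (fun g : Matrix.SpecialLinearGroup (Fin 2) F => g.1 1 1) hs3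
  simp only [SL2.mul00, SL2.mul01, SL2.mul10, SL2.mul11, SL2.one00, SL2.one01, SL2.one10,
    SL2.one11] at h00 h01 h10 h11
  by_contra hτ
  have hτ' : (s.1 0 0 + s.1 1 1) ^ 2 - 1 ≠ 0 := by
    intro h
    apply hτ
    have h3 : (s.1 0 0 + s.1 1 1 - 1) ^ 2 = 0 := by
      linear_combination h - (s.1 0 0 + s.1 1 1 - 1) * h2F
    have h4 := pow_eq_zero_iff (two_ne_zero) |>.mp h3
    exact sub_eq_zero.mp h4
  have hq : s.1 0 1 = 0 := by
    have : s.1 0 1 * ((s.1 0 0 + s.1 1 1) ^ 2 - 1) = 0 := by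
      linear_combination h01 + (s.1 0 1) * hdet
    rcases mul_eq_zero.mp this with h | h
    · exact h
    · exact absurd h hτ'
  have hr : s.1 1 0 = 0 := by
    have : s.1 1 0 * ((s.1 0 0 + s.1 1 1) ^ 2 - 1) = 0 := by
      linear_combination h10 + (s.1 1 0) * hdet
    rcases mul_eq_zero.mp this with h | h
    · exact h
    · exact absurd h hτ'
  rw [hq, hr] at hdet h00
  have hpt : s.1 0 0 * s.1 1 1 = 1 := by linear_combination hdet
  have hp3 : s.1 0 0 ^ 3 = 1 := by linear_combination h00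
  have ht : s.1 1 1 = s.1 0 0 ^ 2 := by
    linear_combination (s.1 0 0 ^ 2) * hpt - (s.1 1 1) * hp3
  have hfac : (s.1 0 0 - 1) * (s.1 0 0 ^ 2 + s.1 0 0 + 1) = 0 := by
    linear_combination hp3
  rcases mul_eq_zero.mp hfac with h | h
  · have hp : s.1 0 0 = 1 := sub_eq_zero.mp h
    apply hs1
    apply SL2.ext4
    · rw [hp, SL2.one00]
    · rw [hq, SL2.one01]
    · rw [hr, SL2.one10]
    · rw [ht, hp, SL2.one11]; ring
  · apply hτ
    rw [ht]
    linear_combination h - h2F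

theorem exists_conj_y [Finite F] (s : Matrix.SpecialLinearGroup (Fin 2) F)
    (htr : s.1 0 0 + s.1 1 1 = 1) :
    ∃ g : Matrix.SpecialLinearGroup (Fin 2) F, g * (uu 1 * ll 1) = s * g := by
  have h2F : (2 : F) = 0 := CharTwo.two_eq_zero
  have hdet := SL2.det_eq s
  obtain ⟨y00, y01, y10, y11⟩ := y_entries (F := F)
  have key : ∀ v₀ v₁ : F,
      v₀ * (s.1 1 0 * v₀ + s.1 1 1 * v₁) - v₁ * (s.1 0 0 * v₀ + s.1 0 1 * v₁) ≠ 0 →
      ∃ g : Matrix.SpecialLinearGroup (Fin 2) F, g * (uu 1 * ll 1) = s * g := by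
    intro v₀ v₁ hδ
    obtain ⟨α, hα⟩ := FiniteField.isSquare_of_char_two (ringChar.eq F 2)
      (v₀ * (s.1 1 0 * v₀ + s.1 1 1 * v₁) - v₁ * (s.1 0 0 * v₀ + s.1 0 1 * v₁))⁻¹
    have hα' : α * α * (v₀ * (s.1 1 0 * v₀ + s.1 1 1 * v₁) -
        v₁ * (s.1 0 0 * v₀ + s.1 0 1 * v₁)) = 1 := by
      rw [← hα, inv_mul_cancel₀ hδ]
    obtain ⟨g, g00, g01, g10, g11⟩ := NatSL2.exists_mk (α * v₀)
      (α * (s.1 0 0 * v₀ + s.1 0 1 * v₁)) (α * v₁) (α * (s.1 1 0 * v₀ + s.1 1 1 * v₁))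
      (by linear_combination hα')
    refine ⟨g, ?_⟩
    apply SL2.ext4
    · rw [SL2.mul00, SL2.mul00 s g, y00, y10, g00, g01, g10]; ring
    · rw [SL2.mul01, SL2.mul01 s g, y01, y11, g00, g01, g11]
      linear_combination (α * v₀) * h2F +
        (-(α * v₀ * s.1 0 0) - α * s.1 0 1 * v₁) * htr + (α * v₀) * hdet
    · rw [SL2.mul10, SL2.mul10 s g, y00, y10, g00, g10, g11]; ring
    · rw [SL2.mul11, SL2.mul11 s g, y01, y11, g01, g10, g11]
      linear_combination (α * v₁) * h2F +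
        (-(α * s.1 1 0 * v₀) - α * v₁ * s.1 1 1) * htr + (α * v₁) * hdet
  by_cases hr : s.1 1 0 = 0
  · by_cases hq : s.1 0 1 = 0
    · apply key 1 1
      rw [hr, hq]
      have : (1 : F) * (0 * 1 + s.1 1 1 * 1) - 1 * (s.1 0 0 * 1 + 0 * 1) = 1 := by
        linear_combination htr - (s.1 0 0) * h2F
      rw [this]
      exact one_ne_zero
    · apply key 0 1
      have : (0 : F) * (s.1 1 0 * 0 + s.1 1 1 * 1) - 1 * (s.1 0 0 * 0 + s.1 0 1 * 1) =
          -s.1 0 1 := by ring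
      rw [this]
      exact neg_ne_zero.mpr hq
  · apply key 1 0
    have : (1 : F) * (s.1 1 0 * 1 + s.1 1 1 * 0) - 0 * (s.1 0 0 * 1 + s.1 0 1 * 0) = s.1 1 0 := by
      ring
    rw [this]
    exact hr

theorem conj_y_tz {a : F} (ha : a ≠ 0) :
    tz a * (uu 1 * ll 1) = (uu (a ^ 2) * ll (a ^ 2)⁻¹) * tz a := by
  have h1 := tz_uu ha (1 : F)
  have h2 := ll_tz ha ((a ^ 2)⁻¹)
  rw [mul_one] at h1
  have h3 : (a ^ 2)⁻¹ * a ^ 2 = 1 := inv_mul_cancel₀ (pow_ne_zero 2 ha)
  rw [h3] at h2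
  rw [← mul_assoc, h1, mul_assoc, mul_assoc, h2]

/-- the relation from a fixed-point-free element of order three -/
theorem rel_of_order3 [Finite F] {M : Type*} [AddCommGroup M]
    (act : Matrix.SpecialLinearGroup (Fin 2) F → M →+ M) (act_one : ∀ m, act 1 m = m)
    (act_mul : ∀ a b m, act (a * b) m = act a (act b m))
    (s : Matrix.SpecialLinearGroup (Fin 2) F) (hs : orderOf s = 3)
    (hfix : ∀ m, act s m = m → m = 0) (b : F) (hb : b ≠ 0) (m : M) :
    act (wz b) m + act (uu b) m + act (ll b⁻¹) m = 0 := by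
  have ainj : ∀ g, Function.Injective (act g) := by
    intro g x y hxy
    have := congrArg (act g⁻¹) hxy
    rwa [← act_mul, ← act_mul, inv_mul_cancel, act_one, act_one] at this
  have hs3 : s * s * s = 1 := by
    have := pow_orderOf_eq_one s
    rw [hs] at this
    rw [← this, pow_succ, pow_two]
  have hs1 : s ≠ 1 := by
    intro h
    rw [h, orderOf_one] at hs
    omega
  have htr := trace_of_order3 s hs3 hs1
  obtain ⟨g, hg⟩ := exists_conj_y s htr
  obtain ⟨a, hab⟩ := FiniteField.isSquare_of_char_two (ringChar.eq F 2) b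
  have ha : a ≠ 0 := by
    rintro rfl
    rw [mul_zero] at hab
    exact hb hab
  have ha2 : a ^ 2 = b := by rw [hab]; ring
  have hconj := conj_y_tz ha
  rw [ha2] at hconj
  -- fixed-point-freeness of y
  have hyfix : ∀ n, act (uu b * ll b⁻¹) n = n → n = 0 := by
    intro n hn
    have hy : (uu b * ll b⁻¹) * (tz a * g⁻¹) = (tz a * g⁻¹) * s := by
      have h1 : (uu (1 : F) * ll 1) * g⁻¹ = g⁻¹ * s := by
        have : g⁻¹ * (g * (uu 1 * ll 1)) * g⁻¹ = g⁻¹ * (s * g) * g⁻¹ := by rw [hg]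
        rw [← mul_assoc, inv_mul_cancel, one_mul] at this
        rw [this]; group
      calc (uu b * ll b⁻¹) * (tz a * g⁻¹) = ((uu b * ll b⁻¹) * tz a) * g⁻¹ := by group
        _ = (tz a * (uu 1 * ll 1)) * g⁻¹ := by rw [hconj]
        _ = tz a * ((uu 1 * ll 1) * g⁻¹) := by group
        _ = tz a * (g⁻¹ * s) := by rw [h1]
        _ = (tz a * g⁻¹) * s := by group
    have h2 : act (tz a * g⁻¹) (act s (act (tz a * g⁻¹)⁻¹ n)) = act (tz a * g⁻¹) (act (tz a * g⁻¹)⁻¹ n) := by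
      rw [← act_mul, ← hy, act_mul, ← act_mul (tz a * g⁻¹), mul_inv_cancel, act_one, hn]
    have h3 := hfix _ (ainj _ h2)
    have h4 : n = act (tz a * g⁻¹) (act (tz a * g⁻¹)⁻¹ n) := by
      rw [← act_mul, mul_inv_cancel, act_one]
    rw [h4, h3, map_zero]
  have hcube := y_cube hb
  have hfixed : act (uu b * ll b⁻¹) (act (uu b) m + act (uu b * ll b⁻¹) (act (uu b) m) +
      act ((uu b * ll b⁻¹) * (uu b * ll b⁻¹)) (act (uu b) m)) =
      act (uu b) m + act (uu b * ll b⁻¹) (act (uu b) m) +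
      act ((uu b * ll b⁻¹) * (uu b * ll b⁻¹)) (act (uu b) m) := by
    rw [map_add, map_add, ← act_mul (uu b * ll b⁻¹) ((uu b * ll b⁻¹) * (uu b * ll b⁻¹)),
      ← mul_assoc, hcube, act_one, ← act_mul (uu b * ll b⁻¹) (uu b * ll b⁻¹)]
    abel
  have h0 := hyfix _ hfixed
  have e1 : act (uu b * ll b⁻¹) (act (uu b) m) = act (wz b) m := by
    rw [← act_mul, ← wz_eq hb]
  have e2 : act ((uu b * ll b⁻¹) * (uu b * ll b⁻¹)) (act (uu b) m) = act (ll b⁻¹) m := by
    rw [← act_mul]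
    congr 2
    apply mul_left_cancel (a := uu b * ll b⁻¹)
    rw [← mul_assoc, ← mul_assoc, hcube, one_mul, mul_assoc, ll_sq, mul_one]
  rw [e1, e2] at h0
  rw [← h0]; abel

/-- Constructor: a module on which one element of order three acts fixed-point-freely. -/
noncomputable def Fpf.ofOrderThree [Finite F] {M : Type*} [AddCommGroup M]
    (act : Matrix.SpecialLinearGroup (Fin 2) F → M →+ M) (act_one : ∀ m, act 1 m = m)
    (act_mul : ∀ a b m, act (a * b) m = act a (act b m))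
    (hcard : ∃ k, Nat.card M = 2 ^ k) (hf4 : ∃ r : F, r ≠ 0 ∧ r ≠ 1)
    (s : Matrix.SpecialLinearGroup (Fin 2) F) (hs : orderOf s = 3)
    (hfix : ∀ m, act s m = m → m = 0) : Fpf F M where
  act := act
  act_one := act_one
  act_mul := act_mul
  rel := rel_of_order3 act act_one act_mul s hs hfix
  card := hcard
  f4 := hf4

end order3

end Cfsg.Agent.H65.FpfMod
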