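import Mathlib
import Cfsg.Agent.H65.FpfMod2
import Cfsg.Agent.H65.NatSL2
import Cfsg.Prelude.Def_BaumannBlocks

/-!
# Higman's theorem on `SL₂(2ⁿ)`-extensions with a fixed-point-free element of order three
(helper65): group-level part.
-/

set_option autoImplicit false

namespace Cfsg.Agent.H65.Higman

open Matrix Cfsg.Agent.H65.SL2Gen Cfsg.Agent.H65.SL2Two Cfsg.Agent.H65.FpfMod

/-- Descend an action of `G` on a finite abelian `2`-group `A` along a surjection
`π : G → SL₂(K)` whose kernel acts trivially. -/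
theorem bridge {G : Type*} [Group G] {K : Type*} [Field K] [Finite K] [CharP K 2]
    (π : G →* Matrix.SpecialLinearGroup (Fin 2) K) (hπ : Function.Surjective π)
    {A : Type*} [CommGroup A] (cj : G → A →* A)
    (cj_mul : ∀ g h a, cj (g * h) a = cj g (cj h a))
    (hker : ∀ g, π g = 1 → ∀ a, cj g a = a) (hcard : ∃ k, Nat.card A = 2 ^ k)
    (hf4 : ∃ r : K, r ≠ 0 ∧ r ≠ 1) (x : G) (hx : orderOf (π x) = 3)
    (hfix : ∀ a, cj x a = a → a = 1) :
    ∃ D : Fpf K (Additive A), ∀ g a, D.act (π g) (Additive.ofMul a) = Additive.ofMul (cj g a) := by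
  have key : ∀ g h, π g = π h → ∀ a, cj g a = cj h a := by
    intro g h hgh a
    have h1 : π (h⁻¹ * g) = 1 := by rw [map_mul, map_inv, hgh, inv_mul_cancel]
    have h2 : g = h * (h⁻¹ * g) := by group
    rw [h2, cj_mul, hker _ h1]
  let σ : Matrix.SpecialLinearGroup (Fin 2) K → G := Function.surjInv hπ
  have hσ : ∀ s, π (σ s) = s := Function.surjInv_eq hπ
  let act : Matrix.SpecialLinearGroup (Fin 2) K → Additive A →+ Additive A :=
    fun s => MonoidHom.toAdditive (cj (σ s))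
  have hact : ∀ s (a : A), act s (Additive.ofMul a) = Additive.ofMul (cj (σ s) a) := fun s a => rfl
  have act_one : ∀ m, act 1 m = m := by
    intro m
    show Additive.ofMul (cj (σ 1) (Additive.toMul m)) = m
    rw [hker _ (hσ 1)]; rfl
  have act_mul : ∀ a b m, act (a * b) m = act a (act b m) := by
    intro a b m
    show Additive.ofMul (cj (σ (a * b)) (Additive.toMul m)) =
      Additive.ofMul (cj (σ a) (cj (σ b) (Additive.toMul m)))
    rw [← cj_mul]
    congr 1
    apply key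
    rw [hσ, map_mul, hσ, hσ]
  refine ⟨Fpf.ofOrderThree act act_one act_mul hcard hf4 (π x) hx ?_, ?_⟩
  · intro m hm
    have h1 : cj x (Additive.toMul m) = Additive.toMul m := by
      have : Additive.ofMul (cj (σ (π x)) (Additive.toMul m)) = m := hm
      rw [key _ x (hσ (π x))] at this
      exact congrArg Additive.toMul this
    have := hfix _ h1
    exact congrArg Additive.ofMul this
  · intro g a
    show Additive.ofMul (cj (σ (π g)) a) = _
    rw [key _ g (hσ (π g))]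

/-- An element of order three fixing a coset of a normal `2`-subgroup fixes a point of it. -/
theorem coset_fixed {G : Type*} [Group G] (x : G) (hx : orderOf x = 3) (Z : Subgroup G)
    [Finite Z] [Z.Normal] (hZ : IsPGroup 2 Z) (q : G) (h : q⁻¹ * (x * q * x⁻¹) ∈ Z) :
    ∃ z ∈ Z, x * (q * z) * x⁻¹ = q * z := by
  classical
  have hx3 : x * x * x = 1 := by
    have := pow_orderOf_eq_one x
    rw [hx] at this
    rw [← this, pow_succ, pow_two]
  let f : Function.End ↥Z := fun z => ⟨q⁻¹ * (x * (q * z) * x⁻¹), by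
    have h1 : q⁻¹ * (x * (q * z) * x⁻¹) = (q⁻¹ * (x * q * x⁻¹)) * (x * z * x⁻¹) := by group
    rw [h1]
    exact Z.mul_mem h (Subgroup.Normal.conj_mem inferInstance _ z.2 x)⟩
  have hf : f ^ 3 ^ 1 = 1 := by
    rw [pow_one]
    funext z
    show f (f (f z)) = z
    apply Subtype.ext
    show q⁻¹ * (x * (q * (q⁻¹ * (x * (q * (q⁻¹ * (x * (q * z) * x⁻¹))) * x⁻¹))) * x⁻¹) = z
    have h1 : q⁻¹ * (x * (q * (q⁻¹ * (x * (q * (q⁻¹ * (x * (q * z) * x⁻¹))) * x⁻¹))) * x⁻¹) =
        q⁻¹ * (x * x * x) * q * z * (x * x * x)⁻¹ := by group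
    rw [h1, hx3]; group
  have : Fact (Nat.Prime 3) := ⟨by norm_num⟩
  have : Fintype ↥Z := Fintype.ofFinite _
  have hmod := Equiv.Perm.card_fixedPoints_modEq (p := 3) (n := 1) hf
  obtain ⟨k, hk⟩ := IsPGroup.iff_card.mp hZ
  rw [← Nat.card_eq_fintype_card, hk] at hmod
  have hne : Fintype.card (Function.fixedPoints f) ≠ 0 := by
    intro h0
    rw [h0] at hmod
    have h3 : 3 ∣ 2 ^ k := (Nat.modEq_zero_iff_dvd).mp hmod
    have := (Nat.Prime.dvd_of_dvd_pow (by norm_num : Nat.Prime 3) h3)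
    omega
  obtain ⟨⟨z, hz⟩⟩ := Fintype.card_pos_iff.mp (Nat.pos_of_ne_zero hne)
  refine ⟨z, z.2, ?_⟩
  have h1 : f z = z := hz
  have h2 := congrArg Subtype.val h1
  have h3 : q⁻¹ * (x * (q * z) * x⁻¹) = z := h2
  calc x * (q * z) * x⁻¹ = q * (q⁻¹ * (x * (q * z) * x⁻¹)) := by group
    _ = q * z := by rw [h3]

theorem order_pi {G : Type*} [Group G] [Finite G] {H : Type*} [Group H] (π : G →* H)
    (hk : IsPGroup 2 π.ker) (x : G) (hx : orderOf x = 3) : orderOf (π x) = 3 := by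
  have : Fact (Nat.Prime 3) := ⟨by norm_num⟩
  apply orderOf_eq_prime
  · rw [← map_pow, ← hx, pow_orderOf_eq_one, map_one]
  · intro h1
    have hmem : x ∈ π.ker := h1
    obtain ⟨k, hk'⟩ := hk ⟨x, hmem⟩
    have h2 : x ^ 2 ^ k = 1 := by
      have := congrArg Subtype.val hk'
      simpa using this
    have h3 : 3 ∣ 2 ^ k := by rw [← hx]; exact orderOf_dvd_of_pow_eq_one h2
    have := (Nat.Prime.dvd_of_dvd_pow (by norm_num : Nat.Prime 3) h3)
    omega

open scoped IsMulCommutative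

/-- conjugation on a normal subgroup -/
def cjN {G : Type*} [Group G] (N : Subgroup G) [hN : N.Normal] (g : G) : ↥N →* ↥N where
  toFun v := ⟨g * v * g⁻¹, hN.conj_mem v v.2 g⟩
  map_one' := by apply Subtype.ext; simp
  map_mul' := by intro a b; apply Subtype.ext; simp [mul_assoc]

/-- An abelian normal `2`-subgroup centralized by `ker π` and fixed-point-free for `x` is an
`Fpf`-module. -/
theorem fpf_of_normal {G : Type*} [Group G] [Finite G] {K : Type*} [Field K] [Finite K]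
    [CharP K 2] (hf4 : ∃ r : K, r ≠ 0 ∧ r ≠ 1)
    (π : G →* Matrix.SpecialLinearGroup (Fin 2) K) (hπ : Function.Surjective π)
    (hk2 : IsPGroup 2 π.ker) (x : G) (hx : orderOf x = 3) (A : Subgroup G) [A.Normal]
    [IsMulCommutative ↥A] (hA2 : IsPGroup 2 ↥A)
    (hcent : ∀ g, π g = 1 → ∀ a ∈ A, g * a * g⁻¹ = a)
    (hfix : ∀ a ∈ A, x * a * x⁻¹ = a → a = 1) :
    ∃ D : Fpf K (Additive ↥A), ∀ (g : G) (a : ↥A) (h : g * a * g⁻¹ ∈ A),
      D.act (π g) (Additive.ofMul a) = Additive.ofMul (⟨g * a * g⁻¹, h⟩ : ↥A) := by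
  have hx' := order_pi π hk2 x hx
  obtain ⟨k, hk⟩ := IsPGroup.iff_card.mp hA2
  obtain ⟨D, hD⟩ := bridge π hπ (cjN A)
    (by intro g h a; apply Subtype.ext; show g * h * a * (g * h)⁻¹ = g * (h * a * h⁻¹) * g⁻¹; group)
    (by intro g hg a; apply Subtype.ext; exact hcent g hg a a.2) ⟨k, hk⟩ hf4 x hx'
    (by intro a ha; apply Subtype.ext; exact hfix a a.2 (congrArg Subtype.val ha))
  exact ⟨D, fun g a h => by rw [hD]; rfl⟩

theorem indep_map {G H : Type*} [Group G] [Group H] (f : G →* H) (hf : Function.Injective f)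
    {ι : Type*} (W : ι → Subgroup G) (h : iSupIndep W) : iSupIndep (fun i => (W i).map f) := by
  rw [iSupIndep_def] at *
  intro i
  have := Subgroup.disjoint_map hf (h i)
  rw [Subgroup.map_iSup] at this
  simp_rw [Subgroup.map_iSup] at this
  exact this

/-- The abelian case: `Q` is elementary abelian and a direct sum of natural modules. -/
theorem abelian_case {G : Type*} [Group G] [Finite G] (Q : Subgroup G) [Q.Normal]
    (hQ : IsPGroup 2 ↥Q) {K : Type*} [Field K] [Finite K] [CharP K 2]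
    (hf4 : ∃ r : K, r ≠ 0 ∧ r ≠ 1) (π : G →* Matrix.SpecialLinearGroup (Fin 2) K)
    (hπ : Function.Surjective π) (hker : π.ker = Q) (x : G) (hx : orderOf x = 3)
    (hfpf : ∀ q ∈ Q, x * q * x⁻¹ = q → q = 1) (hab : ∀ a ∈ Q, ∀ b ∈ Q, a * b = b * a) :
    (∀ a ∈ Q, a ^ 2 = 1) ∧ ∃ (k : ℕ) (V : Fin k → Subgroup G), (∀ i, V i ≤ Q ∧ (V i).Normal ∧
        Cfsg.ActsAsSL2OnSection K ⊤ ⊤ (V i) ⊥) ∧ iSupIndep V ∧ ⨆ i, V i = Q := by
  classical
  have hQc : IsMulCommutative ↥Q := ⟨⟨fun a b => Subtype.ext (hab a a.2 b b.2)⟩⟩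
  have hk2 : IsPGroup 2 π.ker := by rw [hker]; exact hQ
  obtain ⟨D, hD⟩ := fpf_of_normal hf4 π hπ hk2 x hx Q hQ
    (by
      intro g hg a ha
      have hgQ : g ∈ Q := by rw [← hker]; exact hg
      rw [hab g hgQ a ha]; group)
    hfpf
  refine ⟨?_, ?_⟩
  · intro a ha
    have h2 : Additive.ofMul (⟨a, ha⟩ : Q) + Additive.ofMul (⟨a, ha⟩ : Q) = 0 :=
      D.two_torsion (Additive.ofMul (⟨a, ha⟩ : Q))
    have h3 : (⟨a, ha⟩ : Q) * ⟨a, ha⟩ = 1 := h2
    have h4 := congrArg Subtype.val h3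
    rw [pow_two]; exact h4
  · obtain ⟨k, xs, hxs0, hind, hsup⟩ := D.exists_family
    let V : Fin k → Subgroup G := fun i =>
      (AddSubgroup.toSubgroup' (D.phi (xs i)).range).map Q.subtype
    have hmemV : ∀ i (v : G), v ∈ V i ↔ ∃ (hv : v ∈ Q) (u : Fin 2 → K),
        D.phi (xs i) u = Additive.ofMul (⟨v, hv⟩ : Q) := by
      intro i v
      constructor
      · rintro ⟨q, hq, rfl⟩
        obtain ⟨u, hu⟩ := (AddSubgroup.mem_toSubgroup' _ _).mp hq
        exact ⟨q.2, u, hu⟩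
      · rintro ⟨hv, u, hu⟩
        exact ⟨⟨v, hv⟩, (AddSubgroup.mem_toSubgroup' _ _).mpr ⟨u, hu⟩, rfl⟩
    have hconj : ∀ i (g v : G) (hv : v ∈ Q) (hv' : g * v * g⁻¹ ∈ Q) (u : Fin 2 → K),
        D.phi (xs i) u = Additive.ofMul (⟨v, hv⟩ : Q) →
        D.phi (xs i) ((π g).1.mulVec u) = Additive.ofMul (⟨g * v * g⁻¹, hv'⟩ : Q) := by
      intro i g v hv hv' u hu
      rw [D.phi_equiv, hu, hD g ⟨v, hv⟩ hv']
    have hnormal : ∀ i, (V i).Normal := by
      intro i
      refine ⟨fun v hv g => ?_⟩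
      obtain ⟨hvQ, u, hu⟩ := (hmemV i v).mp hv
      have hv' : g * v * g⁻¹ ∈ Q := Subgroup.Normal.conj_mem inferInstance v hvQ g
      exact (hmemV i _).mpr ⟨hv', _, hconj i g v hvQ hv' u hu⟩
    refine ⟨k, V, fun i => ⟨Subgroup.map_subtype_le _, hnormal i, ?_⟩, ?_, ?_⟩
    · -- the natural module structure
      have hex : ∀ v : ↥(V i), ∃ u : Fin 2 → K, ∃ hv : (v : G) ∈ Q,
          D.phi (xs i) u = Additive.ofMul (⟨v, hv⟩ : Q) := by
        intro v
        obtain ⟨hv, u, hu⟩ := (hmemV i v).mp v.2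
        exact ⟨u, hv, hu⟩
      choose uf hvQ huf using hex
      have hinj := D.phi_inj (xs i) (hxs0 i)
      have huniq : ∀ (v : ↥(V i)) (u : Fin 2 → K) (hv : (v : G) ∈ Q),
          D.phi (xs i) u = Additive.ofMul (⟨v, hv⟩ : Q) → uf v = u := by
        intro v u hv hu
        apply hinj
        rw [huf v, hu]
      let ψ : ↥(V i) →* Multiplicative (Fin 2 → K) :=
        { toFun := fun v => Multiplicative.ofAdd (uf v)
          map_one' := by
            have : uf 1 = 0 := huniq 1 0 Q.one_mem (by rw [map_zero]; rfl)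
            rw [this]; rfl
          map_mul' := by
            intro v w
            have : uf (v * w) = uf v + uf w := by
              apply huniq (v * w) (uf v + uf w) (Q.mul_mem (hvQ v) (hvQ w))
              rw [map_add, huf v, huf w]
              rfl
            rw [this]; rfl }
      have hψ : ∀ v, ψ v = Multiplicative.ofAdd (uf v) := fun v => rfl
      refine ⟨?_, bot_le, π.comp (Subgroup.subtype ⊤), ψ, ?_, ?_, ?_, ?_⟩
      · intro g _
        rw [Subgroup.mem_normalizer_iff]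
        intro h
        constructor
        · intro hh
          exact (hnormal i).conj_mem h hh g
        · intro hh
          have := (hnormal i).conj_mem _ hh g⁻¹
          have e : g⁻¹ * (g * h * g⁻¹) * g⁻¹⁻¹ = h := by group
          rwa [e] at this
      · rw [MonoidHom.range_eq_top]
        intro s
        obtain ⟨g, hg⟩ := hπ s
        exact ⟨⟨g, Subgroup.mem_top g⟩, hg⟩
      · intro y
        obtain ⟨q, hq⟩ : ∃ q : Q, D.phi (xs i) (Multiplicative.toAdd y) = Additive.ofMul q :=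
          ⟨Additive.toMul _, rfl⟩
        have hmem : (q : G) ∈ V i := (hmemV i _).mpr ⟨q.2, Multiplicative.toAdd y, hq⟩
        refine ⟨⟨q, hmem⟩, ?_⟩
        rw [hψ]
        have := huniq ⟨q, hmem⟩ (Multiplicative.toAdd y) q.2 hq
        rw [this]; rfl
      · intro v
        rw [Subgroup.mem_bot, hψ]
        constructor
        · intro h
          have h0 : uf v = 0 := h
          have h1 := huf v
          rw [h0, map_zero] at h1
          have h2 : (⟨v, hvQ v⟩ : Q) = 1 := h1.symm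
          exact congrArg Subtype.val h2
        · intro h
          have : uf v = 0 := by
            apply huniq v 0 (hvQ v)
            rw [map_zero]
            have h2 : (⟨v, hvQ v⟩ : Q) = 1 := Subtype.ext h
            rw [h2]; rfl
          rw [this]; rfl
      · intro e' u
        have hw : (e' : G) * u * (e' : G)⁻¹ ∈ V i := (hnormal i).conj_mem u u.2 e'
        refine ⟨⟨_, hw⟩, rfl, ?_⟩
        rw [hψ, hψ]
        have hvQ' : (e' : G) * u * (e' : G)⁻¹ ∈ Q :=
          Subgroup.Normal.conj_mem inferInstance _ (hvQ u) _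
        exact huniq ⟨_, hw⟩ _ hvQ' (hconj i e' u (hvQ u) hvQ' (uf u) (huf u))
    · have h1 : iSupIndep (fun i => AddSubgroup.toSubgroup' (D.phi (xs i)).range) :=
        hind.map_orderIso AddSubgroup.toSubgroup'
      exact indep_map Q.subtype Q.subtype_injective _ h1
    · show ⨆ i, (AddSubgroup.toSubgroup' (D.phi (xs i)).range).map Q.subtype = Q
      rw [← Subgroup.map_iSup, ← OrderIso.map_iSup, hsup, OrderIso.map_top,
        ← MonoidHom.range_eq_map, Subgroup.range_subtype]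

universe u

/-- the commutator word used for the pairing -/
def cw {G : Type*} [Group G] (a b : G) : G := a * b * a⁻¹ * b⁻¹

theorem cw_conj {G : Type*} [Group G] (g a b : G) :
    cw (g * a * g⁻¹) (g * b * g⁻¹) = g * cw a b * g⁻¹ := by
  unfold cw; group

/-- `Q` is abelian. -/
theorem abelian_of_hyp {K : Type*} [Field K] [Finite K] [CharP K 2]
    (hf4 : ∃ r : K, r ≠ 0 ∧ r ≠ 1) : ∀ (N : ℕ) (G : Type u) [Group G] [Finite G]
    (Q : Subgroup G) [Q.Normal] (_ : IsPGroup 2 ↥Q)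
    (π : G →* Matrix.SpecialLinearGroup (Fin 2) K) (_ : Function.Surjective π)
    (_ : π.ker = Q) (x : G) (_ : orderOf x = 3)
    (_ : ∀ q ∈ Q, x * q * x⁻¹ = q → q = 1), Nat.card ↥Q = N →
    ∀ a ∈ Q, ∀ b ∈ Q, a * b = b * a := by
  intro N
  induction N using Nat.strong_induction_on with
  | _ N ih =>
  intro G _ _ Q _ hQ π hπ hker x hx hfpf hN a ha b hb
  classical
  have : Fact (Nat.Prime 2) := ⟨Nat.prime_two⟩
  by_cases hQbot : Q = ⊥
  · rw [hQbot, Subgroup.mem_bot] at ha hb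
    rw [ha, hb]
  -- the centre of Q
  obtain ⟨Z, hZdef⟩ : ∃ Z : Subgroup G, Z = (Subgroup.center ↥Q).map Q.subtype := ⟨_, rfl⟩
  have hZmem : ∀ z, z ∈ Z ↔ z ∈ Q ∧ ∀ q ∈ Q, q * z = z * q := by
    intro z
    rw [hZdef]
    constructor
    · rintro ⟨c, hc, rfl⟩
      refine ⟨c.2, fun q hq => ?_⟩
      have := Subgroup.mem_center_iff.mp hc ⟨q, hq⟩
      exact congrArg Subtype.val this
    · rintro ⟨hz, hc⟩
      exact ⟨⟨z, hz⟩, Subgroup.mem_center_iff.mpr (fun q => Subtype.ext (hc q q.2)), rfl⟩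
  have hZQ : Z ≤ Q := fun z hz => ((hZmem z).mp hz).1
  have hZnormal : Z.Normal := by
    refine ⟨fun z hz g => ?_⟩
    obtain ⟨hzQ, hc⟩ := (hZmem z).mp hz
    refine (hZmem _).mpr ⟨Subgroup.Normal.conj_mem inferInstance z hzQ g, fun q hq => ?_⟩
    have h1 : g⁻¹ * q * g ∈ Q := by
      have := Subgroup.Normal.conj_mem (inferInstance : Q.Normal) q hq g⁻¹
      rwa [inv_inv] at this
    have h2 := hc _ h1
    calc q * (g * z * g⁻¹) = g * ((g⁻¹ * q * g) * z) * g⁻¹ := by group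
      _ = g * (z * (g⁻¹ * q * g)) * g⁻¹ := by rw [h2]
      _ = g * z * g⁻¹ * q := by group
  have hZ2 : IsPGroup 2 ↥Z := hQ.to_le hZQ
  have hZc : IsMulCommutative ↥Z :=
    ⟨⟨fun z w => Subtype.ext (((hZmem w).mp w.2).2 z (hZQ z.2))⟩⟩
  have hZne : ∃ z ∈ Z, z ≠ 1 := by
    have hnt : Nontrivial ↥Q := (Subgroup.nontrivial_iff_ne_bot Q).mpr hQbot
    have := hQ.center_nontrivial
    obtain ⟨c, hc⟩ := exists_ne (1 : Subgroup.center ↥Q)
    refine ⟨((c : ↥Q) : G), ?_, ?_⟩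
    · rw [hZdef]; exact ⟨c, c.2, rfl⟩
    · intro h
      apply hc
      apply Subtype.ext
      apply Subtype.ext
      exact h
  have hk2 : IsPGroup 2 π.ker := by rw [hker]; exact hQ
  -- the quotient
  obtain ⟨mk, hmk⟩ : ∃ mk : G →* G ⧸ Z, mk = QuotientGroup.mk' Z := ⟨_, rfl⟩
  have hmk_surj : Function.Surjective mk := by rw [hmk]; exact QuotientGroup.mk'_surjective Z
  have hmk_eq : ∀ g h : G, mk g = mk h ↔ g⁻¹ * h ∈ Z := by
    intro g h; rw [hmk]; exact QuotientGroup.eq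
  have hmk_one : ∀ g : G, mk g = 1 ↔ g ∈ Z := by
    intro g; rw [hmk]; exact QuotientGroup.eq_one_iff g
  have hQbar_mem : ∀ g : G, mk g ∈ Q.map mk ↔ g ∈ Q := by
    intro g
    constructor
    · rintro ⟨q, hq, hqg⟩
      have h1 := hZQ ((hmk_eq q g).mp hqg)
      have h2 : g = q * (q⁻¹ * g) := by group
      rw [h2]
      exact Q.mul_mem hq h1
    · intro hg
      exact ⟨g, hg, rfl⟩
  have hZker : Z ≤ π.ker := by rw [hker]; exact hZQ
  obtain ⟨πb, hπb⟩ : ∃ πb : G ⧸ Z →* Matrix.SpecialLinearGroup (Fin 2) K,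
      ∀ g, πb (mk g) = π g := by
    refine ⟨QuotientGroup.lift Z π hZker, fun g => ?_⟩
    rw [hmk]; rfl
  have hπb_surj : Function.Surjective πb := by
    intro s
    obtain ⟨g, hg⟩ := hπ s
    exact ⟨mk g, by rw [hπb, hg]⟩
  have hπb_ker : πb.ker = Q.map mk := by
    ext gb
    obtain ⟨g, rfl⟩ := hmk_surj gb
    rw [MonoidHom.mem_ker, hπb, hQbar_mem, ← hker, MonoidHom.mem_ker]
  have hQb2 : IsPGroup 2 ↥(Q.map mk) := hQ.map mk
  have hQbn : (Q.map mk).Normal := Subgroup.Normal.map inferInstance mk hmk_surj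
  have hxb : orderOf (mk x) = 3 := by
    apply order_pi mk _ x hx
    rw [hmk, QuotientGroup.ker_mk']
    exact hZ2
  have hfpfb : ∀ qb ∈ Q.map mk, mk x * qb * (mk x)⁻¹ = qb → qb = 1 := by
    rintro _ ⟨q, hq, rfl⟩ hfix
    have h1 : mk q = mk (x * q * x⁻¹) := by
      rw [map_mul, map_mul, map_inv]; exact hfix.symm
    have h2 := (hmk_eq _ _).mp h1
    obtain ⟨z, hz, hzfix⟩ := coset_fixed x hx Z hZ2 q h2
    have h3 := hfpf (q * z) (Q.mul_mem hq (hZQ hz)) hzfix
    have h4 : q = z⁻¹ := eq_inv_of_mul_eq_one_left h3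
    rw [hmk_one, h4]
    exact Z.inv_mem hz
  -- cardinality drops
  have hlt : Nat.card ↥(Q.map mk) < N := by
    rw [← hN]
    have : Fintype ↥Q := Fintype.ofFinite _
    have : Fintype ↥(Q.map mk) := Fintype.ofFinite _
    rw [Nat.card_eq_fintype_card, Nat.card_eq_fintype_card]
    apply Fintype.card_lt_of_surjective_not_injective (mk.subgroupMap Q)
      (mk.subgroupMap_surjective Q)
    intro hinj
    obtain ⟨z, hz, hz1⟩ := hZne
    have h1 : mk.subgroupMap Q ⟨z, hZQ hz⟩ = mk.subgroupMap Q 1 := by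
      apply Subtype.ext
      show mk z = mk 1
      rw [map_one, hmk_one]
      exact hz
    have h2 := hinj h1
    exact hz1 (congrArg Subtype.val h2)
  have habb : ∀ ab ∈ Q.map mk, ∀ bb ∈ Q.map mk, ab * bb = bb * ab :=
    ih _ hlt (G ⧸ Z) (Q.map mk) hQb2 πb hπb_surj hπb_ker (mk x) hxb hfpfb rfl
  have hQbc : IsMulCommutative ↥(Q.map mk) :=
    ⟨⟨fun a b => Subtype.ext (habb a a.2 b b.2)⟩⟩
  have hcomm : ∀ a ∈ Q, ∀ b ∈ Q, cw a b ∈ Z := by
    intro a ha b hb
    rw [← hmk_one]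
    unfold cw
    rw [map_mul, map_mul, map_mul, map_inv, map_inv,
      habb (mk a) ⟨a, ha, rfl⟩ (mk b) ⟨b, hb, rfl⟩]
    group
  -- the two modules
  have hk2b : IsPGroup 2 πb.ker := by rw [hπb_ker]; exact hQb2
  obtain ⟨Db, hDb⟩ := fpf_of_normal hf4 πb hπb_surj hk2b (mk x) hxb (Q.map mk) hQb2
    (by
      intro gb hgb ab hab
      have hgQ : gb ∈ Q.map mk := by rw [← hπb_ker]; exact hgb
      rw [habb gb hgQ ab hab]; group)
    hfpfb
  obtain ⟨DZ, hDZ⟩ := fpf_of_normal hf4 π hπ hk2 x hx Z hZ2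
    (by
      intro g hg z hz
      have hgQ : g ∈ Q := by rw [← hker]; exact hg
      rw [((hZmem z).mp hz).2 g hgQ]; group)
    (fun z hz => hfpf z (hZQ hz))
  -- lifts
  have hex : ∀ ab : ↥(Q.map mk), ∃ q : G, q ∈ Q ∧ mk q = ab := fun ab => Subgroup.mem_map.mp ab.2
  choose lift hlQ hlmk using hex
  -- well-definedness of the commutator word
  have hw1 : ∀ a ∈ Q, ∀ b ∈ Q, ∀ z ∈ Z, cw (a * z) b = cw a b := by
    intro a _ b hb z hz
    have h1 : z * b = b * z := (((hZmem z).mp hz).2 b hb).symm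
    unfold cw
    calc a * z * b * (a * z)⁻¹ * b⁻¹ = a * (z * b) * z⁻¹ * a⁻¹ * b⁻¹ := by group
      _ = a * (b * z) * z⁻¹ * a⁻¹ * b⁻¹ := by rw [h1]
      _ = a * b * a⁻¹ * b⁻¹ := by group
  have hw2 : ∀ a ∈ Q, ∀ b ∈ Q, ∀ z ∈ Z, cw a (b * z) = cw a b := by
    intro a ha b _ z hz
    have h1 : z * a⁻¹ = a⁻¹ * z := (((hZmem z).mp hz).2 a⁻¹ (Q.inv_mem ha)).symm
    unfold cw
    calc a * (b * z) * a⁻¹ * (b * z)⁻¹ = a * b * (z * a⁻¹) * z⁻¹ * b⁻¹ := by group
      _ = a * b * (a⁻¹ * z) * z⁻¹ * b⁻¹ := by rw [h1]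
      _ = a * b * a⁻¹ * b⁻¹ := by group
  have hwell : ∀ a ∈ Q, ∀ a' ∈ Q, ∀ b ∈ Q, ∀ b' ∈ Q, mk a = mk a' → mk b = mk b' →
      cw a' b' = cw a b := by
    intro a ha a' _ b hb b' hb' haa hbb
    have e1 : a' = a * (a⁻¹ * a') := by group
    have e2 : b' = b * (b⁻¹ * b') := by group
    rw [e1, hw1 a ha b' hb' _ ((hmk_eq _ _).mp haa), e2, hw2 a ha b hb _ ((hmk_eq _ _).mp hbb)]
  -- multiplicativity
  have hmul1 : ∀ a ∈ Q, ∀ a' ∈ Q, ∀ b ∈ Q, cw (a * a') b = cw a b * cw a' b := by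
    intro a ha a' ha' b hb
    have hz := hcomm a' ha' b hb
    have h1 : a * cw a' b = cw a' b * a := ((hZmem _).mp hz).2 a ha
    have h2 : cw a b * cw a' b = cw a' b * cw a b :=
      ((hZmem _).mp hz).2 _ (hZQ (hcomm a ha b hb))
    rw [h2]
    calc cw (a * a') b = (a * cw a' b) * b * a⁻¹ * b⁻¹ := by unfold cw; group
      _ = (cw a' b * a) * b * a⁻¹ * b⁻¹ := by rw [h1]
      _ = cw a' b * cw a b := by unfold cw; group
  have hmul2 : ∀ a ∈ Q, ∀ b ∈ Q, ∀ b' ∈ Q, cw a (b * b') = cw a b * cw a b' := by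
    intro a ha b hb b' hb'
    have hz := hcomm a ha b' hb'
    have h1 : b⁻¹ * cw a b' = cw a b' * b⁻¹ := ((hZmem _).mp hz).2 _ (Q.inv_mem hb)
    calc cw a (b * b') = a * b * a⁻¹ * (cw a b' * b⁻¹) := by unfold cw; group
      _ = a * b * a⁻¹ * (b⁻¹ * cw a b') := by rw [h1]
      _ = cw a b * cw a b' := by unfold cw; group
  -- the pairing
  let γ : Additive ↥(Q.map mk) → Additive ↥(Q.map mk) → Additive ↥Z := fun ab bb =>
    Additive.ofMul ⟨cw (lift (Additive.toMul ab)) (lift (Additive.toMul bb)),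
      hcomm _ (hlQ _) _ (hlQ _)⟩
  have hγ : ∀ (ab bb : Additive ↥(Q.map mk)) (a b : G), a ∈ Q → b ∈ Q →
      mk a = ((Additive.toMul ab : ↥(Q.map mk)) : G ⧸ Z) →
      mk b = ((Additive.toMul bb : ↥(Q.map mk)) : G ⧸ Z) →
      ((Additive.toMul (γ ab bb) : ↥Z) : G) = cw a b := by
    intro ab bb a b ha hb hab hbb
    show cw (lift (Additive.toMul ab)) (lift (Additive.toMul bb)) = cw a b
    exact hwell a ha _ (hlQ _) b hb _ (hlQ _) (by rw [hab, hlmk]) (by rw [hbb, hlmk])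
  have hzero := Db.pairing_zero Db DZ γ
    (by
      intro ab ab' bb
      apply congrArg Additive.ofMul
      apply Subtype.ext
      show ((Additive.toMul (γ (ab + ab') bb) : ↥Z) : G) =
        ((Additive.toMul (γ ab bb) : ↥Z) : G) * ((Additive.toMul (γ ab' bb) : ↥Z) : G)
      rw [hγ (ab + ab') bb (lift (Additive.toMul ab) * lift (Additive.toMul ab'))
          (lift (Additive.toMul bb)) (Q.mul_mem (hlQ _) (hlQ _)) (hlQ _)
          (by rw [map_mul, hlmk, hlmk]; rfl) (hlmk _),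
        hγ ab bb _ _ (hlQ _) (hlQ _) (hlmk _) (hlmk _),
        hγ ab' bb _ _ (hlQ _) (hlQ _) (hlmk _) (hlmk _)]
      exact hmul1 _ (hlQ _) _ (hlQ _) _ (hlQ _))
    (by
      intro ab bb bb'
      apply congrArg Additive.ofMul
      apply Subtype.ext
      show ((Additive.toMul (γ ab (bb + bb')) : ↥Z) : G) =
        ((Additive.toMul (γ ab bb) : ↥Z) : G) * ((Additive.toMul (γ ab bb') : ↥Z) : G)
      rw [hγ ab (bb + bb') (lift (Additive.toMul ab))
          (lift (Additive.toMul bb) * lift (Additive.toMul bb')) (hlQ _)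
          (Q.mul_mem (hlQ _) (hlQ _)) (hlmk _) (by rw [map_mul, hlmk, hlmk]; rfl),
        hγ ab bb _ _ (hlQ _) (hlQ _) (hlmk _) (hlmk _),
        hγ ab bb' _ _ (hlQ _) (hlQ _) (hlmk _) (hlmk _)]
      exact hmul2 _ (hlQ _) _ (hlQ _) _ (hlQ _))
    (by
      intro s ab bb
      obtain ⟨g, rfl⟩ := hπ s
      have hca : ∀ cb : ↥(Q.map mk), mk g * (cb : G ⧸ Z) * (mk g)⁻¹ ∈ Q.map mk :=
        fun cb => hQbn.conj_mem _ cb.2 _
      have hlg : ∀ cb : ↥(Q.map mk), g * lift cb * g⁻¹ ∈ Q :=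
        fun cb => Subgroup.Normal.conj_mem inferInstance _ (hlQ cb) g
      have hact : ∀ cb : Additive ↥(Q.map mk), Db.act (π g) cb =
          Additive.ofMul (⟨mk g * ((Additive.toMul cb : ↥(Q.map mk)) : G ⧸ Z) * (mk g)⁻¹,
            hca _⟩ : ↥(Q.map mk)) := by
        intro cb
        rw [← hπb g]
        exact hDb (mk g) (Additive.toMul cb) (hca _)
      have hZg : g * cw (lift (Additive.toMul ab)) (lift (Additive.toMul bb)) * g⁻¹ ∈ Z :=
        hZnormal.conj_mem _ (hcomm _ (hlQ _) _ (hlQ _)) g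
      have hactZ : DZ.act (π g) (γ ab bb) =
          Additive.ofMul (⟨g * cw (lift (Additive.toMul ab)) (lift (Additive.toMul bb)) * g⁻¹,
            hZg⟩ : ↥Z) := hDZ g _ hZg
      rw [hactZ, hact ab, hact bb]
      apply congrArg Additive.ofMul
      apply Subtype.ext
      show cw _ _ = g * cw (lift (Additive.toMul ab)) (lift (Additive.toMul bb)) * g⁻¹
      rw [← cw_conj]
      exact hwell (g * lift (Additive.toMul ab) * g⁻¹) (hlg _) _ (hlQ _)
        (g * lift (Additive.toMul bb) * g⁻¹) (hlg _) _ (hlQ _)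
        (by rw [map_mul, map_mul, map_inv, hlmk, hlmk]; rfl)
        (by rw [map_mul, map_mul, map_inv, hlmk, hlmk]; rfl))
  -- conclusion
  have hfin : cw a b = 1 := by
    have h1 := hzero (Additive.ofMul (⟨mk a, ⟨a, ha, rfl⟩⟩ : ↥(Q.map mk)))
      (Additive.ofMul (⟨mk b, ⟨b, hb, rfl⟩⟩ : ↥(Q.map mk)))
    have h2 := hγ (Additive.ofMul (⟨mk a, ⟨a, ha, rfl⟩⟩ : ↥(Q.map mk)))
      (Additive.ofMul (⟨mk b, ⟨b, hb, rfl⟩⟩ : ↥(Q.map mk))) a b ha hb rfl rfl
    rw [h1] at h2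
    exact h2.symm
  unfold cw at hfin
  calc a * b = (a * b * a⁻¹ * b⁻¹) * b * a := by group
    _ = b * a := by rw [hfin, one_mul]

end Cfsg.Agent.H65.Higman
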