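import Mathlib
import Cfsg.Agent.H34.J3FDefs

/-!
# S5322-CARD (helper65, for helper34): `|P| = 128` for the data `CD J`.
-/

set_option autoImplicit false

namespace Cfsg.Agent.H65.J3F

universe u

open Cfsg.Agent.H34.J3F

theorem card : Cfsg.Agent.H34.J3F.StCard.{u} := by
  intro J _ D
  classical
  have hbij : Function.Bijective (fun x : Fin 32 × D.V =>
      (⟨D.eq x.1 * D.eh x.2.1, x.1, x.2.1, x.2.2, rfl⟩ : D.P)) := by
    constructor
    · rintro ⟨a, v, hv⟩ ⟨a', v', hv'⟩ h
      have h0 : D.eq a * D.eh v = D.eq a' * D.eh v' := congrArg Subtype.val h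
      obtain ⟨a'', ha''⟩ := D.T0 a'
      have h1 : D.eq a' * D.eq a'' = 1 := by rw [D.hqm, ha'', D.hq0]
      have e2 : D.eq a' = (D.eq a'')⁻¹ := eq_inv_of_mul_eq_one_left h1
      have h1' : D.eq a'' * D.eq a' = 1 := by rw [e2, mul_inv_cancel]
      have h2 : D.eh v * D.eh v = 1 := by rw [D.hhm, D.hV2 v hv, D.hh0]
      have h3 : D.eq (D.qm a'' a) = D.eh (D.hm v' v) := by
        rw [← D.hqm, ← D.hhm]
        calc D.eq a'' * D.eq a = D.eq a'' * (D.eq a * D.eh v) * D.eh v := by
              rw [mul_assoc, mul_assoc, h2, mul_one]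
          _ = D.eq a'' * (D.eq a' * D.eh v') * D.eh v := by rw [h0]
          _ = D.eh v' * D.eh v := by rw [← mul_assoc, h1', one_mul]
      have h4 := D.hqh _ _ h3
      have h5 : D.eq a'' * D.eq a = 1 := by rw [D.hqm, h4, D.hq0]
      have e1 : D.eq a = (D.eq a'')⁻¹ := eq_inv_of_mul_eq_one_right h5
      have h6 : D.eq a = D.eq a' := by rw [e1, e2]
      have h7 : a = a' := D.hqi h6
      subst h7
      have h8 : D.eh v = D.eh v' := mul_left_cancel h0
      have h9 : v = v' := D.hhi h8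
      subst h9
      rfl
    · rintro ⟨x, a, v, hv, rfl⟩
      exact ⟨(a, ⟨v, hv⟩), rfl⟩
  rw [← Nat.card_eq_of_bijective _ hbij, Nat.card_prod, Nat.card_eq_fintype_card,
    Fintype.card_fin, Nat.card_eq_fintype_card, Fintype.card_coe, D.hVc]

example : Cfsg.Agent.H34.J3F.StCard.{u} := card

end Cfsg.Agent.H65.J3F
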