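import Mathlib
import Cfsg.Agent.H34.J3FDefs

/-!
# S5322-SYL (helper65, for helper34): a subgroup of order `128` of a group of order
`50232960 = 2^7 · 392445` is a Sylow `2`-subgroup.
-/

set_option autoImplicit false
set_option linter.style.haveILetI false

namespace Cfsg.Agent.H65.J3F

universe u

open Cfsg.Agent.H34.J3F

theorem syl : Cfsg.Agent.H34.J3F.StSyl.{u} := by
  intro J _ _ P hJ hP
  haveI : Fact (Nat.Prime 2) := ⟨Nat.prime_two⟩
  have hfac : (50232960 : ℕ).factorization 2 = 7 := by
    have h : (50232960 : ℕ) = 2 ^ 7 * 392445 := by norm_num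
    have h2 : ((2 : ℕ) ^ 7 * 392445).factorization 2 = 7 := by
      rw [Nat.factorization_mul (by positivity) (by norm_num),
        Nat.Prime.factorization_pow Nat.prime_two, Finsupp.add_apply, Finsupp.single_eq_same,
        Nat.factorization_eq_zero_of_not_dvd (show ¬ 2 ∣ 392445 by norm_num)]
    rw [h]
    exact h2
  refine ⟨Sylow.ofCard P (by rw [hP, hJ, hfac]; norm_num), ?_⟩
  simp

example : Cfsg.Agent.H34.J3F.StSyl.{u} := syl

end Cfsg.Agent.H65.J3F
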