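import Mathlib

/-!
Helper library (helper65): ranks of powers of a nilpotent operator on invariant summands
(Jordan type via ranks), an explicit nilpotent operator with prescribed Jordan type, and
a free-orbit rank estimate.  Used for S5959.
-/

namespace Cfsg.Agent.H65.JordanRank


set_option linter.unusedSectionVars false

variable {F : Type*} [Field F] {V : Type*} [AddCommGroup V] [Module F V] [FiniteDimensional F V]

/-- rank of `N^k` restricted to `U`. -/
noncomputable def rk (N : V →ₗ[F] V) (U : Submodule F V) (k : ℕ) : ℕ :=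
  Module.finrank F (U.map (N ^ k))

theorem pow_mem_of_invariant (N : V →ₗ[F] V) (U : Submodule F V) (hU : ∀ u ∈ U, N u ∈ U) (k : ℕ) :
    ∀ u ∈ U, (N ^ k) u ∈ U := by
  induction k with
  | zero => intro u hu; simpa using hu
  | succ k ih =>
    intro u hu
    rw [pow_succ, Module.End.mul_apply]
    exact ih _ (hU u hu)

theorem map_pow_le (N : V →ₗ[F] V) (U : Submodule F V) (hU : ∀ u ∈ U, N u ∈ U) (k : ℕ) :
    U.map (N ^ k) ≤ U := by
  rintro _ ⟨u, hu, rfl⟩
  exact pow_mem_of_invariant N U hU k u hu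

theorem finrank_map_add (N : V →ₗ[F] V) (A : Submodule F V) :
    Module.finrank F (A.map N) + Module.finrank F (A ⊓ LinearMap.ker N : Submodule F V) = Module.finrank F A := by
  have h := (N.domRestrict A).finrank_range_add_finrank_ker
  have h1 : LinearMap.range (N.domRestrict A) = A.map N := by
    ext v
    simp [LinearMap.domRestrict]
  have h2 : Module.finrank F (LinearMap.ker (N.domRestrict A)) = Module.finrank F (A ⊓ LinearMap.ker N : Submodule F V) := by
    have e : LinearMap.ker (N.domRestrict A) = (A ⊓ LinearMap.ker N).comap A.subtype := by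
      ext v
      simp [LinearMap.domRestrict]
    rw [e]
    exact (Submodule.comapSubtypeEquivOfLe (inf_le_left : A ⊓ LinearMap.ker N ≤ A)).finrank_eq
  rw [h1, h2] at h
  exact h

theorem map_pow_succ (N : V →ₗ[F] V) (U : Submodule F V) (k : ℕ) :
    U.map (N ^ (k + 1)) = (U.map (N ^ k)).map N := by
  rw [pow_succ', Module.End.mul_eq_comp, Submodule.map_comp]

theorem rk_succ_add (N : V →ₗ[F] V) (U : Submodule F V) (k : ℕ) :
    rk N U (k + 1) + Module.finrank F (U.map (N ^ k) ⊓ LinearMap.ker N : Submodule F V) = rk N U k := by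
  unfold rk
  rw [map_pow_succ]
  exact finrank_map_add N _

theorem rk_succ_le (N : V →ₗ[F] V) (U : Submodule F V) (k : ℕ) : rk N U (k + 1) ≤ rk N U k := by
  have := rk_succ_add N U k
  omega

theorem map_pow_succ_le (N : V →ₗ[F] V) (U : Submodule F V) (hU : ∀ u ∈ U, N u ∈ U) (k : ℕ) :
    U.map (N ^ (k + 1)) ≤ U.map (N ^ k) := by
  rw [pow_succ, Module.End.mul_eq_comp, Submodule.map_comp]
  apply Submodule.map_mono
  rintro _ ⟨u, hu, rfl⟩
  exact hU u hu

/-- convexity of the rank sequence -/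
theorem rk_convex (N : V →ₗ[F] V) (U : Submodule F V) (hU : ∀ u ∈ U, N u ∈ U) (k : ℕ) :
    2 * rk N U (k + 1) ≤ rk N U k + rk N U (k + 2) := by
  have h1 := rk_succ_add N U k
  have h2 := rk_succ_add N U (k + 1)
  rw [show k + 1 + 1 = k + 2 from rfl] at h2
  have h3 : Module.finrank F (U.map (N ^ (k + 1)) ⊓ LinearMap.ker N : Submodule F V) ≤
      Module.finrank F (U.map (N ^ k) ⊓ LinearMap.ker N : Submodule F V) :=
    Submodule.finrank_mono (inf_le_inf_right _ (map_pow_succ_le N U hU k))
  omega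

/-- additivity of the rank on invariant direct sums -/
theorem rk_sup (N : V →ₗ[F] V) (U W : Submodule F V) (hU : ∀ u ∈ U, N u ∈ U) (hW : ∀ u ∈ W, N u ∈ W)
    (hd : Disjoint U W) (k : ℕ) : rk N (U ⊔ W) k = rk N U k + rk N W k := by
  unfold rk
  rw [Submodule.map_sup]
  have hd' : Disjoint (U.map (N ^ k)) (W.map (N ^ k)) :=
    hd.mono (map_pow_le N U hU k) (map_pow_le N W hW k)
  have := Submodule.finrank_sup_add_finrank_inf_eq (U.map (N ^ k)) (W.map (N ^ k))
  rw [hd'.eq_bot, finrank_bot, add_zero] at this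
  exact this

theorem rk_zero (N : V →ₗ[F] V) (U : Submodule F V) : rk N U 0 = Module.finrank F U := by
  show Module.finrank F (U.map (N ^ 0)) = _
  rw [pow_zero, Module.End.one_eq_id, Submodule.map_id]

theorem rk_top (N : V →ₗ[F] V) (k : ℕ) : rk N ⊤ k = Module.finrank F (LinearMap.range (N ^ k)) := by
  unfold rk
  rw [Submodule.map_top]

theorem rk_eq_zero_of_pow_eq_zero (N : V →ₗ[F] V) (U : Submodule F V) (k : ℕ) (h : N ^ k = 0) : rk N U k = 0 := by
  show Module.finrank F (U.map (N ^ k)) = _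
  rw [h, Submodule.map_zero, finrank_bot]

/-- telescoping identity -/
theorem telescope (f : ℕ → ℤ) (K : ℕ) :
    ∑ k ∈ Finset.range K, ((k : ℤ) + 1) * (f k - 2 * f (k + 1) + f (k + 2)) =
      f 0 - (K + 1) * f K + K * f (K + 1) := by
  induction K with
  | zero => simp
  | succ K ih =>
    rw [Finset.sum_range_succ, ih]
    push_cast
    ring



section Shift

variable {F : Type*} [Field F] {t : ℕ} (d : Fin t → ℕ)

/-- shift operator on the sigma type (direct sum of nilpotent Jordan blocks of sizes `d i`). -/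
def shift : ((Σ i : Fin t, Fin (d i)) → F) →ₗ[F] ((Σ i : Fin t, Fin (d i)) → F) where
  toFun v a := if h : (a.2 : ℕ) = 0 then 0 else v ⟨a.1, ⟨(a.2 : ℕ) - 1, by have := a.2.2; omega⟩⟩
  map_add' v w := by
    funext a
    by_cases h : (a.2 : ℕ) = 0 <;> simp [h]
  map_smul' c v := by
    funext a
    by_cases h : (a.2 : ℕ) = 0 <;> simp [h]

theorem shift_pow_apply (k : ℕ) (v : (Σ i : Fin t, Fin (d i)) → F) (a : Σ i : Fin t, Fin (d i)) :
    ((shift (F := F) d) ^ k) v a =
      if h : k ≤ (a.2 : ℕ) then v ⟨a.1, ⟨(a.2 : ℕ) - k, by have := a.2.2; omega⟩⟩ else 0 := by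
  induction k generalizing v a with
  | zero => simp
  | succ k ih =>
    rw [pow_succ, Module.End.mul_apply, ih]
    by_cases h : k ≤ (a.2 : ℕ)
    · rw [dif_pos h]
      simp only [shift, LinearMap.coe_mk, AddHom.coe_mk]
      by_cases h' : k + 1 ≤ (a.2 : ℕ)
      · rw [dif_pos h', dif_neg (by omega)]
        have : (a.2 : ℕ) - k - 1 = (a.2 : ℕ) - (k + 1) := by omega
        simp only [this]
      · rw [dif_neg h', dif_pos (by omega)]
    · rw [dif_neg h, dif_neg (by omega)]

/-- the index set of the range of `shift ^ k` -/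
abbrev Sk (k : ℕ) : Type := {a : Σ i : Fin t, Fin (d i) // k ≤ (a.2 : ℕ)}

def shiftE (k : ℕ) : (Sk d k → F) →ₗ[F] ((Σ i : Fin t, Fin (d i)) → F) where
  toFun u a := if h : k ≤ (a.2 : ℕ) then u ⟨a, h⟩ else 0
  map_add' v w := by
    funext a
    by_cases h : k ≤ (a.2 : ℕ) <;> simp [h]
  map_smul' c v := by
    funext a
    by_cases h : k ≤ (a.2 : ℕ) <;> simp [h]

def shiftR (k : ℕ) : ((Σ i : Fin t, Fin (d i)) → F) →ₗ[F] (Sk d k → F) where
  toFun v s := v ⟨s.1.1, ⟨(s.1.2 : ℕ) - k, by have := s.1.2.2; omega⟩⟩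
  map_add' v w := by
    funext a
    simp
  map_smul' c v := by
    funext a
    simp

theorem shift_pow_eq (k : ℕ) : (shift (F := F) d) ^ k = shiftE d k ∘ₗ shiftR d k := by
  apply LinearMap.ext
  intro v
  funext a
  rw [shift_pow_apply]
  simp [shiftE, shiftR]

theorem shiftE_injective (k : ℕ) : Function.Injective (shiftE (F := F) d k) := by
  intro u u' h
  funext s
  have := congrFun h s.1
  simpa [shiftE, s.2] using this

theorem shiftR_surjective (k : ℕ) : Function.Surjective (shiftR (F := F) d k) := by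
  intro u
  refine ⟨fun b => if h : (b.2 : ℕ) + k < d b.1 then u ⟨⟨b.1, ⟨(b.2 : ℕ) + k, h⟩⟩, by simp⟩ else 0, ?_⟩
  funext s
  obtain ⟨⟨i, j⟩, hs⟩ := s
  simp only [shiftR, LinearMap.coe_mk, AddHom.coe_mk]
  have hj := j.2
  simp only at hs
  rw [dif_pos (by omega)]
  congr 1
  apply Subtype.ext
  simp only
  congr 1
  apply Fin.ext
  simp
  omega

theorem finrank_range_shift_pow (k : ℕ) :
    Module.finrank F (LinearMap.range ((shift (F := F) d) ^ k)) = Fintype.card (Sk d k) := by
  rw [shift_pow_eq, LinearMap.range_comp_of_range_eq_top _ (LinearMap.range_eq_top.mpr (shiftR_surjective d k)),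
    LinearMap.finrank_range_of_inj (shiftE_injective d k), Module.finrank_fintype_fun_eq_card]

theorem card_Sk (k : ℕ) : Fintype.card (Sk d k) = ∑ i, (d i - k) := by
  rw [Fintype.card_subtype, Finset.card_filter, Fintype.sum_sigma]
  apply Finset.sum_congr rfl
  intro i _
  rw [Fin.sum_univ_eq_sum_range (fun j => if k ≤ j then 1 else 0) (d i)]
  generalize d i = m
  induction m with
  | zero => simp
  | succ m ih =>
    rw [Finset.sum_range_succ, ih]
    split_ifs <;> omega

end Shift

section Transport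

variable {F : Type*} [Field F]

theorem conj_pow {V W : Type*} [AddCommGroup V] [Module F V] [AddCommGroup W] [Module F W]
    (L : V ≃ₗ[F] W) (f : V →ₗ[F] V) (k : ℕ) : (L.conj f) ^ k = L.conj (f ^ k) := by
  induction k with
  | zero =>
    apply LinearMap.ext
    intro x
    simp
  | succ k ih =>
    rw [pow_succ, pow_succ, ih, Module.End.mul_eq_comp, Module.End.mul_eq_comp, LinearEquiv.conj_comp]

theorem range_conj {V W : Type*} [AddCommGroup V] [Module F V] [AddCommGroup W] [Module F W]
    (L : V ≃ₗ[F] W) (f : V →ₗ[F] V) : LinearMap.range (L.conj f) = (LinearMap.range f).map (L : V →ₗ[F] W) := by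
  ext w
  simp only [LinearMap.mem_range, LinearEquiv.conj_apply_apply, Submodule.mem_map, LinearEquiv.coe_coe]
  constructor
  · rintro ⟨y, rfl⟩
    exact ⟨f (L.symm y), ⟨_, rfl⟩, rfl⟩
  · rintro ⟨_, ⟨x, rfl⟩, rfl⟩
    exact ⟨L x, by simp⟩

theorem finrank_range_conj_pow {V W : Type*} [AddCommGroup V] [Module F V] [AddCommGroup W] [Module F W]
    (L : V ≃ₗ[F] W) (f : V →ₗ[F] V) (k : ℕ) :
    Module.finrank F (LinearMap.range ((L.conj f) ^ k)) = Module.finrank F (LinearMap.range (f ^ k)) := by
  rw [conj_pow, range_conj]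
  exact LinearEquiv.finrank_map_eq L _

theorem exists_nilpotent_fun {t : ℕ} (d : Fin t → ℕ) (n : ℕ) (hn : ∑ i, d i = n) :
    ∃ N : (Fin n → F) →ₗ[F] (Fin n → F), ∀ k, Module.finrank F (LinearMap.range (N ^ k)) = ∑ i, (d i - k) := by
  have hcard : Fintype.card (Σ i : Fin t, Fin (d i)) = n := by
    rw [Fintype.card_sigma]
    simpa using hn
  let e : (Σ i : Fin t, Fin (d i)) ≃ Fin n := Fintype.equivFinOfCardEq hcard
  let L : ((Σ i : Fin t, Fin (d i)) → F) ≃ₗ[F] (Fin n → F) := LinearEquiv.funCongrLeft F F e.symm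
  refine ⟨L.conj (shift d), fun k => ?_⟩
  rw [finrank_range_conj_pow, finrank_range_shift_pow, card_Sk]

theorem exists_nilpotent (μ : Multiset ℕ) (n : ℕ) (hn : μ.sum = n) :
    ∃ N : (Fin n → F) →ₗ[F] (Fin n → F),
      ∀ k, Module.finrank F (LinearMap.range (N ^ k)) = (μ.map (fun b => b - k)).sum := by
  obtain ⟨l, rfl⟩ := Quot.exists_rep μ
  have hl : ∑ i : Fin l.length, l[i.1] = n := by
    rw [Fin.sum_univ_getElem]
    simpa using hn
  obtain ⟨N, hN⟩ := exists_nilpotent_fun (F := F) (fun i : Fin l.length => l[i.1]) n hl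
  refine ⟨N, fun k => ?_⟩
  rw [hN k, Fin.sum_univ_fun_getElem l (fun b => b - k)]
  simp

end Transport

section Mset

theorem mset_second_diff (μ : Multiset ℕ) (k : ℕ) :
    (((μ.map (fun b => b - k)).sum : ℕ) : ℤ) - 2 * ((μ.map (fun b => b - (k + 1))).sum : ℕ) +
      ((μ.map (fun b => b - (k + 2))).sum : ℕ) = (μ.count (k + 1) : ℤ) := by
  induction μ using Multiset.induction_on with
  | empty => simp
  | cons b s ih =>
    rw [Multiset.map_cons, Multiset.map_cons, Multiset.map_cons, Multiset.sum_cons, Multiset.sum_cons,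
      Multiset.sum_cons, Multiset.count_cons]
    split_ifs <;> omega

theorem mset_sum_sub_eq_zero (μ : Multiset ℕ) (p k : ℕ) (h : ∀ b ∈ μ, b ≤ p) (hk : p ≤ k) :
    (μ.map (fun b => b - k)).sum = 0 := by
  apply Multiset.sum_eq_zero
  intro x hx
  obtain ⟨b, hb, rfl⟩ := Multiset.mem_map.mp hx
  have := h b hb
  omega

theorem mset_sum_sub_pred (μ : Multiset ℕ) (p : ℕ) (hp : 1 ≤ p) (h : ∀ b ∈ μ, b ≤ p) :
    (μ.map (fun b => b - (p - 1))).sum = μ.count p := by
  induction μ using Multiset.induction_on with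
  | empty => simp
  | cons b s ih =>
    rw [Multiset.map_cons, Multiset.sum_cons, Multiset.count_cons, ih (fun b hb => h b (Multiset.mem_cons_of_mem hb))]
    have := h b (Multiset.mem_cons_self b s)
    split_ifs <;> omega

theorem mset_sum_sub_one_pos (μ : Multiset ℕ) (b₀ : ℕ) (hb₀ : b₀ ∈ μ) (h2 : 2 ≤ b₀) :
    0 < (μ.map (fun b => b - 1)).sum := by
  obtain ⟨s, rfl⟩ := Multiset.exists_cons_of_mem hb₀
  rw [Multiset.map_cons, Multiset.sum_cons]
  omega

end Mset

section CaseA

variable {F : Type*} [Field F] {V : Type*} [AddCommGroup V] [Module F V] [FiniteDimensional F V]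

theorem exists_sub_multiset (N : V →ₗ[F] V) (μ : Multiset ℕ) (p : ℕ)
    (hN : ∀ k, rk N ⊤ k = (μ.map (fun b => b - k)).sum) (hNp : N ^ p = 0)
    (U W : Submodule F V) (hU : ∀ u ∈ U, N u ∈ U) (hW : ∀ w ∈ W, N w ∈ W) (hd : Disjoint U W)
    (hs : U ⊔ W = ⊤) :
    ∃ ν : Multiset ℕ, ν ≤ μ ∧ ν.sum = Module.finrank F U := by
  set m : ℕ → ℕ := fun k => rk N U k + rk N U (k + 2) - 2 * rk N U (k + 1) with hm
  have hmU : ∀ k, (m k : ℤ) = (rk N U k : ℤ) - 2 * rk N U (k + 1) + rk N U (k + 2) := by
    intro k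
    have := rk_convex N U hU k
    simp only [hm]
    omega
  have hmle : ∀ k, m k ≤ μ.count (k + 1) := by
    intro k
    have h1 := rk_convex N U hU k
    have h2 := rk_convex N W hW k
    have h3 := mset_second_diff μ k
    rw [← hN k, ← hN (k + 1), ← hN (k + 2), ← hs, rk_sup N U W hU hW hd, rk_sup N U W hU hW hd,
      rk_sup N U W hU hW hd] at h3
    have h4 := hmU k
    push_cast at h3
    omega
  refine ⟨∑ k ∈ Finset.range p, Multiset.replicate (m k) (k + 1), ?_, ?_⟩
  · rw [Multiset.le_iff_count]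
    intro j
    rw [Multiset.count_sum']
    simp only [Multiset.count_replicate]
    rcases j with _ | j
    · simp
    · have : ∀ k ∈ Finset.range p, (if k + 1 = j + 1 then m k else 0) = if k = j then m k else 0 := by
        intro k _
        simp
      rw [Finset.sum_congr rfl this, Finset.sum_ite_eq']
      split_ifs
      · exact hmle j
      · exact Nat.zero_le _
  · have h1 : (∑ k ∈ Finset.range p, Multiset.replicate (m k) (k + 1)).sum =
        ∑ k ∈ Finset.range p, m k * (k + 1) := by
      rw [← Multiset.coe_sumAddMonoidHom, map_sum]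
      apply Finset.sum_congr rfl
      intro k _
      rw [Multiset.coe_sumAddMonoidHom, Multiset.sum_replicate, smul_eq_mul]
    rw [h1]
    have h2 := telescope (fun k => (rk N U k : ℤ)) p
    have hp0 : rk N U p = 0 := rk_eq_zero_of_pow_eq_zero N U p hNp
    have hp1 : rk N U (p + 1) = 0 := rk_eq_zero_of_pow_eq_zero N U (p + 1) (by rw [pow_succ, hNp, zero_mul])
    simp only [hp0, hp1, rk_zero, Nat.cast_zero, mul_zero, sub_zero, add_zero] at h2
    have h3 : ((∑ k ∈ Finset.range p, m k * (k + 1) : ℕ) : ℤ) = (Module.finrank F U : ℤ) := by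
      push_cast
      rw [← h2]
      apply Finset.sum_congr rfl
      intro k _
      rw [hmU k]
      ring
    exact_mod_cast h3

end CaseA

section CaseB

variable {F : Type*} [Field F] {V : Type*} [AddCommGroup V] [Module F V] [FiniteDimensional F V]

theorem finrank_le_of_injOn (U : Submodule F V) (f : V →ₗ[F] V) (hinj : ∀ u ∈ U, f u = 0 → u = 0) :
    Module.finrank F U ≤ Module.finrank F (LinearMap.range f) := by
  have h1 : Function.Injective (f.domRestrict U) := by
    rw [← LinearMap.ker_eq_bot, LinearMap.ker_eq_bot']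
    intro u hu
    exact Subtype.ext (hinj u.1 u.2 hu)
  rw [← LinearMap.finrank_range_of_inj h1]
  apply Submodule.finrank_mono
  rintro _ ⟨u, rfl⟩
  exact ⟨u.1, rfl⟩

theorem eq_zero_of_sum_eq_zero {ι κ : Type*} (D : ι → Submodule F V) (hD : iSupIndep D)
    (s : Finset κ) (g : κ → ι) (hg : Set.InjOn g s) (v : κ → V) (hv : ∀ i ∈ s, v i ∈ D (g i))
    (hsum : ∑ i ∈ s, v i = 0) : ∀ i ∈ s, v i = 0 := by
  classical
  intro i hi
  have h1 : v i = - ∑ l ∈ s.erase i, v l := by
    rw [← Finset.add_sum_erase s v hi] at hsum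
    exact eq_neg_of_add_eq_zero_left hsum
  have h2 : v i ∈ ⨆ (l) (_ : l ≠ g i), D l := by
    rw [h1]
    apply Submodule.neg_mem
    apply Submodule.sum_mem
    intro l hl
    have hl' := Finset.mem_erase.mp hl
    have hne : g l ≠ g i := fun h => hl'.1 (hg hl'.2 hi h)
    exact Submodule.mem_iSup_of_mem (g l) (Submodule.mem_iSup_of_mem hne (hv l hl'.2))
  have := (hD (g i)).le_bot ⟨hv i hi, h2⟩
  simpa using this

theorem sub_one_pow_eq_geom (p : ℕ) [Fact p.Prime] [CharP F p] (X : Module.End F V) :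
    (X - 1) ^ (p - 1) = ∑ i ∈ Finset.range p, X ^ i := by
  have hp : 1 ≤ p := (Fact.out : p.Prime).one_lt.le
  have h : ((Polynomial.X : Polynomial F) - 1) ^ (p - 1) = ∑ i ∈ Finset.range p, (Polynomial.X : Polynomial F) ^ i := by
    have hne : (Polynomial.X : Polynomial F) - 1 ≠ 0 := by
      have := Polynomial.X_sub_C_ne_zero (1 : F)
      simpa using this
    apply mul_right_cancel₀ hne
    rw [← pow_succ, Nat.sub_add_cancel hp, geom_sum_mul, sub_pow_char, one_pow]
  have h2 := congrArg (Polynomial.aeval X) h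
  simpa using h2

theorem finrank_le_of_free_orbit {ι : Type*} (D : ι → Submodule F V) (hD : iSupIndep D) (X : V →ₗ[F] V)
    (p : ℕ) [Fact p.Prime] [CharP F p] (j : ι) (g : ℕ → ι) (hinj : Set.InjOn g (Finset.range p : Set ℕ))
    (hmap : ∀ i, ∀ u ∈ D j, (X ^ i) u ∈ D (g i)) :
    Module.finrank F (D j) ≤ Module.finrank F (LinearMap.range ((X - 1) ^ (p - 1))) := by
  apply finrank_le_of_injOn
  intro u hu h0
  rw [sub_one_pow_eq_geom p X, LinearMap.sum_apply] at h0
  have := eq_zero_of_sum_eq_zero D hD (Finset.range p) g hinj (fun i => (X ^ i) u) (fun i _ => hmap i u hu) h0 0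
    (Finset.mem_range.mpr (Fact.out : p.Prime).pos)
  simpa using this

theorem injOn_iterate_of_prime {α : Type*} (f : α → α) (p : ℕ) (hp : p.Prime) (j : α)
    (h1 : f^[p] j = j) (h2 : f j ≠ j) : Set.InjOn (fun i => f^[i] j) (Finset.range p : Set ℕ) := by
  have hper : Function.IsPeriodicPt f p j := h1
  have hdvd := hper.minimalPeriod_dvd
  have hmin : Function.minimalPeriod f j = p := by
    rcases (Nat.dvd_prime hp).mp hdvd with h | h
    · exfalso
      apply h2
      have := Function.isPeriodicPt_minimalPeriod f j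
      rw [h] at this
      exact this
    · exact h
  have := Function.iterate_injOn_Iio_minimalPeriod (f := f) (x := j)
  rw [hmin] at this
  intro a ha b hb hab
  exact this (by simpa using ha) (by simpa using hb) hab

end CaseB


end Cfsg.Agent.H65.JordanRank
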