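import Cfsg.Agent.H43.MCDefs

/-!
# S3905-CF (piece for helper43): a chief factor which is an `r`-group is elementary abelian
-/

set_option autoImplicit false
set_option linter.style.haveILetI false
set_option linter.unusedVariables false

namespace Cfsg.Agent.H65.MC

open Cfsg.Agent.H43.MC

universe u

/-- Nontrivial centre of the `r`-group `B/A`, stated inside `G`. -/
theorem cf_center {G : Type u} [Group G] [Finite G] (r : ℕ) (hr : r.Prime) (A B : Subgroup G)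
    (hA : A.Normal) (hAB : A ≤ B) (hp : ∀ b ∈ B, ∃ k : ℕ, b ^ (r ^ k) ∈ A)
    (hne : ∃ b ∈ B, b ∉ A) :
    ∃ z ∈ B, z ∉ A ∧ ∀ c ∈ B, z * c * z⁻¹ * c⁻¹ ∈ A := by
  haveI : Fact r.Prime := ⟨hr⟩
  let Q := ↥B ⧸ A.subgroupOf B
  let π : ↥B →* Q := QuotientGroup.mk' (A.subgroupOf B)
  have hπ : ∀ b : ↥B, π b = 1 ↔ (b : G) ∈ A := by
    intro b
    show ((b : ↥B) : Q) = 1 ↔ _
    rw [QuotientGroup.eq_one_iff, Subgroup.mem_subgroupOf]
  have hπs : Function.Surjective π := QuotientGroup.mk'_surjective _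
  have hPG : IsPGroup r Q := by
    intro q
    obtain ⟨b, rfl⟩ := hπs q
    obtain ⟨k, hk⟩ := hp b b.2
    refine ⟨k, ?_⟩
    rw [← map_pow, hπ]
    simpa using hk
  obtain ⟨b0, hb0B, hb0A⟩ := hne
  haveI : Nontrivial Q := ⟨⟨π ⟨b0, hb0B⟩, 1, fun h => hb0A ((hπ _).1 h)⟩⟩
  haveI := hPG.center_nontrivial
  obtain ⟨⟨z, hz⟩, hz1⟩ := exists_ne (1 : Subgroup.center Q)
  obtain ⟨b, rfl⟩ := hπs z
  refine ⟨b, b.2, fun hbA => hz1 ?_, ?_⟩
  · exact Subtype.ext ((hπ b).2 hbA)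
  · intro c hc
    have h1 : π (b * ⟨c, hc⟩ * b⁻¹ * (⟨c, hc⟩ : ↥B)⁻¹) = 1 := by
      rw [map_mul, map_mul, map_mul, map_inv, map_inv]
      have h2 := Subgroup.mem_center_iff.1 hz (π ⟨c, hc⟩)
      rw [← h2]; group
    simpa using (hπ _).1 h1

theorem cf : StCF.{u} := by
  intro G _ _ r hr A B hA hB hAB hp hchief
  -- trivial case
  by_cases hne : ∃ b ∈ B, b ∉ A
  swap
  · have hBA : ∀ b ∈ B, b ∈ A := by
      intro b hb
      by_contra hbA
      exact hne ⟨b, hb, hbA⟩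
    refine ⟨fun a ha b hb => hBA _ ?_, fun b hb => hBA _ (B.pow_mem hb _)⟩
    exact B.mul_mem (B.mul_mem (B.mul_mem ha hb) (B.inv_mem ha)) (B.inv_mem hb)
  have hBneA : B ≠ A := by
    rintro rfl
    obtain ⟨b, hb, hb'⟩ := hne
    exact hb' hb
  -- (i) the centre
  let T1 : Subgroup G :=
    { carrier := {b | b ∈ B ∧ ∀ c ∈ B, b * c * b⁻¹ * c⁻¹ ∈ A}
      one_mem' := ⟨B.one_mem, fun c hc => by simp [A.one_mem]⟩
      mul_mem' := by
        rintro b1 b2 ⟨hb1, h1⟩ ⟨hb2, h2⟩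
        refine ⟨B.mul_mem hb1 hb2, fun c hc => ?_⟩
        have e : b1 * b2 * c * (b1 * b2)⁻¹ * c⁻¹
            = (b1 * (b2 * c * b2⁻¹ * c⁻¹) * b1⁻¹) * (b1 * c * b1⁻¹ * c⁻¹) := by group
        rw [e]
        exact A.mul_mem (hA.conj_mem _ (h2 c hc) b1) (h1 c hc)
      inv_mem' := by
        rintro b ⟨hb, h1⟩
        refine ⟨B.inv_mem hb, fun c hc => ?_⟩
        have e : b⁻¹ * c * b⁻¹⁻¹ * c⁻¹ = b⁻¹ * (b * c * b⁻¹ * c⁻¹)⁻¹ * b⁻¹⁻¹ := by group
        rw [e]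
        exact hA.conj_mem _ (A.inv_mem (h1 c hc)) b⁻¹ }
  have hT1n : T1.Normal := by
    constructor
    rintro b ⟨hb, h1⟩ g
    refine ⟨hB.conj_mem _ hb g, fun c hc => ?_⟩
    have e : g * b * g⁻¹ * c * (g * b * g⁻¹)⁻¹ * c⁻¹
        = g * (b * (g⁻¹ * c * g⁻¹⁻¹) * b⁻¹ * (g⁻¹ * c * g⁻¹⁻¹)⁻¹) * g⁻¹ := by group
    rw [e]
    exact hA.conj_mem _ (h1 _ (hB.conj_mem _ hc g⁻¹)) g
  have hAT1 : A ≤ T1 := by
    intro a ha
    refine ⟨hAB ha, fun c hc => ?_⟩
    have e : a * c * a⁻¹ * c⁻¹ = a * (c * a⁻¹ * c⁻¹) := by group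
    rw [e]
    exact A.mul_mem ha (hA.conj_mem _ (A.inv_mem ha) c)
  have hT1B : T1 ≤ B := fun b hb => hb.1
  have hT1 : T1 = B := by
    rcases hchief T1 hT1n hAT1 hT1B with h | h
    · exfalso
      obtain ⟨z, hzB, hzA, hz⟩ := cf_center r hr A B hA hAB hp hne
      have : z ∈ T1 := ⟨hzB, hz⟩
      rw [h] at this
      exact hzA this
    · exact h
  have hcomm : ∀ a ∈ B, ∀ b ∈ B, a * b * a⁻¹ * b⁻¹ ∈ A := by
    intro a ha b hb
    have : a ∈ T1 := by rw [hT1]; exact ha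
    exact this.2 b hb
  refine ⟨hcomm, ?_⟩
  -- (ii) the `r`-th powers
  let π : G →* G ⧸ A := QuotientGroup.mk' A
  have hπ : ∀ g : G, π g = 1 ↔ g ∈ A := fun g => QuotientGroup.eq_one_iff g
  have hc : ∀ a ∈ B, ∀ b ∈ B, Commute (π a) (π b) := by
    intro a ha b hb
    have h1 : π (a * b * a⁻¹ * b⁻¹) = 1 := (hπ _).2 (hcomm a ha b hb)
    rw [map_mul, map_mul, map_mul, map_inv, map_inv] at h1
    show π a * π b = π b * π a
    have h2 : π a * π b = (π a * π b * (π a)⁻¹ * (π b)⁻¹) * (π b * π a) := by group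
    rw [h2, h1, one_mul]
  let T2 : Subgroup G :=
    { carrier := {b | b ∈ B ∧ b ^ r ∈ A}
      one_mem' := ⟨B.one_mem, by simp [A.one_mem]⟩
      mul_mem' := by
        rintro a b ⟨ha, h1⟩ ⟨hb, h2⟩
        refine ⟨B.mul_mem ha hb, ?_⟩
        rw [← hπ, map_pow, map_mul, (hc a ha b hb).mul_pow, ← map_pow, ← map_pow,
          (hπ _).2 h1, (hπ _).2 h2, one_mul]
      inv_mem' := by
        rintro b ⟨hb, h1⟩
        refine ⟨B.inv_mem hb, ?_⟩
        rw [inv_pow]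
        exact A.inv_mem h1 }
  have hT2n : T2.Normal := by
    constructor
    rintro b ⟨hb, h1⟩ g
    refine ⟨hB.conj_mem _ hb g, ?_⟩
    rw [conj_pow]
    exact hA.conj_mem _ h1 g
  have hAT2 : A ≤ T2 := fun a ha => ⟨hAB ha, A.pow_mem ha _⟩
  have hT2B : T2 ≤ B := fun b hb => hb.1
  have hT2 : T2 = B := by
    rcases hchief T2 hT2n hAT2 hT2B with h | h
    · exfalso
      obtain ⟨b, hbB, hbA⟩ := hne
      have hex := hp b hbB
      classical
      have hk := Nat.find_spec hex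
      have hk0 : Nat.find hex ≠ 0 := by
        intro h0
        rw [h0] at hk
        simp at hk
        exact hbA hk
      obtain ⟨k, hk'⟩ := Nat.exists_eq_succ_of_ne_zero hk0
      have hmin := Nat.find_min hex (m := k) (by omega)
      apply hmin
      have : b ^ r ^ k ∈ T2 := by
        refine ⟨B.pow_mem hbB _, ?_⟩
        rw [← pow_mul, ← pow_succ]
        rw [hk'] at hk
        exact hk
      rw [h] at this
      exact this
    · exact h
  intro b hb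
  have : b ∈ T2 := by rw [hT2]; exact hb
  exact this.2

example : StCF.{u} := cf

end Cfsg.Agent.H65.MC
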