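import Cfsg.Agent.H73.OrdTools

/-!
# No simple group of order `4620 = 2²·3·5·7·11` (helper65, for helper2's S0983)

Cross-prime Sylow counting (recipe of helper26), with helper73's `OrdTools`.
-/

set_option autoImplicit false

namespace Cfsg.Agent.H65.Ord4620

open Subgroup Cfsg.Agent.H21 Cfsg.Agent.H73.OrdTools

theorem cand4620_11 : ∀ n ∈ Nat.divisors 420, ∀ d ∈ Nat.divisors 10, n % 11 = 1 → 11 ≤ n →
    d ≠ 1 → 11 * d * n ∣ 4620 →
    (n = 12 ∧ d = 5) ∨ (n = 210 ∧ d = 2) := by decide +kernel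

theorem cand4620_7 : ∀ n ∈ Nat.divisors 660, ∀ d ∈ Nat.divisors 6, n % 7 = 1 → 11 ≤ n →
    d ≠ 1 → 7 * d * n ∣ 4620 →
    (n = 15 ∧ d = 2) ∨ (n = 22 ∧ (d = 2 ∨ d = 3 ∨ d = 6)) ∨ (n = 330 ∧ d = 2) := by
  decide +kernel

theorem cand4620_5 : ∀ n ∈ Nat.divisors 924, ∀ d ∈ Nat.divisors 4, n % 5 = 1 → 11 ≤ n →
    d ≠ 1 → 5 * d * n ∣ 4620 →
    (n = 11 ∧ (d = 2 ∨ d = 4)) ∨ (n = 21 ∧ (d = 2 ∨ d = 4)) ∨ (n = 66 ∧ d = 2) ∨
      (n = 231 ∧ (d = 2 ∨ d = 4)) := by decide +kernel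

theorem no_simple_4620 {G : Type*} [Group G] [Finite G] [IsSimpleGroup G]
    (h : Nat.card G = 4620) : False := by
  classical
  have hnp : ¬ (Nat.card G).Prime := by rw [h]; norm_num
  have hG : ¬ IsMulCommutative G := not_comm_of_not_prime hnp
  have : Fact (Nat.Prime 11) := ⟨by norm_num⟩
  have : Fact (Nat.Prime 7) := ⟨by norm_num⟩
  have : Fact (Nat.Prime 5) := ⟨by norm_num⟩
  have h11p : Nat.Prime 11 := by norm_num
  obtain ⟨P11⟩ : Nonempty (Sylow 11 G) := inferInstance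
  obtain ⟨P7⟩ : Nonempty (Sylow 7 G) := inferInstance
  obtain ⟨P5⟩ : Nonempty (Sylow 5 G) := inferInstance
  obtain ⟨hc11, n11, d11, cN11, cC11, hn11, hcN11, hcC11, hnm11, hdm11, hmod11, hle11, hd11,
    hdiv11, hN11, hC11⟩ := pack hG 4620 h 11 420 11 (by norm_num) (by norm_num) h11p
      (by norm_num) P11
  obtain ⟨hc7, n7, d7, cN7, cC7, hn7, hcN7, hcC7, hnm7, hdm7, hmod7, hle7, hd7,
    hdiv7, hN7, hC7⟩ := pack hG 4620 h 7 660 11 (by norm_num) (by norm_num) h11p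
      (by norm_num) P7
  obtain ⟨hc5, n5, d5, cN5, cC5, hn5, hcN5, hcC5, hnm5, hdm5, hmod5, hle5, hd5,
    hdiv5, hN5, hC5⟩ := pack hG 4620 h 5 924 11 (by norm_num) (by norm_num) h11p
      (by norm_num) P5
  have k11 := cand4620_11 n11 hnm11 d11 hdm11 hmod11 hle11 hd11 hdiv11
  have k7 := cand4620_7 n7 hnm7 d7 hdm7 hmod7 hle7 hd7 hdiv7
  have k5 := cand4620_5 n5 hnm5 d5 hdm5 hmod5 hle5 hd5 hdiv5
  clear hnm11 hdm11 hmod11 hle11 hd11 hdiv11 hnm7 hdm7 hmod7 hle7 hd7 hdiv7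
  clear hnm5 hdm5 hmod5 hle5 hd5 hdiv5
  -- F3 instances, in numerical form
  have f3_11_7 : 7 ∣ cC11 → 11 ∣ cN7 := by
    intro hh; rw [hcN7]; exact f3 11 7 P11 hc11 P7 hc7 (by rw [← hcC11]; exact hh)
  have f3_7_11 : 11 ∣ cC7 → 7 ∣ cN11 := by
    intro hh; rw [hcN11]; exact f3 7 11 P7 hc7 P11 hc11 (by rw [← hcC7]; exact hh)
  have f3_7_5 : 5 ∣ cC7 → 7 ∣ cN5 := by
    intro hh; rw [hcN5]; exact f3 7 5 P7 hc7 P5 hc5 (by rw [← hcC7]; exact hh)
  have f3_5_7 : 7 ∣ cC5 → 5 ∣ cN7 := by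
    intro hh; rw [hcN7]; exact f3 5 7 P5 hc5 P7 hc7 (by rw [← hcC5]; exact hh)
  have f3_5_11 : 11 ∣ cC5 → 5 ∣ cN11 := by
    intro hh; rw [hcN11]; exact f3 5 11 P5 hc5 P11 hc11 (by rw [← hcC5]; exact hh)
  -- F4 instances
  have f4_7_11 : cC7 = 154 → cN7 ∣ cN11 := by
    intro hh
    rw [hcN7, hcN11]
    refine (f4 7 11 (by norm_num) P7 hc7 P11 hc11 (by rw [← hcC7, hh]; norm_num) ?_).1
    rw [← hcC7, hh]
    intro d hd hm
    exact (by decide : ∀ d ∈ Nat.divisors 2, d % 11 = 1 → d = 1) d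
      (Nat.mem_divisors.2 ⟨hd, by norm_num⟩) hm
  have f4_5_7 : (cC5 = 35 ∨ cC5 = 105 ∨ cC5 = 210) → cN5 ∣ cN7 ∧ cN7 / cN5 % 5 = 1 := by
    intro hh
    rw [hcN5, hcN7]
    refine f4 5 7 (by norm_num) P5 hc5 P7 hc7
      (by rw [← hcC5]; rcases hh with hh | hh | hh <;> rw [hh] <;> norm_num) ?_
    rw [← hcC5]
    intro d hd hm
    rcases hh with hh | hh | hh
    · rw [hh] at hd
      exact (by decide : ∀ d ∈ Nat.divisors 1, d % 7 = 1 → d = 1) d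
        (Nat.mem_divisors.2 ⟨hd, by norm_num⟩) hm
    · rw [hh] at hd
      exact (by decide : ∀ d ∈ Nat.divisors 3, d % 7 = 1 → d = 1) d
        (Nat.mem_divisors.2 ⟨hd, by norm_num⟩) hm
    · rw [hh] at hd
      exact (by decide : ∀ d ∈ Nat.divisors 6, d % 7 = 1 → d = 1) d
        (Nat.mem_divisors.2 ⟨hd, by norm_num⟩) hm
  -- (1) n₁₁ = 210
  have s11 : n11 = 210 ∧ cN11 = 22 ∧ cC11 = 11 := by
    rcases k11 with ⟨rfl, rfl⟩ | ⟨rfl, rfl⟩
    · exfalso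
      have hcN : cN11 = 385 := by omega
      have h7 : 7 ∣ cC11 := by omega
      have h11 := f3_11_7 h7
      rcases k7 with ⟨rfl, rfl⟩ | ⟨rfl, hd'⟩ | ⟨rfl, rfl⟩
      · have hc : cC7 = 154 := by omega
        have hdv := f4_7_11 hc
        have hcN7' : cN7 = 308 := by omega
        rw [hcN7', hcN] at hdv
        omega
      · omega
      · omega
    · refine ⟨rfl, ?_, ?_⟩ <;> omega
  obtain ⟨rfl, rfl, rfl⟩ := s11
  -- (2) n₇ = 330
  have s7 : n7 = 330 ∧ cN7 = 14 ∧ cC7 = 7 := by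
    rcases k7 with ⟨rfl, rfl⟩ | ⟨rfl, hd'⟩ | ⟨rfl, rfl⟩
    · exfalso
      have h11 : 11 ∣ cC7 := by omega
      have := f3_7_11 h11
      omega
    · exfalso
      have hcN : cN7 = 210 := by omega
      have h5 : 5 ∣ cC7 := by rcases hd' with rfl | rfl | rfl <;> omega
      have h7 := f3_7_5 h5
      rcases k5 with ⟨rfl, hd⟩ | ⟨rfl, hd⟩ | ⟨rfl, rfl⟩ | ⟨rfl, hd⟩
      · have hc : cC5 = 35 ∨ cC5 = 105 ∨ cC5 = 210 := by rcases hd with rfl | rfl <;> omega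
        obtain ⟨hdv, -⟩ := f4_5_7 hc
        have hcN5' : cN5 = 420 := by omega
        rw [hcN5', hcN] at hdv
        omega
      · omega
      · have hc : cC5 = 35 ∨ cC5 = 105 ∨ cC5 = 210 := by omega
        obtain ⟨-, hmd⟩ := f4_5_7 hc
        have hcN5' : cN5 = 70 := by omega
        rw [hcN5', hcN] at hmd
        omega
      · omega
    · refine ⟨rfl, ?_, ?_⟩ <;> omega
  obtain ⟨rfl, rfl, rfl⟩ := s7
  -- (3) n₅ = 231
  have s5 : n5 = 231 := by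
    rcases k5 with ⟨rfl, hd⟩ | ⟨rfl, hd⟩ | ⟨rfl, rfl⟩ | ⟨rfl, hd⟩
    · exfalso
      have h7 : 7 ∣ cC5 := by rcases hd with rfl | rfl <;> omega
      have := f3_5_7 h7
      omega
    · exfalso
      have h11 : 11 ∣ cC5 := by rcases hd with rfl | rfl <;> omega
      have := f3_5_11 h11
      omega
    · exfalso
      have h7 : 7 ∣ cC5 := by omega
      have := f3_5_7 h7
      omega
    · rfl
  subst s5
  -- counting
  have c11 : Nat.card {g : G // orderOf g = 11} = 210 * (11 - 1) := by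
    rw [hn11]; exact card_orderOf_eq_prime 11 P11 hc11
  have c7 : Nat.card {g : G // orderOf g = 7} = 330 * (7 - 1) := by
    rw [hn7]; exact card_orderOf_eq_prime 7 P7 hc7
  have c5 : Nat.card {g : G // orderOf g = 5} = 231 * (5 - 1) := by
    rw [hn5]; exact card_orderOf_eq_prime 5 P5 hc5
  have hsum := list_sum_card_orderOf_le (G := G) [11, 7, 5] (by decide)
  simp only [List.map_cons, List.map_nil, List.sum_cons, List.sum_nil] at hsum
  rw [h, c11, c7, c5] at hsum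
  omega

end Cfsg.Agent.H65.Ord4620
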