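import Mathlib
import Cfsg.Prelude
import Cfsg.Agent.H7.PsDefs
import Cfsg.Agent.H45.SpRS

set_option autoImplicit false
set_option linter.style.haveILetI false
set_option linter.unusedVariables false

/-!
# PS-EX15 (helper7's team project S3664)

`PSp₆(3)` has an element of order 15: the image of `g ⊕ u` with `g` of order 5 in `Sp₄(3)` and
`u` of order 3 in `SL₂(3)`.
-/

namespace Cfsg.Agent.H65.Ps

open Cfsg Cfsg.Agent.H7.Ps Matrix

/-- explicit matrix: `g ⊕ u` -/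
def m15 : Mat :=
  Matrix.fromBlocks !![0, 0, 0; 0, 0, 0; 0, 0, 1] !![2, 0, 0; 1, 2, 0; 0, 0, 1]
    !![1, 1, 0; 0, 1, 0; 0, 0, 0] !![2, 0, 0; 0, 0, 0; 0, 0, 1]

/-- its square -/
def m15p2 : Mat :=
  Matrix.fromBlocks !![2, 2, 0; 1, 0, 0; 0, 0, 1] !![1, 0, 0; 2, 0, 0; 0, 0, 2]
    !![2, 2, 0; 0, 0, 0; 0, 0, 0] !![1, 2, 0; 1, 2, 0; 0, 0, 1]

/-- its cube -/
def m15p3 : Mat :=
  Matrix.fromBlocks !![1, 1, 0; 2, 2, 0; 0, 0, 1] !![2, 1, 0; 0, 0, 0; 0, 0, 0]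
    !![1, 0, 0; 1, 0, 0; 0, 0, 0] !![2, 1, 0; 2, 0, 0; 0, 0, 1]

/-- its fourth power -/
def m15p4 : Mat :=
  Matrix.fromBlocks !![2, 0, 0; 0, 0, 0; 0, 0, 1] !![1, 2, 0; 0, 1, 0; 0, 0, 1]
    !![2, 0, 0; 2, 2, 0; 0, 0, 0] !![0, 0, 0; 0, 0, 0; 0, 0, 1]

/-- its fifth power -/
def m15p5 : Mat :=
  Matrix.fromBlocks !![1, 0, 0; 0, 1, 0; 0, 0, 1] !![0, 0, 0; 0, 0, 0; 0, 0, 2]
    !![0, 0, 0; 0, 0, 0; 0, 0, 0] !![1, 0, 0; 0, 1, 0; 0, 0, 1]

/-- its tenth power -/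
def m15p10 : Mat :=
  Matrix.fromBlocks !![1, 0, 0; 0, 1, 0; 0, 0, 1] !![0, 0, 0; 0, 0, 0; 0, 0, 1]
    !![0, 0, 0; 0, 0, 0; 0, 0, 0] !![1, 0, 0; 0, 1, 0; 0, 0, 1]

theorem m15_mem : m15 ∈ Sp := SymplecticGroup.mem_iff.2 (by decide +kernel)

theorem m15_mul : m15 * m15 = m15p2 := by decide +kernel

theorem m15p2_mul : m15p2 * m15 = m15p3 := by decide +kernel

theorem m15p2_sq : m15p2 * m15p2 = m15p4 := by decide +kernel

theorem m15p4_mul : m15p4 * m15 = m15p5 := by decide +kernel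

theorem m15p5_sq : m15p5 * m15p5 = m15p10 := by decide +kernel

theorem m15p10_mul : m15p10 * m15p5 = 1 := by decide +kernel

theorem m15p3_ne_one : m15p3 ≠ 1 := by decide +kernel

theorem m15p5_ne_one : m15p5 ≠ 1 := by decide +kernel

theorem m15_pow2 : m15 ^ 2 = m15p2 := by rw [pow_two]; exact m15_mul

theorem m15_pow3 : m15 ^ 3 = m15p3 := by
  have h := pow_succ m15 2
  rw [m15_pow2, m15p2_mul] at h
  exact h

theorem m15_pow4 : m15 ^ 4 = m15p4 := by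
  have h := pow_mul m15 2 2
  rw [m15_pow2, pow_two, m15p2_sq] at h
  exact h

theorem m15_pow5 : m15 ^ 5 = m15p5 := by
  have h := pow_succ m15 4
  rw [m15_pow4, m15p4_mul] at h
  exact h

theorem m15_pow15 : m15 ^ 15 = 1 := by
  have h := pow_mul m15 5 3
  have h3 : m15p5 ^ 3 = 1 := by
    have h' := pow_succ m15p5 2
    rw [pow_two, m15p5_sq, m15p10_mul] at h'
    exact h'
  rw [m15_pow5, h3] at h
  exact h

/-- the element of `Sp₆(3)` -/
def a15 : Matrix.symplecticGroup (Fin 3) (ZMod 3) := ⟨m15, m15_mem⟩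

theorem a15_pow_val (k : ℕ) :
    ((a15 ^ k : Matrix.symplecticGroup (Fin 3) (ZMod 3)) : Mat) = m15 ^ k :=
  SubmonoidClass.coe_pow a15 k

theorem a15_order : orderOf a15 = 15 := by
  apply orderOf_eq_of_pow_and_pow_div_prime (by norm_num)
  · apply Subtype.ext
    rw [a15_pow_val, m15_pow15]
    rfl
  · intro p hp hd
    have hp15 : p ∣ 3 * 5 := hd
    rcases (Nat.Prime.dvd_mul hp).mp hp15 with h | h
    · have hp3 : p = 3 := (Nat.prime_dvd_prime_iff_eq hp (by norm_num)).mp h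
      subst hp3
      intro h1
      apply m15p5_ne_one
      have := congrArg Subtype.val h1
      rw [a15_pow_val] at this
      rw [← m15_pow5]
      exact this
    · have hp5 : p = 5 := (Nat.prime_dvd_prime_iff_eq hp (by norm_num)).mp h
      subst hp5
      intro h1
      apply m15p3_ne_one
      have := congrArg Subtype.val h1
      rw [a15_pow_val] at this
      rw [← m15_pow3]
      exact this

theorem ex15 : StEx15 :=
  ⟨(QuotientGroup.mk a15 : L),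
    Cfsg.Agent.H45.psp_orderOf_mk_odd 3 15 (fun _ => by decide) a15 a15_order⟩

end Cfsg.Agent.H65.Ps

example : Cfsg.Agent.H7.Ps.StEx15 := Cfsg.Agent.H65.Ps.ex15
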