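import Mathlib
import Cfsg.Agent.H7.RUDefs

/-!
# RU-ARA (piece for helper7, S2358): arithmetic for the torus of order `(q - 1) / 2`
-/

set_option autoImplicit false

namespace Cfsg.Agent.H65.RU

open Cfsg.Agent.H7.RU

/-- `3 ^ (2 m + 1) = 24 a + 3`. -/
theorem pow_form (m : ℕ) : ∃ a : ℕ, 3 ^ (2 * m + 1) = 24 * a + 3 := by
  have h : ∃ a : ℕ, 9 ^ m = 8 * a + 1 := by
    induction m with
    | zero => exact ⟨0, by norm_num⟩
    | succ n ih =>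
      obtain ⟨a, ha⟩ := ih
      exact ⟨9 * a + 1, by rw [pow_succ, ha]; ring⟩
  obtain ⟨a, ha⟩ := h
  refine ⟨a, ?_⟩
  have h1 : 3 ^ (2 * m + 1) = 9 ^ m * 3 := by
    rw [pow_succ, pow_mul]
    norm_num
  rw [h1, ha]
  ring

theorem arA : StArA := by
  intro m hm
  obtain ⟨a, ha⟩ := pow_form m
  rw [ha]
  have hk : (24 * a + 3 - 1) / 2 = 12 * a + 1 := by omega
  rw [hk]
  have hq1 : 24 * a + 3 - 1 = 2 * (12 * a + 1) := by omega
  rw [hq1]
  have hkpos : 0 < 12 * a + 1 := by omega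
  have e1 : (24 * a + 3) ^ 3 * (2 * (12 * a + 1)) * ((24 * a + 3) ^ 3 + 1) / (12 * a + 1) =
      2 * (24 * a + 3) ^ 3 * ((24 * a + 3) ^ 3 + 1) := by
    have h1 : (24 * a + 3) ^ 3 * (2 * (12 * a + 1)) * ((24 * a + 3) ^ 3 + 1) =
        (2 * (24 * a + 3) ^ 3 * ((24 * a + 3) ^ 3 + 1)) * (12 * a + 1) := by ring
    rw [h1, Nat.mul_div_cancel _ hkpos]
  have e2 : 2 * (2 * (12 * a + 1)) / (12 * a + 1) = 2 * 2 := by
    have h1 : 2 * (2 * (12 * a + 1)) = (2 * 2) * (12 * a + 1) := by ring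
    rw [h1, Nat.mul_div_cancel _ hkpos]
  rw [e1, e2]
  have c2 : Nat.Coprime (12 * a + 1) 2 := by
    apply Nat.isCoprime_iff_coprime.mp
    exact ⟨1, -(6 * (a : ℤ)), by push_cast; ring⟩
  have cq : Nat.Coprime (12 * a + 1) (24 * a + 3) := by
    apply Nat.isCoprime_iff_coprime.mp
    exact ⟨-2, 1, by push_cast; ring⟩
  have cq3 : Nat.Coprime (12 * a + 1) ((24 * a + 3) ^ 3 + 1) := by
    apply Nat.isCoprime_iff_coprime.mp
    exact ⟨6 * (a : ℤ) * (8 * (12 * (a : ℤ) + 1) ^ 2 + 12 * (12 * (a : ℤ) + 1) + 6) + 1,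
      -(6 * (a : ℤ)), by push_cast; ring⟩
  exact ⟨Nat.Coprime.mul_right (Nat.Coprime.mul_right c2 (Nat.Coprime.pow_right 3 cq)) cq3,
    Nat.Coprime.mul_right c2 c2⟩

example : StArA := arA

end Cfsg.Agent.H65.RU
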