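import Mathlib
import Cfsg.Agent.H7.RUDefs
import Cfsg.Agent.H65.RUArA

/-!
# RU-ARB (piece for helper7, S2358): arithmetic for the torus of order `(q + 1) / 4`
-/

set_option autoImplicit false

namespace Cfsg.Agent.H65.RU

open Cfsg.Agent.H7.RU

theorem arB : StArB := by
  intro m hm
  obtain ⟨a, ha⟩ := pow_form m
  rw [ha]
  have hk : (24 * a + 3 + 1) / 4 = 6 * a + 1 := by omega
  rw [hk]
  have hq1 : 24 * a + 3 - 1 = 24 * a + 2 := by omega
  rw [hq1]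
  have hkpos : 0 < 6 * a + 1 := by omega
  have e1 : (24 * a + 3) ^ 3 * (24 * a + 2) * ((24 * a + 3) ^ 3 + 1) / (6 * a + 1) =
      2 * 2 * (24 * a + 3) ^ 3 * (24 * a + 2) * (576 * a ^ 2 + 120 * a + 7) := by
    have h1 : (24 * a + 3) ^ 3 * (24 * a + 2) * ((24 * a + 3) ^ 3 + 1) =
        (2 * 2 * (24 * a + 3) ^ 3 * (24 * a + 2) * (576 * a ^ 2 + 120 * a + 7)) *
          (6 * a + 1) := by ring
    rw [h1, Nat.mul_div_cancel _ hkpos]
  have e2 : 6 * (24 * a + 3 + 1) / (6 * a + 1) = 2 * 2 * 2 * 3 := by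
    have h1 : 6 * (24 * a + 3 + 1) = (2 * 2 * 2 * 3) * (6 * a + 1) := by ring
    rw [h1, Nat.mul_div_cancel _ hkpos]
  rw [e1, e2]
  have c2 : Nat.Coprime (6 * a + 1) 2 := by
    apply Nat.isCoprime_iff_coprime.mp
    exact ⟨1, -(3 * (a : ℤ)), by push_cast; ring⟩
  have c3 : Nat.Coprime (6 * a + 1) 3 := by
    apply Nat.isCoprime_iff_coprime.mp
    exact ⟨1, -(2 * (a : ℤ)), by push_cast; ring⟩
  have cq : Nat.Coprime (6 * a + 1) (24 * a + 3) := by
    apply Nat.isCoprime_iff_coprime.mp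
    exact ⟨4, -1, by push_cast; ring⟩
  have cq1 : Nat.Coprime (6 * a + 1) (24 * a + 2) := by
    apply Nat.isCoprime_iff_coprime.mp
    exact ⟨1 - 12 * (a : ℤ), 3 * (a : ℤ), by push_cast; ring⟩
  have cR : Nat.Coprime (6 * a + 1) (576 * a ^ 2 + 120 * a + 7) := by
    apply Nat.isCoprime_iff_coprime.mp
    exact ⟨2 * (a : ℤ) * (16 * (6 * (a : ℤ) + 1) - 12) + 1, -(2 * (a : ℤ)),
      by push_cast; ring⟩
  exact ⟨Nat.Coprime.mul_right (Nat.Coprime.mul_right (Nat.Coprime.mul_right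
      (Nat.Coprime.mul_right c2 c2) (Nat.Coprime.pow_right 3 cq)) cq1) cR,
    Nat.Coprime.mul_right (Nat.Coprime.mul_right (Nat.Coprime.mul_right c2 c2) c2) c3⟩

example : StArB := arB

end Cfsg.Agent.H65.RU
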