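import Mathlib
import Cfsg.Agent.H13.SaDefs

/-!
# S4025-AUT (helper65, for helper13)

A field with `p ^ n` elements has exactly `n` ring automorphisms.
-/

set_option autoImplicit false
set_option linter.style.haveILetI false

namespace Cfsg.Agent.H65.Sa

open Cfsg Cfsg.Agent.H13.Sa

/-- Ring automorphisms of an algebra over `ZMod p` are the same as algebra automorphisms. -/
noncomputable def ringAutEquivAlgAut (p : ℕ) (F : Type*) [Field F] [Algebra (ZMod p) F] :
    (F ≃+* F) ≃ (F ≃ₐ[ZMod p] F) where
  toFun f := AlgEquiv.ofRingEquiv (f := f) (fun x =>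
    RingHom.congr_fun (Subsingleton.elim ((f : F →+* F).comp (algebraMap (ZMod p) F))
      (algebraMap (ZMod p) F)) x)
  invFun f := f.toRingEquiv
  left_inv f := by
    ext x
    rfl
  right_inv f := by
    ext x
    rfl

theorem aut : AutStmt := by
  intro F _ _ p n hp hcard
  obtain ⟨q, hq⟩ := CharP.exists F
  haveI : CharP F q := hq
  obtain ⟨k, hqp, hk⟩ := FiniteField.card F q
  have hn : n ≠ 0 := by
    rintro rfl
    rw [pow_zero] at hcard
    have : 1 < Nat.card F := Finite.one_lt_card
    omega
  have hpq : p = q := by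
    rw [Nat.card_eq_fintype_card, hk] at hcard
    have hdvd : p ∣ q ^ (k : ℕ) := by rw [hcard]; exact dvd_pow_self p hn
    exact (Nat.prime_dvd_prime_iff_eq hp.out hqp).mp (hp.out.dvd_of_dvd_pow hdvd)
  subst hpq
  letI : Algebra (ZMod p) F := ZMod.algebra F p
  have hfin : Module.finrank (ZMod p) F = n := by
    have h1 := Module.natCard_eq_pow_finrank (K := ZMod p) (V := F)
    rw [Nat.card_zmod, hcard] at h1
    exact (Nat.pow_right_injective hp.out.two_le h1).symm
  have hgal : Nat.card (F ≃ₐ[ZMod p] F) = Module.finrank (ZMod p) F :=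
    IsGalois.card_aut_eq_finrank _ _
  rw [← hfin, ← hgal]
  exact Nat.card_congr (ringAutEquivAlgAut p F)

example : AutStmt := aut

end Cfsg.Agent.H65.Sa
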