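import Mathlib
import Cfsg.Agent.H13.SaDefs

/-!
# S4025-ORB (helper65, for helper13)

If `N` is transitive on the subgroups of `Q` of order `c` and the normal subgroup `M` normalizes
each subgroup of `Q`, the number of subgroups of `Q` of order `c` divides `|N : M|`.
-/

set_option autoImplicit false
set_option linter.style.haveILetI false

namespace Cfsg.Agent.H65.Sa

open Cfsg Cfsg.Agent.H13.Sa

universe u

theorem map_conj_one {N : Type*} [Group N] (A : Subgroup N) :
    A.map (MulAut.conj (1 : N)).toMonoidHom = A := by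
  ext x
  simp

theorem map_conj_mul {N : Type*} [Group N] (A : Subgroup N) (a b : N) :
    A.map (MulAut.conj (a * b)).toMonoidHom =
      (A.map (MulAut.conj b).toMonoidHom).map (MulAut.conj a).toMonoidHom := by
  rw [Subgroup.map_map]
  congr 1
  ext x
  simp [mul_assoc]

theorem map_conj_le {N : Type*} [Group N] (Q : Subgroup N) [Q.Normal] (A : Subgroup N)
    (hA : A ≤ Q) (g : N) : A.map (MulAut.conj g).toMonoidHom ≤ Q := by
  rintro x ⟨y, hy, rfl⟩
  exact Subgroup.Normal.conj_mem inferInstance y (hA hy) g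

theorem card_map_conj {N : Type*} [Group N] (A : Subgroup N) (g : N) :
    Nat.card (A.map (MulAut.conj g).toMonoidHom) = Nat.card A :=
  Subgroup.card_map_of_injective (MulAut.conj g).injective

theorem orb : OrbStmt.{u} := by
  intro N _ _ Q M _ _ c htr hM hne
  obtain ⟨A0, hA0Q, hA0c⟩ := hne
  let S := {A : Subgroup N // A ≤ Q ∧ Nat.card A = c}
  letI act : MulAction N S :=
    { smul := fun g A => ⟨A.1.map (MulAut.conj g).toMonoidHom, map_conj_le Q A.1 A.2.1 g,
        (card_map_conj A.1 g).trans A.2.2⟩
      one_smul := fun A => Subtype.ext (map_conj_one A.1)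
      mul_smul := fun a b A => Subtype.ext (map_conj_mul A.1 a b) }
  have hsmul : ∀ (g : N) (A : S), ((g • A : S) : Subgroup N) =
      A.1.map (MulAut.conj g).toMonoidHom := fun _ _ => rfl
  haveI : MulAction.IsPretransitive N S := by
    refine ⟨fun A B => ?_⟩
    obtain ⟨g, hg⟩ := htr A.1 B.1 A.2.1 B.2.1 A.2.2 B.2.2
    exact ⟨g, Subtype.ext (by rw [hsmul, hg])⟩
  have hidx := MulAction.index_stabilizer_of_transitive N (⟨A0, hA0Q, hA0c⟩ : S)
  have hle : M ≤ MulAction.stabilizer N (⟨A0, hA0Q, hA0c⟩ : S) := by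
    intro g hg
    rw [MulAction.mem_stabilizer_iff]
    exact Subtype.ext (by rw [hsmul]; exact hM g hg A0 hA0Q)
  have := Subgroup.index_dvd_of_le hle
  rw [hidx] at this
  exact this

example : OrbStmt.{u} := orb

end Cfsg.Agent.H65.Sa
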