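import Mathlib
import Cfsg.Agent.H13.SaDefs
import Cfsg.Agent.H12.SaP5

/-!
# S4025-P2 (helper65, for helper13)

A subgroup of `AΓL(1,8)` of order divisible by `56` is `AΓL(1,8)` or `AGL(1,8)`.
-/

set_option autoImplicit false
set_option linter.style.haveILetI false

namespace Cfsg.Agent.H65.Sa

open Cfsg Cfsg.Agent.H13.Sa

universe u

theorem semi_unique {F : Type} [Field F] {a a' : Fˣ} {b b' : F} {φ φ' : F ≃+* F}
    (h : ∀ x, (a : F) * φ x + b = (a' : F) * φ' x + b') : φ = φ' := by
  have h0 := h 0
  simp only [map_zero, mul_zero, zero_add] at h0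
  have h1 := h 1
  simp only [map_one, mul_one] at h1
  rw [h0] at h1
  have ha : (a : F) = a' := add_right_cancel h1
  ext x
  have hx := h x
  rw [h0, ha] at hx
  have := add_right_cancel hx
  exact mul_left_cancel₀ (Units.ne_zero a') this

theorem semi_mem {F : Type} [Field F] (σ : semiaffineGroup F) :
    ∃ φ : F ≃+* F, ∃ (a : Fˣ) (b : F), ∀ x, (σ : Equiv.Perm F) x = (a : F) * φ x + b := by
  obtain ⟨a, b, φ, h⟩ := σ.2
  exact ⟨φ, a, b, h⟩

/-- The field-automorphism part of a semi-affine map. -/
noncomputable def sigFun {F : Type} [Field F] (σ : semiaffineGroup F) : F ≃+* F :=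
  Classical.choose (semi_mem σ)

theorem sigFun_spec {F : Type} [Field F] (σ : semiaffineGroup F) :
    ∃ (a : Fˣ) (b : F), ∀ x, (σ : Equiv.Perm F) x = (a : F) * sigFun σ x + b :=
  Classical.choose_spec (semi_mem σ)

theorem sigFun_eq {F : Type} [Field F] (σ : semiaffineGroup F) (a : Fˣ) (b : F) (φ : F ≃+* F)
    (h : ∀ x, (σ : Equiv.Perm F) x = (a : F) * φ x + b) : sigFun σ = φ := by
  obtain ⟨a', b', h'⟩ := sigFun_spec σ
  exact semi_unique (fun x => by rw [← h' x, h x])

/-- The field-automorphism part as a group homomorphism. -/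
noncomputable def sigHom (F : Type) [Field F] : semiaffineGroup F →* RingAut F where
  toFun := sigFun
  map_one' := sigFun_eq 1 1 0 1 (fun x => by simp)
  map_mul' σ τ := by
    obtain ⟨a, b, hσ⟩ := sigFun_spec σ
    obtain ⟨c, d, hτ⟩ := sigFun_spec τ
    refine sigFun_eq (σ * τ) (a * Units.map ((sigFun σ : F ≃+* F) : F →* F) c)
      ((a : F) * sigFun σ d + b) (sigFun σ * sigFun τ) (fun x => ?_)
    simp only [Subgroup.coe_mul, Equiv.Perm.coe_mul, Function.comp_apply, hτ, hσ, Units.val_mul,
      Units.coe_map, MonoidHom.coe_coe, RingAut.mul_apply, map_add, map_mul, mul_add, mul_assoc,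
      add_assoc]

theorem card_affine_le {F : Type} [Field F] [Fintype F] :
    Nat.card (affineGroup F) ≤ (Nat.card F - 1) * Nat.card F := by
  have h : ∀ σ : affineGroup F, ∃ a : Fˣ, ∃ b : F,
      ∀ x, (σ : Equiv.Perm F) x = (a : F) * x + b := fun σ => σ.2
  choose a b hσ using h
  have hinj : Function.Injective (fun σ : affineGroup F => (a σ, b σ)) := by
    intro σ τ hστ
    simp only [Prod.mk.injEq] at hστ
    obtain ⟨h1, h2⟩ := hστ
    apply Subtype.ext
    ext x
    rw [hσ σ x, hσ τ x, h1, h2]
  have hle := Nat.card_le_card_of_injective _ hinj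
  rw [Nat.card_prod, Nat.card_units] at hle
  exact hle

theorem p2 (h : AutStmt) : P2Stmt.{u} := by
  intro F _ _ hF X _ _ f hf hdvd
  haveI : Fact (Nat.Prime 2) := ⟨Nat.prime_two⟩
  have haut : Nat.card (F ≃+* F) = 3 := h 2 3 (by rw [hF]; norm_num)
  have hle := Cfsg.Agent.H12.Sa.card_semiaffine_le (F := F)
  rw [hF, haut] at hle
  have hX56 : 56 ≤ Nat.card X := Nat.le_of_dvd Nat.card_pos hdvd
  by_cases h168 : 168 ≤ Nat.card X
  · left
    exact ⟨MulEquiv.ofBijective f (hf.bijective_of_nat_card_le (by omega))⟩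
  · right
    push Not at h168
    have hcop : Nat.gcd (Nat.card X) 3 = 1 := by
      obtain ⟨k, hk⟩ := hdvd
      have hk12 : k = 1 ∨ k = 2 := by omega
      rcases hk12 with rfl | rfl <;> rw [hk] <;> rfl
    have htriv : ∀ x : X, sigHom F (f x) = 1 := by
      intro x
      have h1 : (sigHom F (f x)) ^ Nat.card X = 1 := by
        rw [← map_pow, ← map_pow, pow_card_eq_one', map_one, map_one]
      have h2 : (sigHom F (f x)) ^ 3 = 1 := by
        rw [← haut]
        exact pow_card_eq_one'
      have d1 := orderOf_dvd_of_pow_eq_one h1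
      have d2 := orderOf_dvd_of_pow_eq_one h2
      have d3 := Nat.dvd_gcd d1 d2
      rw [hcop] at d3
      exact orderOf_eq_one_iff.mp (Nat.dvd_one.mp d3)
    have hmem : ∀ x : X, ((semiaffineGroup F).subtype.comp f) x ∈ affineGroup F := by
      intro x
      obtain ⟨a, b, hab⟩ := sigFun_spec (f x)
      have h1 : sigFun (f x) = 1 := htriv x
      refine ⟨a, b, fun y => ?_⟩
      have := hab y
      rw [h1] at this
      exact this
    let f' : X →* affineGroup F :=
      MonoidHom.codRestrict ((semiaffineGroup F).subtype.comp f) (affineGroup F) hmem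
    have hf' : Function.Injective f' := by
      intro x y hxy
      apply hf
      apply Subtype.ext
      exact congrArg (fun z : affineGroup F => (z : Equiv.Perm F)) hxy
    have hA : Nat.card (affineGroup F) ≤ 56 := by
      have := card_affine_le (F := F)
      rw [hF] at this
      exact this
    exact ⟨MulEquiv.ofBijective f' (hf'.bijective_of_nat_card_le (by omega))⟩

example (h : AutStmt) : P2Stmt.{u} := p2 h

end Cfsg.Agent.H65.Sa
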