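import Mathlib
import Cfsg.Agent.S0985
import Cfsg.Agent.H21.SimpleTools

/-!
# Sylow-intersection kill (helper65)

If the number of Sylow `p`-subgroups of `G` is not `≡ 1 mod p²`, two Sylow `p`-subgroups
`P ≠ R` meet in a subgroup `D` of index `p` in both (S0985), so `D` is normal in both, and
`N(D) ⊇ ⟨P, R⟩` has order at least `p · |P|`: its index `k` divides `m0 = |G|/|P|` and
`p * k ≤ m0`.  In a non-abelian simple group `2|G| ∣ k!`.
-/

set_option autoImplicit false

namespace Cfsg.Agent.H65.SylInter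

open Subgroup

/-- If `n_p ≢ 1 mod p²` then there is a subgroup `D` of order `p^(a-1)` whose normalizer has
index `k` with `k ∣ m0` and `p * k ≤ m0`, where `|G| = p^a * m0`, `p ∤ m0`. -/
theorem exists_large_normalizer {G : Type*} [Group G] [Finite G] (p a m0 : ℕ) [Fact p.Prime]
    (ha : 1 ≤ a) (hcard : Nat.card G = p ^ a * m0) (hm0 : ¬ p ∣ m0)
    (hn : ¬ Nat.card (Sylow p G) ≡ 1 [MOD p ^ 2]) :
    ∃ D : Subgroup G, Nat.card D = p ^ (a - 1) ∧ (normalizer (D : Set G)).index ∣ m0 ∧
      p * (normalizer (D : Set G)).index ≤ m0 := by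
  have hp : p.Prime := Fact.out
  have hm0pos : 0 < m0 := Nat.pos_of_ne_zero (by rintro rfl; exact hm0 (dvd_zero p))
  have hpa : 0 < p ^ a := pow_pos hp.pos a
  obtain ⟨P, R, hPR, hidx⟩ := Cfsg.Agent.S0985.result (G := G) p 2 hn
  have hPc : Nat.card (P : Subgroup G) = p ^ a := Cfsg.Agent.H21.sylow_card_of_card_eq hcard hm0 P
  have hRc : Nat.card (R : Subgroup G) = p ^ a := Cfsg.Agent.H21.sylow_card_of_card_eq hcard hm0 R
  have hPi : (P : Subgroup G).index = m0 := by
    have := (P : Subgroup G).card_mul_index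
    rw [hPc, hcard] at this
    exact Nat.eq_of_mul_eq_mul_left hpa this
  have hRi : (R : Subgroup G).index = m0 := by
    have := (R : Subgroup G).card_mul_index
    rw [hRc, hcard] at this
    exact Nat.eq_of_mul_eq_mul_left hpa this
  -- the index is exactly `p`
  have hidx' : ((R : Subgroup G).subgroupOf (P : Subgroup G)).index = p := by
    have hdvd : ((R : Subgroup G).subgroupOf (P : Subgroup G)).index ∣ p ^ a := by
      rw [← hPc]; exact Subgroup.index_dvd_card _
    obtain ⟨j, hj, hje⟩ := (Nat.dvd_prime_pow hp).1 hdvd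
    rw [hje] at hidx ⊢
    have hj1 : j ≤ 1 := by
      by_contra hcon
      push Not at hcon
      have : p ^ 2 ≤ p ^ j := Nat.pow_le_pow_right hp.pos hcon
      have h2 : p < p ^ 2 := by
        have := hp.one_lt
        nlinarith
      simp at hidx
      omega
    interval_cases j
    · exfalso
      rw [pow_zero] at hje
      have htop : (R : Subgroup G).subgroupOf (P : Subgroup G) = ⊤ := Subgroup.index_eq_one.1 hje
      have hle : (P : Subgroup G) ≤ (R : Subgroup G) := Subgroup.subgroupOf_eq_top.1 htop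
      have heq : (P : Subgroup G) = (R : Subgroup G) :=
        Subgroup.eq_of_le_of_card_ge hle (by rw [hPc, hRc])
      exact hPR (Sylow.ext heq)
    · simp
  set D : Subgroup G := (R : Subgroup G) ⊓ (P : Subgroup G) with hD
  have hDP : D ≤ (P : Subgroup G) := inf_le_right
  have hDR : D ≤ (R : Subgroup G) := inf_le_left
  have hDrelP : D.relIndex (P : Subgroup G) = p := by
    rw [hD, Subgroup.inf_relIndex_right]; exact hidx'
  have hDi : D.index = p * m0 := by
    rw [← Subgroup.relIndex_mul_index hDP, hDrelP, hPi]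
  have hDrelR : D.relIndex (R : Subgroup G) = p := by
    have := Subgroup.relIndex_mul_index hDR
    rw [hRi, hDi] at this
    exact Nat.eq_of_mul_eq_mul_right hm0pos this
  have hDc : Nat.card D = p ^ (a - 1) := by
    have h1 := D.card_mul_index
    rw [hDi, hcard] at h1
    obtain ⟨b, rfl⟩ : ∃ b, a = b + 1 := ⟨a - 1, by omega⟩
    simp only [Nat.add_sub_cancel]
    have h2 : Nat.card D * (p * m0) = p ^ b * (p * m0) := by rw [h1]; ring
    exact Nat.eq_of_mul_eq_mul_right (Nat.mul_pos hp.pos hm0pos) h2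
  have hminP : (Nat.card (P : Subgroup G)).minFac = p := by
    rw [hPc]; exact hp.pow_minFac (by omega)
  have hminR : (Nat.card (R : Subgroup G)).minFac = p := by
    rw [hRc]; exact hp.pow_minFac (by omega)
  have hPN : (P : Subgroup G) ≤ normalizer (D : Set G) := by
    rw [← Subgroup.normal_subgroupOf_iff_le_normalizer hDP]
    apply Subgroup.normal_of_index_eq_minFac_card
    rw [hminP]; exact hDrelP
  have hRN : (R : Subgroup G) ≤ normalizer (D : Set G) := by
    rw [← Subgroup.normal_subgroupOf_iff_le_normalizer hDR]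
    apply Subgroup.normal_of_index_eq_minFac_card
    rw [hminR]; exact hDrelR
  have hDN : D ≤ normalizer (D : Set G) := Subgroup.le_normalizer
  refine ⟨D, hDc, ?_, ?_⟩
  · rw [← hPi]; exact Subgroup.index_dvd_of_le hPN
  · set N : Subgroup G := normalizer (D : Set G) with hN
    have hk0 : 0 < N.index := Nat.pos_of_ne_zero Subgroup.index_ne_zero_of_finite
    have e1 := Subgroup.relIndex_mul_index hPN
    have e2 := Subgroup.relIndex_mul_index hRN
    have e3 := Subgroup.relIndex_mul_index hDN
    rw [hPi] at e1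
    rw [hRi] at e2
    rw [hDi] at e3
    have e4 : D.relIndex N ≤ (R : Subgroup G).relIndex N * (P : Subgroup G).relIndex N :=
      Subgroup.relIndex_inf_le
    have hxy : (R : Subgroup G).relIndex N = (P : Subgroup G).relIndex N :=
      Nat.eq_of_mul_eq_mul_right hk0 (e2.trans e1.symm)
    have hz : D.relIndex N = p * (P : Subgroup G).relIndex N := by
      apply Nat.eq_of_mul_eq_mul_right hk0
      rw [e3, mul_assoc, e1]
    have hx0 : 0 < (P : Subgroup G).relIndex N := by
      rcases Nat.eq_zero_or_pos ((P : Subgroup G).relIndex N) with h | h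
      · rw [h, zero_mul] at e1; omega
      · exact h
    rw [hxy, hz] at e4
    have hpx : p ≤ (P : Subgroup G).relIndex N := Nat.le_of_mul_le_mul_right e4 hx0
    calc p * N.index ≤ (P : Subgroup G).relIndex N * N.index := Nat.mul_le_mul_right _ hpx
      _ = m0 := e1

/-- **Sylow-intersection kill**: no simple group of order `p^a * m0` (`a ≥ 2`, `p ∤ m0`) if
no divisor `d ≠ 1` of `m0` with `d ≡ 1 mod p` is `≡ 1 mod p²`, and `2|G| ∤ k!` for the
divisors `k` of `m0` with `p * k ≤ m0`. -/
theorem no_simple_of_sylow_inter {G : Type*} [Group G] [Finite G] [IsSimpleGroup G]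
    (p a m0 : ℕ) [Fact p.Prime] (ha : 2 ≤ a) (hcard : Nat.card G = p ^ a * m0)
    (hm0 : ¬ p ∣ m0)
    (hd : ∀ d, d ∣ m0 → d % p = 1 → d ≠ 1 → d % p ^ 2 ≠ 1)
    (hfact : ∀ k, k ∣ m0 → p * k ≤ m0 → ¬ (2 * (p ^ a * m0) ∣ k.factorial)) : False := by
  have hp : p.Prime := Fact.out
  have hm0pos : 0 < m0 := Nat.pos_of_ne_zero (by rintro rfl; exact hm0 (dvd_zero p))
  have hG : ¬ IsMulCommutative G := by
    apply Cfsg.Agent.H21.not_comm_of_not_prime
    rw [hcard]
    intro hpr
    obtain ⟨b, rfl⟩ : ∃ b, a = b + 2 := ⟨a - 2, by omega⟩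
    have hdv : p * p ∣ p ^ (b + 2) * m0 := ⟨p ^ b * m0, by ring⟩
    have h1 := (Nat.dvd_prime hpr).1 (dvd_trans (dvd_mul_right p p) hdv)
    rcases h1 with h1 | h1
    · exact hp.one_lt.ne' h1
    · have h2 := (Nat.dvd_prime hpr).1 hdv
      rw [← h1] at h2
      have := hp.one_lt
      rcases h2 with h2 | h2
      · nlinarith
      · nlinarith
  obtain ⟨P⟩ : Nonempty (Sylow p G) := inferInstance
  obtain ⟨-, -, -, hnd, hnmod, hn1, -, -, -⟩ :=
    Cfsg.Agent.H21.simple_sylow_facts hG hcard hm0 (by omega) P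
  have hn : ¬ Nat.card (Sylow p G) ≡ 1 [MOD p ^ 2] := by
    intro h
    have h1 : 1 < p ^ 2 := Nat.one_lt_pow (by norm_num) hp.one_lt
    apply hd _ hnd hnmod hn1
    unfold Nat.ModEq at h
    rw [h, Nat.mod_eq_of_lt h1]
  obtain ⟨D, hDc, hk1, hk2⟩ := exists_large_normalizer p a m0 (by omega) hcard hm0 hn
  have hNtop : normalizer (D : Set G) ≠ ⊤ := by
    intro h
    have hnorm : D.Normal := Subgroup.normalizer_eq_top_iff.1 h
    have h1 : 1 < p ^ (a - 1) := Nat.one_lt_pow (by omega) hp.one_lt
    rcases hnorm.eq_bot_or_eq_top with h | h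
    · rw [h, Subgroup.card_bot] at hDc; omega
    · rw [h, Subgroup.card_top, hcard] at hDc
      obtain ⟨b, rfl⟩ : ∃ b, a = b + 1 := ⟨a - 1, by omega⟩
      simp only [Nat.add_sub_cancel] at hDc
      have h2 : p ^ b * (p * m0) = p ^ b * 1 := by
        have e : p ^ b * (p * m0) = p ^ (b + 1) * m0 := by ring
        rw [e, hDc, mul_one]
      have h3 := Nat.eq_of_mul_eq_mul_left (pow_pos hp.pos b) h2
      have := hp.one_lt
      nlinarith
  have := Cfsg.Agent.H21.two_mul_card_dvd_factorial_index hG _ hNtop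
  rw [hcard] at this
  exact hfact _ hk1 hk2 this

end Cfsg.Agent.H65.SylInter
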