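import Mathlib
import Cfsg.Agent.H65.SylInter

/-!
# No simple groups of order 4500, 5292, 6000 (helper65)

Applications of the Sylow-intersection kill `H65.SylInter.no_simple_of_sylow_inter`.
-/

set_option autoImplicit false

namespace Cfsg.Agent.H65.SylInterKills

/-- No simple group of order `6000 = 5³ · 48`. -/
theorem no_simple_6000 {G : Type*} [Group G] [Finite G] [IsSimpleGroup G]
    (h : Nat.card G = 6000) : False := by
  have : Fact (Nat.Prime 5) := ⟨by norm_num⟩
  refine Cfsg.Agent.H65.SylInter.no_simple_of_sylow_inter (G := G) 5 3 48 (by norm_num)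
    (by rw [h]; norm_num) (by norm_num) ?_ ?_
  · intro d hd h1 h2
    have hle : d ≤ 48 := Nat.le_of_dvd (by norm_num) hd
    interval_cases d <;> simp_all (config := { decide := true })
  · intro k hk hle
    have hk9 : k ≤ 9 := by omega
    interval_cases k <;> simp_all (config := { decide := true })

/-- No simple group of order `4500 = 5³ · 36`. -/
theorem no_simple_4500 {G : Type*} [Group G] [Finite G] [IsSimpleGroup G]
    (h : Nat.card G = 4500) : False := by
  have : Fact (Nat.Prime 5) := ⟨by norm_num⟩
  refine Cfsg.Agent.H65.SylInter.no_simple_of_sylow_inter (G := G) 5 3 36 (by norm_num)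
    (by rw [h]; norm_num) (by norm_num) ?_ ?_
  · intro d hd h1 h2
    have hle : d ≤ 36 := Nat.le_of_dvd (by norm_num) hd
    interval_cases d <;> simp_all (config := { decide := true })
  · intro k hk hle
    have hk9 : k ≤ 7 := by omega
    interval_cases k <;> simp_all (config := { decide := true })

/-- No simple group of order `5292 = 7² · 108`. -/
theorem no_simple_5292 {G : Type*} [Group G] [Finite G] [IsSimpleGroup G]
    (h : Nat.card G = 5292) : False := by
  have : Fact (Nat.Prime 7) := ⟨by norm_num⟩
  refine Cfsg.Agent.H65.SylInter.no_simple_of_sylow_inter (G := G) 7 2 108 (by norm_num)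
    (by rw [h]; norm_num) (by norm_num) ?_ ?_
  · intro d hd h1 h2
    have hle : d ≤ 108 := Nat.le_of_dvd (by norm_num) hd
    interval_cases d <;> simp_all (config := { decide := true })
  · intro k hk hle
    have hk9 : k ≤ 15 := by omega
    interval_cases k <;> simp_all (config := { decide := true })

/-- No simple group of order 4500, 5292 or 6000. -/
theorem no_simple_inter {G : Type*} [Group G] [Finite G] [IsSimpleGroup G]
    (h : Nat.card G ∈ [4500, 5292, 6000]) : False := by
  simp only [List.mem_cons, List.mem_nil_iff, or_false] at h
  rcases h with h | h | h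
  · exact no_simple_4500 h
  · exact no_simple_5292 h
  · exact no_simple_6000 h

end Cfsg.Agent.H65.SylInterKills
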