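import Mathlib
import Cfsg.Agent.H17.TgDefs

/-!
# S1904 piece TG-CRIT (helper65): for normal `B < C` in a 2-group, `C / B` meets `Ω₁(Z(X / B))`
-/

set_option autoImplicit false
set_option linter.style.haveILetI false
set_option linter.unusedVariables false

namespace Cfsg.Agent.H65.Tg

open Cfsg.Agent.H17.Tg

universe u

/-- A nontrivial normal subgroup of a finite `p`-group contains a nontrivial central element
(as in helper64's `Cfsg.Agent.H64.Baer.normal_inf_center`). -/
theorem normal_meets_center {Q : Type*} [Group Q] [Finite Q] {p : ℕ} [Fact p.Prime]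
    (hQ : IsPGroup p Q) (N : Subgroup Q) [hN : N.Normal] (hne : N ≠ ⊥) :
    ∃ c ∈ N, c ≠ 1 ∧ ∀ g : Q, g * c = c * g := by
  have hNp : IsPGroup p N := hQ.to_subgroup N
  have hnt : Nontrivial N := (Subgroup.nontrivial_iff_ne_bot N).mpr hne
  have hdvd : p ∣ Nat.card N := by
    obtain ⟨k, hk⟩ := IsPGroup.iff_card.mp hNp
    rw [hk]
    have hk0 : k ≠ 0 := by
      rintro rfl
      rw [pow_zero] at hk
      have := Finite.one_lt_card (α := N)
      omega
    exact dvd_pow_self p hk0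
  have hC : IsPGroup p (ConjAct Q) := hQ
  have h1 : (1 : N) ∈ MulAction.fixedPoints (ConjAct Q) N := fun g => smul_one g
  obtain ⟨b, hb, hb1⟩ := hC.exists_fixed_point_of_prime_dvd_card_of_fixed_point (α := N) hdvd h1
  refine ⟨b, b.2, fun h => hb1 (Subtype.ext h.symm), fun g => ?_⟩
  have h2 := hb (ConjAct.toConjAct g)
  have h3 : g * (b : Q) * g⁻¹ = b := by
    have h4 := congrArg Subtype.val h2
    rw [ConjAct.Subgroup.val_conj_smul, ConjAct.smul_def, ConjAct.ofConjAct_toConjAct] at h4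
    exact h4
  calc g * (b : Q) = (g * (b : Q) * g⁻¹) * g := by group
    _ = (b : Q) * g := by rw [h3]

theorem crit : Cfsg.Agent.H17.Tg.StCrit.{u} := by
  intro X _ _ hX B C hB hC hBC hne
  classical
  haveI : Fact (Nat.Prime 2) := ⟨Nat.prime_two⟩
  haveI := hB
  haveI := hC
  have hQ : IsPGroup 2 (X ⧸ B) := hX.to_quotient B
  set π : X →* X ⧸ B := QuotientGroup.mk' B with hπ
  have hπs : Function.Surjective π := QuotientGroup.mk'_surjective B
  haveI hCn : (C.map π).Normal := Subgroup.Normal.map hC π hπs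
  have hCne : C.map π ≠ ⊥ := by
    intro hbot
    apply hne
    apply le_antisymm hBC
    intro c hc
    have h1 : π c ∈ C.map π := Subgroup.mem_map_of_mem π hc
    rw [hbot, Subgroup.mem_bot] at h1
    exact (QuotientGroup.eq_one_iff c).mp h1
  obtain ⟨c, hcC, hc1, hcz⟩ := normal_meets_center hQ (C.map π) hCne
  -- an element of order 2
  obtain ⟨k0, hk0⟩ := hQ c
  obtain ⟨j, hjk, hj⟩ := (Nat.dvd_prime_pow Nat.prime_two).mp (orderOf_dvd_of_pow_eq_one hk0)
  have hj0 : j ≠ 0 := by
    rintro rfl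
    rw [pow_zero, orderOf_eq_one_iff] at hj
    exact hc1 hj
  obtain ⟨i, rfl⟩ : ∃ i, j = i + 1 := ⟨j - 1, by omega⟩
  set d : X ⧸ B := c ^ 2 ^ i with hd
  have hd1 : d ≠ 1 := by
    intro h
    have h2 : orderOf c ∣ 2 ^ i := orderOf_dvd_of_pow_eq_one h
    rw [hj] at h2
    have h3 := Nat.le_of_dvd (by positivity) h2
    have h4 : 2 ^ i < 2 ^ (i + 1) := Nat.pow_lt_pow_right (by norm_num) (by omega)
    omega
  have hd2 : d ^ 2 = 1 := by
    rw [hd, ← pow_mul, ← pow_succ, ← hj, pow_orderOf_eq_one]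
  have hdC : d ∈ C.map π := pow_mem hcC _
  have hdz : ∀ g : X ⧸ B, g * d = d * g := by
    intro g
    have h1 : Commute g c := hcz g
    exact h1.pow_right _
  obtain ⟨k, hkC, hkd⟩ := Subgroup.mem_map.mp hdC
  refine ⟨k, hkC, ?_, ?_, ?_⟩
  · intro hkB
    apply hd1
    rw [← hkd]
    exact (QuotientGroup.eq_one_iff k).mpr hkB
  · have h1 : π (k ^ 2) = 1 := by rw [map_pow, hkd, hd2]
    exact (QuotientGroup.eq_one_iff _).mp h1
  · intro x
    have h1 : π (k * x * k⁻¹ * x⁻¹) = 1 := by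
      rw [map_mul, map_mul, map_mul, map_inv, map_inv, hkd, ← hdz (π x), mul_inv_cancel_right,
        mul_inv_cancel]
    exact (QuotientGroup.eq_one_iff _).mp h1

example : Cfsg.Agent.H17.Tg.StCrit.{u} := crit

end Cfsg.Agent.H65.Tg
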