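import Mathlib
import Cfsg.Agent.H17.TgDefs

/-!
# S1904 piece TG-FIX (helper65): an element fixed by `A` modulo `N ≥ X'` lies in `N` (norm map)
-/

set_option autoImplicit false
set_option linter.style.haveILetI false
set_option linter.unusedVariables false

namespace Cfsg.Agent.H65.Tg

open Cfsg.Agent.H17.Tg
open scoped commutatorElement

universe u

theorem fix : Cfsg.Agent.H17.Tg.StFix.{u} := by
  intro X _ _ A hyp N hN hcomm x hx
  classical
  haveI := hN
  haveI : Fintype A := Fintype.ofFinite A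
  -- the quotient is commutative
  have hQc : ∀ a b : X ⧸ N, a * b = b * a := by
    intro a b
    induction a using QuotientGroup.induction_on with
    | H a =>
      induction b using QuotientGroup.induction_on with
      | H b =>
        rw [← QuotientGroup.mk_mul, ← QuotientGroup.mk_mul, QuotientGroup.eq]
        apply hcomm
        have h1 : (a * b)⁻¹ * (b * a) = ⁅b⁻¹, a⁻¹⁆ := by
          rw [commutatorElement_def]; group
        rw [h1, commutator_def]
        exact Subgroup.commutator_mem_commutator (Subgroup.mem_top _) (Subgroup.mem_top _)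
  letI : CommGroup (X ⧸ N) := { (inferInstance : Group (X ⧸ N)) with mul_comm := hQc }
  -- the norm map
  set ν : X → X ⧸ N := fun g => ∏ φ : A, (QuotientGroup.mk ((φ : MulAut X) g) : X ⧸ N) with hν
  have hνmul : ∀ g h : X, ν (g * h) = ν g * ν h := by
    intro g h
    show ∏ φ : A, (QuotientGroup.mk ((φ : MulAut X) (g * h)) : X ⧸ N) =
      (∏ φ : A, (QuotientGroup.mk ((φ : MulAut X) g) : X ⧸ N)) *
        ∏ φ : A, (QuotientGroup.mk ((φ : MulAut X) h) : X ⧸ N)
    rw [← Finset.prod_mul_distrib]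
    apply Finset.prod_congr rfl
    intro φ _
    rw [map_mul]
    rfl
  have hνone : ν 1 = 1 := by
    have h1 := hνmul 1 1
    rw [mul_one] at h1
    exact (mul_eq_left.mp h1.symm)
  have hνinv : ∀ g : X, ν g⁻¹ = (ν g)⁻¹ := by
    intro g
    have h1 := hνmul g⁻¹ g
    rw [inv_mul_cancel, hνone] at h1
    exact eq_inv_of_mul_eq_one_left h1.symm
  have hνinvar : ∀ ψ ∈ A, ∀ g : X, ν (ψ g) = ν g := by
    intro ψ hψ g
    show ∏ φ : A, (QuotientGroup.mk ((φ : MulAut X) (ψ g)) : X ⧸ N) =
      ∏ φ : A, (QuotientGroup.mk ((φ : MulAut X) g) : X ⧸ N)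
    exact Fintype.prod_equiv (Equiv.mulRight (⟨ψ, hψ⟩ : A)) _ _ (fun φ => rfl)
  -- `ν` is trivial
  let K : Subgroup X :=
    { carrier := {g | ν g = 1}
      mul_mem' := by
        intro a b ha hb
        show ν (a * b) = 1
        rw [hνmul, show ν a = 1 from ha, show ν b = 1 from hb, mul_one]
      one_mem' := hνone
      inv_mem' := by
        intro a ha
        show ν a⁻¹ = 1
        rw [hνinv, show ν a = 1 from ha, inv_one] }
  have hK : K = ⊤ := by
    rw [eq_top_iff, ← hyp.gen, Subgroup.closure_le]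
    rintro g ⟨φ, hφ, y, rfl⟩
    show ν (y⁻¹ * φ y) = 1
    rw [hνmul, hνinv, hνinvar φ hφ, inv_mul_cancel]
  have hνx : ν x = 1 := by
    have h1 : x ∈ K := by rw [hK]; exact Subgroup.mem_top x
    exact h1
  -- `ν x = (mk x) ^ |A|`
  have hpow : ν x = (QuotientGroup.mk x : X ⧸ N) ^ Fintype.card A := by
    show ∏ φ : A, (QuotientGroup.mk ((φ : MulAut X) x) : X ⧸ N) = _
    rw [Finset.prod_congr rfl (fun (φ : A) _ => (show (QuotientGroup.mk ((φ : MulAut X) x) : X ⧸ N) =
      QuotientGroup.mk x from (QuotientGroup.eq.mpr (hx φ.1 φ.2)).symm))]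
    rw [Finset.prod_const, Finset.card_univ]
  rw [hνx] at hpow
  -- conclusion
  have hQ : IsPGroup 2 (X ⧸ N) := hyp.pgrp.to_quotient N
  obtain ⟨k, hk⟩ := hQ (QuotientGroup.mk x : X ⧸ N)
  have hodd : Odd (Fintype.card A) := by
    rw [← Nat.card_eq_fintype_card]; exact hyp.odd
  have hcop : Nat.Coprime (2 ^ k) (Fintype.card A) :=
    Nat.Coprime.pow_left k (Nat.coprime_two_left.mpr hodd)
  have h1 : (QuotientGroup.mk x : X ⧸ N) ^ Nat.gcd (2 ^ k) (Fintype.card A) = 1 :=
    pow_gcd_eq_one.mpr ⟨hk, hpow.symm⟩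
  rw [hcop, pow_one] at h1
  exact (QuotientGroup.eq_one_iff x).mp h1

example : Cfsg.Agent.H17.Tg.StFix.{u} := fix

end Cfsg.Agent.H65.Tg
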