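import Mathlib
import Cfsg.Agent.H17.TgDefs

/-!
# S1904 piece TG-IDX2 (helper65): no `A`-invariant subgroup of index 2
-/

set_option autoImplicit false
set_option linter.style.haveILetI false
set_option linter.unusedVariables false

namespace Cfsg.Agent.H65.Tg

open Cfsg.Agent.H17.Tg

universe u

theorem idx2 : Cfsg.Agent.H17.Tg.StIdx2.{u} := by
  intro X _ _ A hyp H hinv hidx
  have hle : Subgroup.closure {g : X | ∃ φ ∈ A, ∃ x : X, g = x⁻¹ * φ x} ≤ H := by
    rw [Subgroup.closure_le]
    rintro g ⟨φ, hφ, x, rfl⟩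
    show x⁻¹ * φ x ∈ H
    rw [Subgroup.mul_mem_iff_of_index_two hidx, inv_mem_iff]
    constructor
    · intro hx
      exact hinv φ hφ x hx
    · intro hx
      have h1 := hinv φ⁻¹ (A.inv_mem hφ) (φ x) hx
      rwa [MulAut.inv_apply_self] at h1
  rw [hyp.gen, top_le_iff] at hle
  rw [hle, Subgroup.index_top] at hidx
  omega

example : Cfsg.Agent.H17.Tg.StIdx2.{u} := idx2

end Cfsg.Agent.H65.Tg
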