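import Mathlib
import Cfsg.Agent.H17.TgDefs

/-!
# S1904 piece TG-VB (helper65, parallel take): `V_B = Ω₁(B)` is a central four-group on which
`A` acts without fixed points
-/

set_option autoImplicit false
set_option linter.style.haveILetI false
set_option linter.unusedVariables false

namespace Cfsg.Agent.H65.Tg

open Cfsg.Agent.H17.Tg

universe u

theorem vb (hC : StCent.{u}) (hL : StL11.{u}) (hF : StFour.{u}) : StVB.{u} := by
  intro X _ _ A hyp B hB hBZ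
  obtain ⟨hBn, hBinv, hBab⟩ := hB
  -- `V = Ω₁(B)`
  let V : Subgroup X :=
    { carrier := {v | v ∈ B ∧ v ^ 2 = 1}
      mul_mem' := by
        rintro a b ⟨ha, ha2⟩ ⟨hb, hb2⟩
        refine ⟨B.mul_mem ha hb, ?_⟩
        have hc : Commute a b := hBab a ha b hb
        rw [hc.mul_pow, ha2, hb2, mul_one]
      one_mem' := ⟨B.one_mem, one_pow 2⟩
      inv_mem' := by
        rintro a ⟨ha, ha2⟩
        exact ⟨B.inv_mem ha, by rw [inv_pow, ha2, inv_one]⟩ }
  have hVmem : ∀ v : X, v ∈ V ↔ v ∈ B ∧ v ^ 2 = 1 := fun v => Iff.rfl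
  have hVn : V.Normal := by
    constructor
    intro v hv g
    obtain ⟨hvB, hv2⟩ := hv
    refine ⟨hBn.conj_mem v hvB g, ?_⟩
    rw [conj_pow, hv2, mul_one, mul_inv_cancel]
  have hVinv : AInv A V := by
    intro φ hφ v hv
    obtain ⟨hvB, hv2⟩ := hv
    exact ⟨hBinv φ hφ v hvB, by rw [← map_pow, hv2, map_one]⟩
  have hVexp : ∀ a ∈ V, a ^ 2 = 1 := fun a ha => ha.2
  have hVB : V ≤ B := fun v hv => hv.1
  have hVZ : V ≤ Subgroup.center X := hC X A hyp V hVn hVinv hVexp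
  have hVcard : Nat.card V ≤ 4 := hyp.rank B hBn hBab V hVB hVexp
  have hnontriv : ∃ φ ∈ A, ∃ w ∈ V, φ w ≠ w := by
    by_contra hcon
    push Not at hcon
    apply hBZ
    apply hL X A hyp B ⟨hBn, hBinv, hBab⟩
    intro φ hφ v hvB hv2
    exact hcon φ hφ v ⟨hvB, hv2⟩
  obtain ⟨h4, hdich, hmove, htrans, hirr⟩ := hF X A hyp.odd V hVinv hVexp hVcard hnontriv
  refine ⟨fun v hvB hv2 => hVZ ⟨hvB, hv2⟩, ?_, ?_, ?_, ?_, ?_⟩
  · rw [← h4]
    exact Nat.card_congr (Equiv.subtypeEquivRight (fun v => (hVmem v).symm))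
  · intro φ hφ
    rcases hdich φ hφ with h | h
    · exact Or.inl (fun v hvB hv2 => h v ⟨hvB, hv2⟩)
    · exact Or.inr (fun v hvB hv2 hv1 => h v ⟨hvB, hv2⟩ hv1)
  · intro v hvB hv2 hv1
    exact hmove v ⟨hvB, hv2⟩ hv1
  · intro v hvB hv2 hv1 v' hvB' hv2' hv1'
    exact htrans v ⟨hvB, hv2⟩ hv1 v' ⟨hvB', hv2'⟩ hv1'
  · intro W hWinv hW
    have hWV : W ≤ V := fun w hw => hW w hw
    rcases hirr W hWV hWinv with h | h
    · exact Or.inl h
    · right
      intro v hvB hv2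
      rw [h]
      exact ⟨hvB, hv2⟩

example (hC : StCent.{u}) (hL : StL11.{u}) (hF : StFour.{u}) : Cfsg.Agent.H17.Tg.StVB.{u} :=
  vb hC hL hF

end Cfsg.Agent.H65.Tg
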